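import Cfsg.Agent.SpPres.Gen

/-!
The relations hold in `Sp_{2m}`.
-/

set_option autoImplicit false
set_option linter.unusedSectionVars false
set_option maxHeartbeats 800000

namespace Cfsg.Agent.SpPres

open Matrix Matrix.SpecialLinearGroup

variable {F : Type*} [Field F] {k : ℕ}

/-- The first diagonal matrix unit. -/
abbrev e00 : Mk F k := Matrix.single 0 0 1

theorem blk_mul (a b c d a' b' c' d' : F) :
    ((1 - e00 + a • e00) : Mk F k) * (1 - e00 + a' • e00) + (b • e00) * (c' • e00) =
      1 - e00 + (a * a' + b * c') • e00 := by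
  simp only [Matrix.mul_add, Matrix.add_mul, Matrix.sub_mul, Matrix.mul_sub, Matrix.one_mul,
    Matrix.mul_one, Matrix.smul_mul, Matrix.mul_smul, Matrix.single_mul_single_same, mul_one,
    smul_smul, add_smul]
  module

theorem blk_off (a b b' d' : F) :
    ((1 - e00 + a • e00) : Mk F k) * (b' • e00) + (b • e00) * (1 - e00 + d' • e00) =
      (a * b' + b * d') • e00 := by
  simp only [Matrix.mul_add, Matrix.add_mul, Matrix.sub_mul, Matrix.mul_sub, Matrix.one_mul,
    Matrix.mul_one, Matrix.smul_mul, Matrix.mul_smul, Matrix.single_mul_single_same, mul_one,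
    smul_smul, add_smul]
  module

/-- The embedding of `SL₂` at the first index, as matrices. -/
def emb0Mat (a : Matrix (Fin 2) (Fin 2) F) :
    Matrix (Fin (k + 3) ⊕ Fin (k + 3)) (Fin (k + 3) ⊕ Fin (k + 3)) F :=
  fromBlocks (1 - e00 + a 0 0 • e00) (a 0 1 • e00) (a 1 0 • e00) (1 - e00 + a 1 1 • e00)

/-- The embedding of `SL₂` at the first index. -/
noncomputable def emb0 : SpecialLinearGroup (Fin 2) F →* Spg F k where
  toFun a := ⟨emb0Mat a.1, by
    have hd := det_fin_two a.1
    rw [a.2] at hd
    rw [SymplecticGroup.mem_iff]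
    simp only [emb0Mat, Matrix.J, fromBlocks_multiply, fromBlocks_transpose, transpose_add,
      transpose_sub, transpose_smul, transpose_one, transpose_single]
    congr 1 <;>
      simp only [Matrix.mul_add, Matrix.add_mul, Matrix.sub_mul, Matrix.mul_sub, Matrix.one_mul,
        Matrix.mul_one, Matrix.smul_mul, Matrix.mul_smul, Matrix.single_mul_single_same, mul_one,
        Matrix.mul_zero, Matrix.zero_mul, zero_add, add_zero, Matrix.neg_mul, Matrix.mul_neg,
        smul_smul, smul_neg, neg_mul, one_mul, mul_zero, zero_mul]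
    all_goals (ext i j; simp only [Matrix.add_apply, Matrix.sub_apply, Matrix.neg_apply,
      Matrix.smul_apply, smul_eq_mul, Matrix.zero_apply, Matrix.one_apply, Matrix.single_apply]
               by_cases hi : i = 0 <;> by_cases hj : j = 0 <;>
                 simp [hi, hj, Ne.symm] <;> first | ring1 | linear_combination hd | linear_combination -hd)⟩
  map_one' := Subtype.ext (by
    show emb0Mat _ = (1 : Matrix (Fin (k + 3) ⊕ Fin (k + 3)) (Fin (k + 3) ⊕ Fin (k + 3)) F)
    simp [emb0Mat, fromBlocks_one])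
  map_mul' a b := Subtype.ext (by
    show emb0Mat (a.1 * b.1) = emb0Mat a.1 * emb0Mat b.1
    simp only [emb0Mat, fromBlocks_multiply, Matrix.mul_apply, Fin.sum_univ_two]
    congr 1
    · exact (blk_mul _ _ 0 0 _ 0 _ 0).symm
    · exact (blk_off _ _ _ _).symm
    · rw [add_comm (a.1 1 0 * b.1 0 0)]
      exact ((add_comm _ _).trans (blk_off _ _ _ _)).symm
    · rw [add_comm (a.1 1 0 * b.1 0 1)]
      exact ((add_comm _ _).trans (blk_mul _ _ 0 0 _ 0 _ 0)).symm)

theorem val_emb0 (a : SpecialLinearGroup (Fin 2) F) :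
    (emb0 (k := k) a : Matrix (Fin (k + 3) ⊕ Fin (k + 3)) (Fin (k + 3) ⊕ Fin (k + 3)) F) =
      emb0Mat a.1 := rfl

theorem emb0_up (c : F) :
    emb0 (k := k) (up c) = Known.SpSpan.xS (Matrix.single 0 0 c) := by
  refine Subtype.ext ?_
  rw [val_emb0, val_up, Known.SpSpan.val_xS (transpose_single _ _ _)]
  simp [emb0Mat, Matrix.smul_single]

theorem emb0_lo (c : F) : emb0 (k := k) (lo c) = lS (Matrix.single 0 0 c) := by
  refine Subtype.ext ?_
  rw [val_emb0, val_lo, val_lS (transpose_single _ _ _)]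
  simp [emb0Mat, Matrix.smul_single]

theorem conj_single {g : SpecialLinearGroup (Fin (k + 3)) F} (hg : act g (ev 0) = ev 0) (c : F) :
    (g : Mk F k) * Matrix.single 0 0 c * (g : Mk F k)ᵀ = Matrix.single 0 0 c := by
  rw [single_eq_vv, conj_smul_vv]
  simp only [act] at hg
  rw [hg]

theorem model_fixx {g : SpecialLinearGroup (Fin (k + 3)) F} (hg : act g (ev 0) = ev 0) (c : F) :
    Commute (Known.SpSpan.levi g) (emb0 (up c)) := by
  rw [emb0_up]
  exact Known.SpSpan.levi_commute (transpose_single _ _ _) (conj_single hg c)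

theorem model_fixy {g : SpecialLinearGroup (Fin (k + 3)) F} (hg : act (iT g) (ev 0) = ev 0) (c : F) :
    Commute (Known.SpSpan.levi g) (emb0 (lo c)) := by
  have := levi_conj_lS g (A := Matrix.single 0 0 c) (transpose_single _ _ _)
  rw [conj_single hg, mul_inv_eq_iff_eq_mul] at this
  rwa [emb0_lo]

theorem model_L1 {g : SpecialLinearGroup (Fin (k + 3)) F} (hg : Fix0 g)
    (a : SpecialLinearGroup (Fin 2) F) : Commute (Known.SpSpan.levi g) (emb0 a) := by
  induction a using Linear.transvection_induction with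
  | htransvec i j hij t =>
    obtain ⟨rfl, rfl⟩ | ⟨rfl, rfl⟩ : (i = 0 ∧ j = 1) ∨ (i = 1 ∧ j = 0) := by
      fin_cases i <;> fin_cases j <;> simp_all
    · exact model_fixx hg.1 t
    · exact model_fixy hg.iT.1 t
  | hmul A B hA hB => rw [map_mul]; exact hA.mul_right hB

theorem model_L2 {z : F} (hz : z ≠ 0) (a : SpecialLinearGroup (Fin 2) F) :
    Known.SpSpan.levi (diag2n (zero_ne_one' (Fin (k + 3))) z hz) * emb0 a *
      (Known.SpSpan.levi (diag2n (zero_ne_one' (Fin (k + 3))) z hz))⁻¹ =
        emb0 (dl hz * a * (dl hz)⁻¹) := by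
  obtain ⟨d0, -, d2, -⟩ := Rels.d_pow (k := k) (hz := hz) 1
  rw [pow_one, pow_one] at d0 d2
  induction a using Linear.transvection_induction with
  | htransvec i j hij t =>
    obtain ⟨rfl, rfl⟩ | ⟨rfl, rfl⟩ : (i = 0 ∧ j = 1) ∨ (i = 1 ∧ j = 0) := by
      fin_cases i <;> fin_cases j <;> simp_all
    · have := dl_pow_conj_up hz 1 t
      rw [pow_one, pow_one] at this
      rw [show SpecialLinearGroup.transvection hij t = up t from rfl, this, mul_inv_cancel_right,
        emb0_up, emb0_up, Known.SpSpan.levi_conj _ (transpose_single _ _ _)]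
      congr 1
      rw [single_eq_vv, conj_smul_vv, show (diag2n (zero_ne_one' (Fin (k + 3))) z hz : Mk F k) *ᵥ
        ev 0 = z • ev 0 from d0, single_eq_vv]
      ext p q
      simp [vecMulVec_apply, sq]
      ring
    · have := dl_pow_conj_lo hz 1 t
      rw [pow_one, pow_one] at this
      rw [show SpecialLinearGroup.transvection hij t = lo t from rfl, this, mul_inv_cancel_right,
        emb0_lo, emb0_lo, levi_conj_lS _ (transpose_single _ _ _)]
      congr 1
      rw [single_eq_vv, conj_smul_vv, show (iT (diag2n (zero_ne_one' (Fin (k + 3))) z hz) : Mk F k) *ᵥ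
        ev 0 = z⁻¹ • ev 0 from d2, single_eq_vv]
      ext p q
      simp [vecMulVec_apply, sq]
      ring
  | hmul A B hA hB =>
    rw [map_mul, show dl hz * (A * B) * (dl hz)⁻¹ = (dl hz * A * (dl hz)⁻¹) * (dl hz * B * (dl hz)⁻¹)
      by group, map_mul, ← hA, ← hB]
    group

theorem levi_el_val {i j : Fin (k + 3)} (hij : i ≠ j) (t : F) :
    (Known.SpSpan.levi (el hij t) : Matrix (Fin (k + 3) ⊕ Fin (k + 3)) (Fin (k + 3) ⊕ Fin (k + 3)) F) =
      fromBlocks (1 + Matrix.single i j t) 0 0 (1 + Matrix.single j i (-t)) := by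
  rw [Known.SpSpan.val_levi]
  congr 1
  rw [show ((el hij t)⁻¹ : SpecialLinearGroup (Fin (k + 3)) F) = el hij (-t) from
    transvection_inv hij t]
  simp [transvection_coe, transpose_single]

theorem emb0_wl_val :
    (emb0 (k := k) (wl : SpecialLinearGroup (Fin 2) F) :
      Matrix (Fin (k + 3) ⊕ Fin (k + 3)) (Fin (k + 3) ⊕ Fin (k + 3)) F) =
      fromBlocks (1 - e00) e00 (-e00) (1 - e00) := by
  rw [val_emb0]
  simp only [Linear.val_mul, val_up, val_lo]
  simp [emb0Mat, Matrix.mul_apply]

theorem wl_levi (c : F) :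
    emb0 wl * Known.SpSpan.levi (el one_ne_zero (-c)) =
      Known.SpSpan.xS (Side.pm (F := F) (k := k) 0 1 c) * emb0 wl := by
  refine Subtype.ext ?_
  rw [Submonoid.coe_mul, Submonoid.coe_mul, levi_el_val, emb0_wl_val,
    Known.SpSpan.val_xS (by simp [Side.pm, transpose_single, add_comm]), fromBlocks_multiply,
    fromBlocks_multiply]
  congr 1 <;>
    simp [Side.pm, Matrix.add_mul, Matrix.mul_add, Matrix.sub_mul, Matrix.mul_sub, Matrix.neg_mul,
      Matrix.mul_neg, Matrix.single_mul_single_same, Matrix.single_mul_single_of_ne,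
      ← Matrix.single_neg] <;> abel

theorem levi_wl (c : F) :
    Known.SpSpan.levi (el zero_ne_one c) * emb0 wl =
      emb0 wl * lS (Side.pm (F := F) (k := k) 0 1 c) := by
  refine Subtype.ext ?_
  rw [Submonoid.coe_mul, Submonoid.coe_mul, levi_el_val, emb0_wl_val,
    val_lS (by simp [Side.pm, transpose_single, add_comm]), fromBlocks_multiply,
    fromBlocks_multiply]
  congr 1 <;>
    simp [Side.pm, Matrix.add_mul, Matrix.mul_add, Matrix.sub_mul, Matrix.mul_sub, Matrix.neg_mul,
      Matrix.mul_neg, Matrix.single_mul_single_same, Matrix.single_mul_single_of_ne,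
      ← Matrix.single_neg] <;> abel

theorem val_emb0_dl {z : F} (hz : z ≠ 0) :
    (emb0 (k := k) (dl hz) : Matrix (Fin (k + 3) ⊕ Fin (k + 3)) (Fin (k + 3) ⊕ Fin (k + 3)) F) =
      fromBlocks (1 - e00 + z • e00) 0 0 (1 - e00 + z⁻¹ • e00) := by
  rw [val_emb0, val_dl]
  simp [emb0Mat]

theorem model_hx {z : F} (hz : z ≠ 0) :
    emb0 (dl hz) * Known.SpSpan.levi (el one_ne_zero 1) * (emb0 (dl hz))⁻¹ =
      Known.SpSpan.levi (el (F := F) (k := k) one_ne_zero z⁻¹) := by
  rw [mul_inv_eq_iff_eq_mul]
  refine Subtype.ext ?_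
  rw [Submonoid.coe_mul, Submonoid.coe_mul, levi_el_val, levi_el_val, val_emb0_dl,
    fromBlocks_multiply, fromBlocks_multiply]
  congr 1 <;>
    simp [Matrix.add_mul, Matrix.mul_add, Matrix.sub_mul, Matrix.mul_sub,
      Matrix.single_mul_single_same, Matrix.single_mul_single_of_ne, Matrix.smul_single, hz,
      ← Matrix.single_neg] <;> abel

theorem model_hy {z : F} (hz : z ≠ 0) :
    emb0 (dl hz) * Known.SpSpan.levi (el zero_ne_one 1) * (emb0 (dl hz))⁻¹ =
      Known.SpSpan.levi (el (F := F) (k := k) zero_ne_one z) := by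
  rw [mul_inv_eq_iff_eq_mul]
  refine Subtype.ext ?_
  rw [Submonoid.coe_mul, Submonoid.coe_mul, levi_el_val, levi_el_val, val_emb0_dl,
    fromBlocks_multiply, fromBlocks_multiply]
  congr 1 <;>
    simp [Matrix.add_mul, Matrix.mul_add, Matrix.sub_mul, Matrix.mul_sub,
      Matrix.single_mul_single_same, Matrix.single_mul_single_of_ne, Matrix.smul_single, hz,
      ← Matrix.single_neg] <;> abel

theorem model_sw_up (c : F) :
    Known.SpSpan.levi (sw one_ne_zero) * emb0 (up c) * (Known.SpSpan.levi (sw one_ne_zero))⁻¹ =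
      Known.SpSpan.xS (c • vecMulVec (ev 1) (ev (F := F) (k := k) 1)) := by
  rw [emb0_up, Known.SpSpan.levi_conj _ (transpose_single _ _ _), single_eq_vv, conj_smul_vv]
  exact congrArg (fun v => Known.SpSpan.xS (c • vecMulVec v v)) (sw_ev one_ne_zero)

theorem model_sw_lo (c : F) :
    Known.SpSpan.levi (sw one_ne_zero) * emb0 (lo c) * (Known.SpSpan.levi (sw one_ne_zero))⁻¹ =
      lS (c • vecMulVec (ev 1) (ev (F := F) (k := k) 1)) := by
  rw [emb0_lo, levi_conj_lS _ (transpose_single _ _ _), single_eq_vv, conj_smul_vv, iT_sw]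
  exact congrArg (fun v => lS (c • vecMulVec v v)) (sw_ev one_ne_zero)

theorem split_vv (v : Vc F k) (hv : v = ev 0 + ev 1) :
    (1 : F) • vecMulVec v v =
      Matrix.single 0 0 1 + (1 : F) • vecMulVec (ev 1) (ev 1) + Side.pm 0 1 1 := by
  subst hv
  ext i j
  simp only [Side.pm, Matrix.smul_apply, Matrix.add_apply, vecMulVec_apply, Pi.add_apply,
    Pi.single_apply, Matrix.single_apply, smul_eq_mul]
  by_cases h1 : i = 0 <;> by_cases h2 : i = 1 <;> by_cases h3 : j = 0 <;>
    by_cases h4 : j = 1 <;> simp_all [eq_comm]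

/-- The relations hold in the symplectic group. -/
theorem model_relations {z : F} (hz : z ≠ 0)
    (G : Fin 2 → SpecialLinearGroup (Fin (k + 2)) F) (s : Fin 3 → SpecialLinearGroup (Fin 2) F) :
    RelEqs (Known.SpSpan.levi (F := F) (n := k + 3)) emb0 hz G s where
  l1 i j := model_L1 (low_fix _) _
  l2 j := model_L2 hz _
  hx := model_hx hz
  hy := model_hy hz
  l3x := model_fixx (by rw [act_el]; simp) 1
  l3y := model_fixy (by rw [Sys.iT_el, act_el]; simp) 1
  cxx := by
    rw [model_sw_up, emb0_up, Commute, SemiconjBy,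
      ← Known.SpSpan.xS_add (transpose_single _ _ _) (by simp [transpose_vecMulVec]),
      ← Known.SpSpan.xS_add (by simp [transpose_vecMulVec]) (transpose_single _ _ _)]
    exact congrArg _ (add_comm _ _)
  cyy := by
    rw [model_sw_lo, emb0_lo, Commute, SemiconjBy,
      ← lS_add (transpose_single _ _ _) (by simp [transpose_vecMulVec]),
      ← lS_add (by simp [transpose_vecMulVec]) (transpose_single _ _ _)]
    exact congrArg _ (add_comm _ _)
  cyx := by
    rw [model_sw_up, emb0_lo, Commute, SemiconjBy]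
    refine Subtype.ext ?_
    rw [Submonoid.coe_mul, Submonoid.coe_mul, val_lS (transpose_single _ _ _),
      Known.SpSpan.val_xS (by simp [transpose_vecMulVec]), fromBlocks_multiply, fromBlocks_multiply]
    have e1 : (Matrix.single 0 0 1 : Mk F k) * ((1 : F) • vecMulVec (ev 1) (ev 1)) = 0 := by
      rw [one_smul, mul_vecMulVec]
      ext i j
      simp [vecMulVec_apply, Pi.single_apply, Matrix.single_apply]
    have e2 : ((1 : F) • vecMulVec (ev 1) (ev 1) : Mk F k) * Matrix.single 0 0 1 = 0 := by
      rw [one_smul, vecMulVec_mul]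
      ext i j
      simp [vecMulVec_apply, Pi.single_apply, Matrix.single_apply]
    simp only [Matrix.one_mul, Matrix.mul_one, Matrix.mul_zero, Matrix.zero_mul, e1, e2, add_zero,
      zero_add]
  mx := by
    rw [model_sw_up, wl_levi, mul_inv_cancel_right, emb0_up,
      Known.SpSpan.levi_conj _ (transpose_single _ _ _), single_eq_vv, conj_smul_vv, ← single_eq_vv,
      split_vv _ (by rw [← act, act_el]; simp),
      Known.SpSpan.xS_add (by simp [transpose_vecMulVec, transpose_single])
        (by simp [Side.pm, transpose_single, add_comm]),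
      Known.SpSpan.xS_add (transpose_single _ _ _) (by simp [transpose_vecMulVec])]
  my := by
    rw [model_sw_lo, mul_assoc (emb0 wl)⁻¹, levi_wl, inv_mul_cancel_left, emb0_lo,
      levi_conj_lS _ (transpose_single _ _ _), single_eq_vv, conj_smul_vv, ← single_eq_vv,
      split_vv _ (by rw [← act, Sys.iT_el, neg_neg, act_el]; simp),
      lS_add (by simp [transpose_vecMulVec, transpose_single])
        (by simp [Side.pm, transpose_single, add_comm]),
      lS_add (transpose_single _ _ _) (by simp [transpose_vecMulVec])]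

end Cfsg.Agent.SpPres
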