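import Cfsg.Agent.SpPres.Trivial
import Cfsg.Agent.SpPres.Model
import Cfsg.Agent.ShortPres.Tools
import Cfsg.Agent.SL2Pres.Main
import Cfsg.Agent.S2402
import Cfsg.Agent.S2403

/-!
The short presentation of `Sp_{2m}(q)`.
-/

set_option autoImplicit false
set_option linter.unusedSectionVars false
set_option maxHeartbeats 800000

namespace Cfsg.Agent.SpPres

open Matrix Cfsg.Agent.GKKL Cfsg.Agent.ShortPres
open scoped commutatorElement

universe u

/-- A quotient of a free product of presented groups by a list of elements. -/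
theorem hasPres_of_coprod {A B H : Type*} [Group A] [Group B] [Group H] {a b ra rb : ℕ}
    {vA : Fin a → A} {vB : Fin b → B} (hA : HasPres vA ra) (hB : HasPres vB rb)
    (π : Monoid.Coprod A B →* H) (R : List (Monoid.Coprod A B)) (hR : ∀ x ∈ R, π x = 1)
    (hsurj : Function.Surjective π)
    (hker : π.ker ≤ Subgroup.normalClosure {x | x ∈ R}) :
    ∃ v : Fin (a + b) → H, HasPres v (ra + rb + R.length) := by
  classical
  obtain ⟨relsA, hcA, eA, heA⟩ := id hA
  obtain ⟨relsB, hcB, eB, heB⟩ := id hB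
  let vC : Fin (a + b) → Monoid.Coprod A B :=
    Fin.append (fun i => Monoid.Coprod.inl (vA i)) (fun i => Monoid.Coprod.inr (vB i))
  have hgenC : Subgroup.closure (Set.range vC) = ⊤ := by
    rw [eq_top_iff, ← Monoid.Coprod.range_inl_sup_range_inr, sup_le_iff]
    constructor
    · rw [MonoidHom.range_eq_map, ← closure_range_of_hasPres hA, MonoidHom.map_closure,
        Subgroup.closure_le]
      rintro _ ⟨_, ⟨i, rfl⟩, rfl⟩
      exact Subgroup.subset_closure ⟨Fin.castAdd b i, by simp [vC]⟩
    · rw [MonoidHom.range_eq_map, ← closure_range_of_hasPres hB, MonoidHom.map_closure,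
        Subgroup.closure_le]
      rintro _ ⟨_, ⟨i, rfl⟩, rfl⟩
      exact Subgroup.subset_closure ⟨Fin.natAdd a i, by simp [vC]⟩
  let wd : Monoid.Coprod A B → FreeGroup (Fin (a + b)) := Function.invFun (FreeGroup.lift vC)
  have hwd : ∀ x, FreeGroup.lift vC (wd x) = x := lift_invFun hgenC
  let RS : Finset (FreeGroup (Fin (a + b))) :=
    relsA.image (FreeGroup.map (Fin.castAdd b)) ∪ relsB.image (FreeGroup.map (Fin.natAdd a)) ∪
      R.toFinset.image wd
  let v : Fin (a + b) → H := fun i => π (vC i)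
  have hv : ∀ x, FreeGroup.lift v x = π (FreeGroup.lift vC x) := fun x =>
    DFunLike.congr_fun (FreeGroup.ext_hom (FreeGroup.lift v) (π.comp (FreeGroup.lift vC))
      fun i => by simp [v]) x
  have hliftA : ∀ x, FreeGroup.lift vA x = eA (PresentedGroup.mk _ x) := fun x =>
    DFunLike.congr_fun (FreeGroup.ext_hom (FreeGroup.lift vA)
      (eA.toMonoidHom.comp (PresentedGroup.mk _)) fun i => by
        simp only [MonoidHom.comp_apply, FreeGroup.lift_apply_of]
        exact (heA i).symm) x
  have hliftB : ∀ x, FreeGroup.lift vB x = eB (PresentedGroup.mk _ x) := fun x =>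
    DFunLike.congr_fun (FreeGroup.ext_hom (FreeGroup.lift vB)
      (eB.toMonoidHom.comp (PresentedGroup.mk _)) fun i => by
        simp only [MonoidHom.comp_apply, FreeGroup.lift_apply_of]
        exact (heB i).symm) x
  have hmapA : ∀ x, FreeGroup.lift vC (FreeGroup.map (Fin.castAdd b) x) =
      Monoid.Coprod.inl (FreeGroup.lift vA x) := fun x =>
    DFunLike.congr_fun (FreeGroup.ext_hom ((FreeGroup.lift vC).comp (FreeGroup.map (Fin.castAdd b)))
      (Monoid.Coprod.inl.comp (FreeGroup.lift vA)) fun i => by simp [vC]) x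
  have hmapB : ∀ x, FreeGroup.lift vC (FreeGroup.map (Fin.natAdd a) x) =
      Monoid.Coprod.inr (FreeGroup.lift vB x) := fun x =>
    DFunLike.congr_fun (FreeGroup.ext_hom ((FreeGroup.lift vC).comp (FreeGroup.map (Fin.natAdd a)))
      (Monoid.Coprod.inr.comp (FreeGroup.lift vB)) fun i => by simp [vC]) x
  let mk := PresentedGroup.mk (↑RS : Set (FreeGroup (Fin (a + b))))
  have hmem : ∀ {x}, x ∈ RS → mk x = 1 := fun hx =>
    PresentedGroup.one_of_mem (Finset.mem_coe.2 hx)
  have hrelA : ∀ x ∈ (↑relsA : Set (FreeGroup (Fin a))),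
      FreeGroup.lift (fun i => mk (FreeGroup.of (Fin.castAdd b i))) x = 1 := fun x hx => by
    rw [show FreeGroup.lift (fun i => mk (FreeGroup.of (Fin.castAdd b i))) x =
        mk (FreeGroup.map (Fin.castAdd b) x) from
      DFunLike.congr_fun (FreeGroup.ext_hom (FreeGroup.lift fun i => mk (FreeGroup.of (Fin.castAdd b i)))
        (mk.comp (FreeGroup.map (Fin.castAdd b))) fun i => by simp) x]
    exact hmem (Finset.mem_union_left _ (Finset.mem_union_left _ (Finset.mem_image_of_mem _ hx)))
  have hrelB : ∀ x ∈ (↑relsB : Set (FreeGroup (Fin b))),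
      FreeGroup.lift (fun i => mk (FreeGroup.of (Fin.natAdd a i))) x = 1 := fun x hx => by
    rw [show FreeGroup.lift (fun i => mk (FreeGroup.of (Fin.natAdd a i))) x =
        mk (FreeGroup.map (Fin.natAdd a) x) from
      DFunLike.congr_fun (FreeGroup.ext_hom (FreeGroup.lift fun i => mk (FreeGroup.of (Fin.natAdd a i)))
        (mk.comp (FreeGroup.map (Fin.natAdd a))) fun i => by simp) x]
    exact hmem (Finset.mem_union_left _ (Finset.mem_union_right _ (Finset.mem_image_of_mem _ hx)))
  let q := Monoid.Coprod.lift ((PresentedGroup.toGroup hrelA).comp eA.symm.toMonoidHom)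
    ((PresentedGroup.toGroup hrelB).comp eB.symm.toMonoidHom)
  have hq : ∀ i, q (vC i) = mk (FreeGroup.of i) := fun i => by
    refine Fin.addCases (fun j => ?_) (fun j => ?_) i
    · simp only [vC, Fin.append_left, q, Monoid.Coprod.lift_apply_inl, MonoidHom.comp_apply]
      show PresentedGroup.toGroup hrelA (eA.symm (vA j)) = _
      rw [← heA, MulEquiv.symm_apply_apply, PresentedGroup.toGroup.of]
    · simp only [vC, Fin.append_right, q, Monoid.Coprod.lift_apply_inr, MonoidHom.comp_apply]
      show PresentedGroup.toGroup hrelB (eB.symm (vB j)) = _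
      rw [← heB, MulEquiv.symm_apply_apply, PresentedGroup.toGroup.of]
  have hqR : ∀ x ∈ R, q x = 1 := fun x hx => by
    have e : q x = mk (wd x) := by
      conv_lhs => rw [← hwd x]
      exact DFunLike.congr_fun (FreeGroup.ext_hom (q.comp (FreeGroup.lift vC)) mk
        fun i => by simp [hq]) (wd x)
    rw [e]
    exact hmem (Finset.mem_union_right _ (Finset.mem_image_of_mem _ (List.mem_toFinset.2 hx)))
  have hkq : π.ker ≤ q.ker := hker.trans (Subgroup.normalClosure_le_normal fun x hx => hqR x hx)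
  let ψ := MonoidHom.liftOfRightInverse π (Function.surjInv hsurj) (Function.rightInverse_surjInv hsurj)
    ⟨q, hkq⟩
  refine ⟨v, hasPres_of_hom v ?_ RS ?_ ?_ ψ fun i => ?_⟩
  · rw [show Set.range v = π '' Set.range vC from Set.range_comp _ _, ← MonoidHom.map_closure,
      hgenC, Subgroup.map_top_of_surjective _ hsurj]
  · refine (Finset.card_union_le _ _).trans (Nat.add_le_add ((Finset.card_union_le _ _).trans
      (Nat.add_le_add (Finset.card_image_le.trans hcA) (Finset.card_image_le.trans hcB)))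
      (Finset.card_image_le.trans R.toFinset_card_le))
  · intro x hx
    rw [hv]
    simp only [RS, Finset.coe_union, Finset.coe_image, Set.mem_union, Set.mem_image,
      Finset.mem_coe, List.mem_toFinset] at hx
    rcases hx with (⟨y, hy, rfl⟩ | ⟨y, hy, rfl⟩) | ⟨y, hy, rfl⟩
    · rw [hmapA, hliftA, PresentedGroup.one_of_mem (Finset.mem_coe.2 hy), map_one, map_one, map_one]
    · rw [hmapB, hliftB, PresentedGroup.one_of_mem (Finset.mem_coe.2 hy), map_one, map_one, map_one]
    · rw [hwd, hR y hy]
  · exact (MonoidHom.liftOfRightInverse_comp_apply π _ _ ⟨q, hkq⟩ (vC i)).trans (hq i)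

variable {F : Type u} [Field F] [Fintype F] {k : ℕ}

theorem det_cycMat (n : ℕ) : (Spec.SLGen.cycMat F n).det = 1 := by
  have e : Spec.SLGen.cycMat F n =
      Matrix.diagonal (Spec.SLGen.esign n) * (finRotate (n + 1)).permMatrix F := by
    ext i j
    simp [Spec.SLGen.cycMat, Matrix.diagonal_mul, PEquiv.toMatrix_apply, finRotate_succ_apply, eq_comm]
  rw [e, Matrix.det_mul, Matrix.det_diagonal, Matrix.det_permutation, sign_finRotate]
  have h : ∏ i, Spec.SLGen.esign (K := F) n i = (-1) ^ n := by
    rw [Finset.prod_eq_single (Fin.last n) (fun i _ hi => by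
      exact if_neg (show ¬ (i : ℕ) = n from fun h => hi (Fin.ext h))) (by simp)]
    simp [Spec.SLGen.esign]
  rw [h]
  push_cast
  rw [← mul_pow]
  simp

theorem nat_cast_surjective (h : Fintype.card F ≤ 3) (c : F) : ∃ n : ℕ, (n : F) = c := by
  obtain ⟨p, hchar⟩ := CharP.exists F
  obtain ⟨f, hp, hcard⟩ := FiniteField.card F p
  have h2 : Fintype.card F = p := by
    rw [hcard]
    rcases Nat.lt_or_ge (f : ℕ) 2 with hf | hf
    · rw [show (f : ℕ) = 1 by have := f.pos; omega, pow_one]
    · exfalso
      have h4 : p ^ 2 ≤ p ^ (f : ℕ) := Nat.pow_le_pow_right hp.pos hf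
      have h5 : 2 * 2 ≤ p ^ 2 := by rw [sq]; exact Nat.mul_le_mul hp.two_le hp.two_le
      omega
  haveI : Fact p.Prime := ⟨hp⟩
  haveI : NeZero p := ⟨hp.ne_zero⟩
  have hb : Function.Bijective (ZMod.castHom (dvd_refl p) F) :=
    (Fintype.bijective_iff_injective_and_card _).2
      ⟨RingHom.injective _, by rw [ZMod.card, h2]⟩
  obtain ⟨x, hx⟩ := hb.2 c
  refine ⟨x.val, ?_⟩
  rw [← hx, ← map_natCast (ZMod.castHom (dvd_refl p) F) x.val, ZMod.natCast_zmod_val]

theorem exists_two_gen (k : ℕ) :
    ∃ G : Fin 2 → SpecialLinearGroup (Fin (k + 2)) F, Subgroup.closure (Set.range G) = ⊤ := by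
  classical
  suffices ∃ a b : SpecialLinearGroup (Fin (k + 2)) F, Subgroup.closure {a, b} = ⊤ by
    obtain ⟨a, b, hab⟩ := this
    refine ⟨![a, b], ?_⟩
    rw [show Set.range ![a, b] = {a, b} by simp only [Matrix.range_cons, Matrix.range_empty, Set.union_empty, Set.singleton_union]]
    exact hab
  by_cases hsmall : k = 0 ∧ Fintype.card F ≤ 3
  · obtain ⟨rfl, hF⟩ := hsmall
    refine ⟨up 1, lo 1, Linear.eq_top_of_transvection_mem _ fun i j hij c => ?_⟩
    obtain ⟨n, rfl⟩ := nat_cast_surjective hF c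
    have hpow : ∀ n : ℕ, SpecialLinearGroup.transvection hij (n : F) =
        SpecialLinearGroup.transvection hij 1 ^ n := fun n => by
      induction n with
      | zero => exact Subtype.ext (by simp [SpecialLinearGroup.transvection_coe])
      | succ n ih => rw [Nat.cast_succ, SpecialLinearGroup.transvection_add, pow_succ, ih]
    rw [hpow]
    refine pow_mem (Subgroup.subset_closure ?_) n
    obtain ⟨rfl, rfl⟩ | ⟨rfl, rfl⟩ : (i = 0 ∧ j = 1) ∨ (i = 1 ∧ j = 0) := by
      have := Fin.val_ne_of_ne hij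
      have := i.isLt
      have := j.isLt
      simp only [Fin.ext_iff, Fin.val_zero, Fin.val_one]
      omega
    · exact Set.mem_insert _ _
    · exact Set.mem_insert_of_mem _ rfl
  have hperf : commutator (SpecialLinearGroup (Fin (k + 2)) F) = ⊤ := by
    rcases Nat.eq_zero_or_pos k with rfl | hk
    · have h3 : 3 < Fintype.card F := not_le.1 fun h => hsmall ⟨rfl, h⟩
      obtain ⟨a, -, ha⟩ : ∃ a ∈ (Finset.univ : Finset F), a ∉ ({0, 1, -1} : Finset F) :=
        Finset.exists_mem_notMem_of_card_lt_card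
          (lt_of_le_of_lt Finset.card_le_three (by rw [Finset.card_univ]; exact h3))
      simp only [Finset.mem_insert, Finset.mem_singleton, not_or] at ha
      exact SL2.commutator_eq_top ha.1 (fun e => by
        rcases sq_eq_one_iff.1 e with e | e
        · exact ha.2.1 e
        · exact ha.2.2 e)
    · exact Linear.commutator_SL_eq_top (by rw [Fintype.card_fin]; omega)
  have up_top : ∀ H : Subgroup (SpecialLinearGroup (Fin (k + 2)) F),
      H ⊔ Subgroup.center _ = ⊤ → H = ⊤ := fun H hH => by
    rw [eq_top_iff, ← hperf, commutator_def, Subgroup.commutator_le]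
    intro a _ b _
    have hd : ∀ g : SpecialLinearGroup (Fin (k + 2)) F, ∃ x ∈ H, ∃ c ∈ Subgroup.center _, g = x * c :=
      fun g => by
      have hg : g ∈ H ⊔ Subgroup.center (SpecialLinearGroup (Fin (k + 2)) F) := hH ▸ Subgroup.mem_top g
      rw [← SetLike.mem_coe, Subgroup.mul_normal] at hg
      obtain ⟨x, hx, c, hc, rfl⟩ := hg
      exact ⟨x, hx, c, hc, rfl⟩
    obtain ⟨x, hx, c, hc, rfl⟩ := hd a
    obtain ⟨y, hy, d, hd', rfl⟩ := hd b
    have e : ⁅x * c, y * d⁆ = ⁅x, y⁆ := by
      have h1 := Subgroup.mem_center_iff.1 hc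
      have h2 := Subgroup.mem_center_iff.1 hd'
      simp only [commutatorElement_def, _root_.mul_inv_rev]
      calc x * c * (y * d) * (c⁻¹ * x⁻¹) * (d⁻¹ * y⁻¹)
          = x * ((c * (y * d)) * c⁻¹) * x⁻¹ * d⁻¹ * y⁻¹ := by group
        _ = x * (y * d) * x⁻¹ * d⁻¹ * y⁻¹ := by rw [← h1 (y * d), mul_inv_cancel_right]
        _ = x * y * (d * x⁻¹ * d⁻¹) * y⁻¹ := by group
        _ = x * y * x⁻¹ * y⁻¹ := by rw [← h2 x⁻¹, mul_inv_cancel_right]
    rw [e]
    exact mul_mem (mul_mem (mul_mem hx hy) (inv_mem hx)) (inv_mem hy)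
  have hdet : (Spec.SLGen.cycMat F (k + 1)).det = 1 := det_cycMat (F := F) (k + 1)
  let w : SpecialLinearGroup (Fin (k + 1 + 1)) F := ⟨Spec.SLGen.cycMat F (k + 1), hdet⟩
  let x : SpecialLinearGroup (Fin (k + 1 + 1)) F :=
    SpecialLinearGroup.transvection (zero_ne_one' (Fin (k + 1 + 1))) 1
  by_cases h3 : 3 < Fintype.card F
  · obtain ⟨g, hg⟩ := IsCyclic.exists_generator (α := Fˣ)
    let h : SpecialLinearGroup (Fin (k + 1 + 1)) F :=
      Matrix.SpecialLinearGroup.diag2n (zero_ne_one' (Fin (k + 1 + 1))) (g : F) g.ne_zero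
    exact ⟨_, _, up_top _ (S2402.result h3 (k + 1) (by omega) g hg h x w
      (by simp only [h, Matrix.SpecialLinearGroup.diag2n_coe]; congr 1; funext i
          simp only [Fin.ext_iff, Fin.val_zero, Fin.val_one, Units.val_inv_eq_inv_val]) rfl Spec.SLGen.cycMat_eq)⟩
  · exact ⟨_, _, up_top _ (S2403.result (by omega) (k + 1) (by omega) x w rfl Spec.SLGen.cycMat_eq)⟩

/-- The presentation of `Sp_{2m}` from one of `SL_m`. -/
theorem sp_pres {a ra : ℕ} {vA : Fin a → SpecialLinearGroup (Fin (k + 3)) F} (hA : HasPres vA ra) :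
    ∃ v : Fin (a + 3) → Spg F k, HasPres v (ra + 27) := by
  classical
  obtain ⟨p, _⟩ := CharP.exists F
  haveI : Fact p.Prime := ⟨CharP.char_is_prime F p⟩
  letI := ZMod.algebra F p
  obtain ⟨⟨relsB, hcB, ⟨eB⟩⟩, -, -⟩ := SL2Pres.presentations p F Fintype.one_lt_card
  let s : Fin 3 → SpecialLinearGroup (Fin 2) F := fun i => eB (PresentedGroup.of i)
  have hB : HasPres s 9 := ⟨relsB, hcB, eB, fun i => rfl⟩
  have hs := closure_range_of_hasPres hB
  obtain ⟨G, hG⟩ := exists_two_gen (F := F) k
  obtain ⟨z, hz, -, hzg⟩ := SL2Pres.exists_zeta (F := F)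
  let A := SpecialLinearGroup (Fin (k + 3)) F
  let B := SpecialLinearGroup (Fin 2) F
  let P : A →* Monoid.Coprod A B := Monoid.Coprod.inl
  let r : B →* Monoid.Coprod A B := Monoid.Coprod.inr
  let eq' : Monoid.Coprod A B → Monoid.Coprod A B → Monoid.Coprod A B := fun x y => x * y⁻¹
  let cm : Monoid.Coprod A B → Monoid.Coprod A B → Monoid.Coprod A B := fun x y => eq' (x * y) (y * x)
  let d : A := Matrix.SpecialLinearGroup.diag2n (zero_ne_one' (Fin (k + 3))) z hz
  let q : A := sw one_ne_zero
  let R : List (Monoid.Coprod A B) :=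
    (List.ofFn fun j : Fin 3 => cm (P (low (G 0))) (r (s j))) ++
    (List.ofFn fun j : Fin 3 => cm (P (low (G 1))) (r (s j))) ++
    (List.ofFn fun j : Fin 3 => eq' (P d * r (s j) * (P d)⁻¹) (r (dl hz * s j * (dl hz)⁻¹))) ++
    [eq' (r (dl hz) * P (el one_ne_zero 1) * (r (dl hz))⁻¹) (P (el one_ne_zero z⁻¹)),
     eq' (r (dl hz) * P (el zero_ne_one 1) * (r (dl hz))⁻¹) (P (el zero_ne_one z)),
     cm (P (el zero_ne_one 1)) (r (up 1)),
     cm (P (el one_ne_zero 1)) (r (lo 1)),
     cm (r (up 1)) (P q * r (up 1) * (P q)⁻¹),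
     cm (r (lo 1)) (P q * r (lo 1) * (P q)⁻¹),
     cm (r (lo 1)) (P q * r (up 1) * (P q)⁻¹),
     eq' (P (el one_ne_zero 1) * r (up 1) * (P (el one_ne_zero 1))⁻¹)
       (r (up 1) * (P q * r (up 1) * (P q)⁻¹) * (r wl * P (el one_ne_zero (-1)) * (r wl)⁻¹)),
     eq' (P (el zero_ne_one (-1)) * r (lo 1) * (P (el zero_ne_one (-1)))⁻¹)
       (r (lo 1) * (P q * r (lo 1) * (P q)⁻¹) * ((r wl)⁻¹ * P (el zero_ne_one 1) * r wl))]
  have hlen : R.length = 18 := by simp [R]
  let π : Monoid.Coprod A B →* Spg F k := Monoid.Coprod.lift Known.SpSpan.levi emb0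
  have hπP : ∀ g, π (P g) = Known.SpSpan.levi g := fun g => Monoid.Coprod.lift_apply_inl _ _ g
  have hπr : ∀ g, π (r g) = emb0 g := fun g => Monoid.Coprod.lift_apply_inr _ _ g
  let N := Subgroup.normalClosure {x | x ∈ R}
  let mkW := QuotientGroup.mk' N
  have heq : ∀ {x y}, eq' x y ∈ R → mkW x = mkW y := fun {x y} hxy => by
    rw [← mul_inv_eq_one, ← map_inv, ← map_mul]
    exact (QuotientGroup.eq_one_iff _).2 (Subgroup.subset_normalClosure hxy)
  have hcm : ∀ {x y}, cm x y ∈ R → Commute (mkW x) (mkW y) := fun {x y} hxy => by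
    rw [Commute, SemiconjBy, ← map_mul, ← map_mul]
    exact heq hxy
  have hgenW : Subgroup.closure (Set.range (mkW.comp P) ∪ Set.range (mkW.comp r)) = ⊤ := by
    rw [eq_top_iff, ← Subgroup.map_top_of_surjective mkW (QuotientGroup.mk'_surjective N),
      ← Monoid.Coprod.closure_range_inl_union_inr, MonoidHom.map_closure, Subgroup.closure_le]
    rintro _ ⟨_, ⟨g, rfl⟩ | ⟨g, rfl⟩, rfl⟩
    · exact Subgroup.subset_closure (Or.inl ⟨g, rfl⟩)
    · exact Subgroup.subset_closure (Or.inr ⟨g, rfl⟩)
  have hrels : Rels (mkW.comp P) (mkW.comp r) hz G s :=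
    { gen := hgenW
      l1 := fun i j => by
        fin_cases i
        · exact hcm (x := P (low (G 0))) (y := r (s j)) (List.mem_append_left _ (List.mem_append_left _ (List.mem_append_left _ (List.mem_ofFn.2 ⟨j, rfl⟩))))
        · exact hcm (x := P (low (G 1))) (y := r (s j)) (List.mem_append_left _ (List.mem_append_left _ (List.mem_append_right _ (List.mem_ofFn.2 ⟨j, rfl⟩))))
      l2 := fun j => by
        simp only [MonoidHom.comp_apply, ← map_inv mkW, ← map_mul mkW]
        exact heq (List.mem_append_left _ (List.mem_append_right _ (List.mem_ofFn.2 ⟨j, rfl⟩)))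
      hx := by
        simp only [MonoidHom.comp_apply, ← map_inv mkW, ← map_mul mkW]
        exact heq (List.mem_append_right _ (by repeat (first | exact List.mem_cons_self | apply List.mem_cons_of_mem)))
      hy := by
        simp only [MonoidHom.comp_apply, ← map_inv mkW, ← map_mul mkW]
        exact heq (List.mem_append_right _ (by repeat (first | exact List.mem_cons_self | apply List.mem_cons_of_mem)))
      l3x := hcm (x := P (el zero_ne_one 1)) (y := r (up 1)) (List.mem_append_right _ (by repeat (first | exact List.mem_cons_self | apply List.mem_cons_of_mem)))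
      l3y := hcm (x := P (el one_ne_zero 1)) (y := r (lo 1)) (List.mem_append_right _ (by repeat (first | exact List.mem_cons_self | apply List.mem_cons_of_mem)))
      cxx := by
        simp only [MonoidHom.comp_apply, ← map_inv mkW, ← map_mul mkW]
        exact hcm (List.mem_append_right _ (by repeat (first | exact List.mem_cons_self | apply List.mem_cons_of_mem)))
      cyy := by
        simp only [MonoidHom.comp_apply, ← map_inv mkW, ← map_mul mkW]
        exact hcm (List.mem_append_right _ (by repeat (first | exact List.mem_cons_self | apply List.mem_cons_of_mem)))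
      cyx := by
        simp only [MonoidHom.comp_apply, ← map_inv mkW, ← map_mul mkW]
        exact hcm (List.mem_append_right _ (by repeat (first | exact List.mem_cons_self | apply List.mem_cons_of_mem)))
      mx := by
        simp only [MonoidHom.comp_apply, ← map_inv mkW, ← map_mul mkW]
        exact heq (List.mem_append_right _ (by repeat (first | exact List.mem_cons_self | apply List.mem_cons_of_mem)))
      my := by
        simp only [MonoidHom.comp_apply, ← map_inv mkW, ← map_mul mkW]
        exact heq (List.mem_append_right _ (by repeat (first | exact List.mem_cons_self | apply List.mem_cons_of_mem))) }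
  have hsys : Sys (mkW.comp P) (mkW.comp r) :=
    hrels.toSys hG hs fun t ht => by
      obtain ⟨m, hm⟩ := hzg t ht
      exact ⟨m, hm.symm⟩
  have htrue : ∀ x ∈ R, π x = 1 := by
    have e : ∀ {x y}, π x = π y → π (eq' x y) = 1 := fun {x y} h => by
      show π (x * y⁻¹) = 1
      rw [map_mul, h, ← map_mul, mul_inv_cancel, map_one]
    have c : ∀ {x y}, Commute (π x) (π y) → π (cm x y) = 1 := fun {x y} h =>
      e (by rw [map_mul, map_mul, h.eq])
    intro x hx
    simp only [R, List.mem_append, List.mem_ofFn, List.mem_cons, List.not_mem_nil, or_false] at hx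
    have M := model_relations (F := F) (k := k) hz G s
    rcases hx with ((⟨j, rfl⟩ | ⟨j, rfl⟩) | ⟨j, rfl⟩) |
      rfl | rfl | rfl | rfl | rfl | rfl | rfl | rfl | rfl
    · exact c (by rw [hπP, hπr]; exact model_L1 (low_fix _) _)
    · exact c (by rw [hπP, hπr]; exact model_L1 (low_fix _) _)
    · exact e (by simp only [map_mul π, map_inv π, hπP, hπr]; exact model_L2 hz _)
    · exact e (by simp only [map_mul π, map_inv π, hπP, hπr]; exact M.hx)
    · exact e (by simp only [map_mul π, map_inv π, hπP, hπr]; exact M.hy)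
    · exact c (by rw [hπP, hπr]; exact M.l3x)
    · exact c (by rw [hπP, hπr]; exact M.l3y)
    · exact c (by simp only [map_mul π, map_inv π, hπP, hπr, q]; exact M.cxx)
    · exact c (by simp only [map_mul π, map_inv π, hπP, hπr, q]; exact M.cyy)
    · exact c (by simp only [map_mul π, map_inv π, hπP, hπr, q]; exact M.cyx)
    · exact e (by simp only [map_mul π, map_inv π, hπP, hπr, q]; exact M.mx)
    · exact e (by simp only [map_mul π, map_inv π, hπP, hπr, q]; exact M.my)
  let πW : Monoid.Coprod A B ⧸ N →* Spg F k :=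
    QuotientGroup.lift N π (Subgroup.normalClosure_le_normal fun x hx => htrue x hx)
  have h1 : ∀ g, πW ((mkW.comp P) g) = Known.SpSpan.levi g := hπP
  have h2 : ∀ c, πW ((mkW.comp r) (up c)) = Known.SpSpan.xS (Matrix.single 0 0 c) := fun c =>
    (hπr _).trans (emb0_up c)
  have h3 : ∀ c, πW ((mkW.comp r) (lo c)) = lS (Matrix.single 0 0 c) := fun c =>
    (hπr _).trans (emb0_lo c)
  have hsurj : Function.Surjective π := fun y => by
    obtain ⟨w0, hw0⟩ := hsys.surjective πW h1 h2 h3 y
    obtain ⟨c0, rfl⟩ := QuotientGroup.mk'_surjective N w0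
    exact ⟨c0, hw0⟩
  have hker : π.ker ≤ N := fun x hx =>
    (QuotientGroup.eq_one_iff x).1 ((hsys.injective πW h1 h2 h3) (by rw [map_one]; exact hx))
  obtain ⟨v, hv⟩ := hasPres_of_coprod hA hB π R htrue hsurj hker
  exact ⟨v, hv.mono (by omega)⟩

end Cfsg.Agent.SpPres
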