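import Cfsg.Agent.SpPres.SLThree
import Cfsg.Agent.SpPres.Pres
import Cfsg.Agent.ShortPres.Counts
import Cfsg.Agent.Linear.Symplectic
import Cfsg.Prelude.Def_Classical

/-!
Presentations of `Sp_{2n}(q)` and `PSp_{2n}(q)` with few generators and relations.
-/

set_option autoImplicit false

namespace Cfsg.Agent.SpPres.Final

open Cfsg.Agent.GKKL Cfsg.Agent.ShortPres

universe u

theorem conv {l r : ℕ} {H : Type*} [Group H] {v : Fin l → H} (h : HasPres v r) :
    ∃ rels : Finset (FreeGroup (Fin l)), rels.card ≤ r ∧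
      Nonempty (PresentedGroup (↑rels : Set (FreeGroup (Fin l))) ≃* H) :=
  let ⟨rels, hc, e, _⟩ := h; ⟨rels, hc, ⟨e⟩⟩

variable {F : Type u} [Field F] [Fintype F]

theorem isCyclic_center_sp (m : ℕ) [NeZero m] :
    IsCyclic (Subgroup.center (Matrix.symplecticGroup (Fin m) F)) := by
  have h := Linear.Symp.card_center (m := m) (F := F)
  have h2 : Nat.gcd 2 (Fintype.card F - 1) = 1 ∨ Nat.gcd 2 (Fintype.card F - 1) = 2 :=
    (Nat.dvd_prime Nat.prime_two).1 (Nat.gcd_dvd_left _ _)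
  rcases h2 with h2 | h2
  · rw [h2] at h
    haveI := (Nat.card_eq_one_iff_unique.1 h).1
    infer_instance
  · rw [h2] at h
    haveI : Fact (Nat.Prime 2) := ⟨Nat.prime_two⟩
    exact isCyclic_of_prime_card h

/-- A presentation of `Sp` gives one of `PSp` with one more relation. -/
theorem psp_of_sp {l r : ℕ} {m : ℕ} [NeZero m] {v : Fin l → Matrix.symplecticGroup (Fin m) F}
    (h : HasPres v r) : ∃ w : Fin l → Cfsg.PSp m F, HasPres w (r + 1) := by
  haveI := isCyclic_center_sp (F := F) m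
  exact ⟨_, hasPres_quot h (Subgroup.center _)⟩

theorem sp_ten (k : ℕ) : ∃ v : Fin 10 → Matrix.symplecticGroup (Fin (k + 4)) F, HasPres v 52 := by
  obtain ⟨w, hw⟩ := sl_seven (F := F) (k + 1 + 3) (by omega)
  obtain ⟨v, hv⟩ := sp_pres hw
  exact ⟨v, hv⟩

theorem sp_nine_four : ∃ v : Fin 9 → Matrix.symplecticGroup (Fin 4) F, HasPres v 48 := by
  obtain ⟨w, hw⟩ := sl_four (F := F)
  obtain ⟨v, hv⟩ := sp_pres (k := 1) hw
  obtain ⟨u, hu⟩ := hasPres_pad hv 3
  exact ⟨u, hu.mono (by omega)⟩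

theorem sp_nine_five : ∃ v : Fin 9 → Matrix.symplecticGroup (Fin 5) F, HasPres v 48 := by
  obtain ⟨w, hw⟩ := sl_five (F := F)
  obtain ⟨v, hv⟩ := sp_pres (k := 2) hw
  obtain ⟨u, hu⟩ := hasPres_pad hv 3
  exact ⟨u, hu.mono (by omega)⟩

theorem sp_eight : ∃ v : Fin 8 → Matrix.symplecticGroup (Fin 3) F, HasPres v 51 := by
  obtain ⟨w, hw⟩ := Three.sl_three (F := F)
  obtain ⟨v, hv⟩ := sp_pres (k := 0) hw
  obtain ⟨u, hu⟩ := hasPres_pad hv 1
  exact ⟨u, hu.mono (by omega)⟩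

/-- Two generators for `PSp`: at most two more relations. -/
theorem two_gen {H : Type*} [Group H] {l r : ℕ} {v : Fin l → H} (h : HasPres v r) (a b : H)
    (hab : Subgroup.closure ({a, b} : Set H) = ⊤) : ∃ w : Fin 2 → H, HasPres w (r + 2) := by
  refine ⟨![a, b], ?_⟩
  have := h.change (v := ![a, b]) (by rw [← hab]; congr 1; ext; simp [eq_comm, or_comm])
    Finset.univ (fun j hj => absurd (Finset.mem_univ j) hj)
  simpa using this

end Cfsg.Agent.SpPres.Final
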