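import Cfsg.Agent.SpPres.Pres
import Cfsg.Agent.Spec.StPres.Final

/-!
A presentation of `SL_3(q)` with four generators and twenty-three relators, for every `q`.
-/

set_option autoImplicit false
set_option linter.unusedSectionVars false
set_option maxHeartbeats 800000

namespace Cfsg.Agent.SpPres.Three

open Matrix Cfsg.Agent.GKKL

universe u

variable {F : Type u} [Field F] {W : Type*} [Group W]

theorem zconj {h : W} {f : F → W} {s : F} (hs : s ≠ 0) (hf : ∀ t, h * f t * h⁻¹ = f (s * t)) (n : ℤ)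
    (t : F) : h ^ n * f t * (h ^ n)⁻¹ = f (s ^ n * t) := by
  induction n using Int.induction_on generalizing t with
  | zero => simp
  | succ i ih =>
    rw [_root_.zpow_add_one, zpow_add_one₀ hs,
      show h ^ (i : ℤ) * h * f t * (h ^ (i : ℤ) * h)⁻¹ = h ^ (i : ℤ) * (h * f t * h⁻¹) * (h ^ (i : ℤ))⁻¹
      by group, hf, ih]
    congr 1
    ring
  | pred i ih =>
    have h1 : h⁻¹ * f t * h = f (s⁻¹ * t) := by
      have := hf (s⁻¹ * t)
      rw [mul_inv_cancel_left₀ hs] at this
      rw [← this]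
      group
    rw [_root_.zpow_sub_one, zpow_sub_one₀ hs,
      show h ^ (-(i : ℤ)) * h⁻¹ * f t * (h ^ (-(i : ℤ)) * h⁻¹)⁻¹ =
        h ^ (-(i : ℤ)) * (h⁻¹ * f t * h) * (h ^ (-(i : ℤ)))⁻¹ by group, h1, ih]
    congr 1
    ring

/-- The automorphism of `SL₂` given by `diag(1, z)`. -/
noncomputable def sig {z : F} (hz : z ≠ 0) :
    SpecialLinearGroup (Fin 2) F →* SpecialLinearGroup (Fin 2) F :=
  RecogA.CT.conjGL (RecogA.CT.diagGL ![1, Units.mk0 z hz])

theorem sig_up {z : F} (hz : z ≠ 0) (c : F) : sig hz (up c) = up (z⁻¹ * c) := by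
  rw [sig, up, RecogA.CT.conjGL_diag_transvection]
  congr 1
  simp [mul_comm]

theorem sig_lo {z : F} (hz : z ≠ 0) (c : F) : sig hz (lo c) = lo (z * c) := by
  rw [sig, lo, RecogA.CT.conjGL_diag_transvection]
  congr 1
  simp

theorem sig_dl {z : F} (hz : z ≠ 0) : sig hz (dl hz) = dl hz := by
  refine Subtype.ext ?_
  rw [sig, RecogA.CT.conjGL_coe, val_dl]
  ext i j
  fin_cases i <;> fin_cases j <;>
    simp [RecogA.CT.diagGL, Matrix.mul_apply, Fin.sum_univ_two, Matrix.diagonal] <;> field_simp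

/-- The root elements built from a copy of `SL₂` and a rotation. -/
def root (ρ : SpecialLinearGroup (Fin 2) F →* W) (c : W) (i j : Fin 3) (t : F) : W :=
  if j = i + 1 then c ^ i.val * ρ (up t) * (c ^ i.val)⁻¹ else c ^ j.val * ρ (lo t) * (c ^ j.val)⁻¹

/-- The relations. -/
structure Rel (ρ : SpecialLinearGroup (Fin 2) F →* W) (c : W) {z : F} (hz : z ≠ 0)
    (s : Fin 3 → SpecialLinearGroup (Fin 2) F) : Prop where
  cube : c ^ 3 = 1
  tor : ∀ j, c * ρ (dl hz) * c⁻¹ * ρ (s j) * (c * ρ (dl hz) * c⁻¹)⁻¹ = ρ (sig hz (s j))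
  prod : ρ (dl hz) * (c * ρ (dl hz) * c⁻¹) * (c ^ 2 * ρ (dl hz) * (c ^ 2)⁻¹) = 1
  rA : Commute (root ρ c 0 1 1) (root ρ c 0 2 1) ∧ Commute (root ρ c 0 1 1) (root ρ c 0 2 z)
  rB : Commute (root ρ c 0 2 1) (root ρ c 1 2 1) ∧ Commute (root ρ c 0 2 1) (root ρ c 1 2 z)
  rC : root ρ c 0 1 1 * root ρ c 1 2 1 = root ρ c 0 2 1 * root ρ c 1 2 1 * root ρ c 0 1 1 ∧
    root ρ c 0 1 1 * root ρ c 1 2 z = root ρ c 0 2 z * root ρ c 1 2 z * root ρ c 0 1 1
  rD : root ρ c 2 1 1 * root ρ c 1 0 1 = root ρ c 2 0 1 * root ρ c 1 0 1 * root ρ c 2 1 1 ∧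
    root ρ c 2 1 1 * root ρ c 1 0 z = root ρ c 2 0 z * root ρ c 1 0 z * root ρ c 2 1 1

theorem two_cosets [Fintype F] {z : F} (hz : z ≠ 0) (hzg : ∀ t : F, t ≠ 0 → ∃ n : ℕ, z ^ n = t)
    {u0 : F} (hu0 : u0 ≠ 0) {P : F → Prop} (hadd : ∀ a b, P a → P b → P (a + b)) (h0 : P 0)
    (hP : ∀ n : ℕ, n % 3 ≠ 2 → P (u0 * z ^ n)) (u : F) : P u := by
  classical
  set S : Finset F := Finset.univ.filter fun v => P (u0 * v) with hS
  set N := Fintype.card F - 1 with hN
  have hord : orderOf z = N := by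
    have hg : ∀ x : Fˣ, x ∈ Subgroup.zpowers (Units.mk0 z hz) := fun x => by
      obtain ⟨n, hn⟩ := hzg x x.ne_zero
      exact ⟨n, Units.ext (by simpa using hn)⟩
    have := orderOf_eq_card_of_forall_mem_zpowers hg
    rw [← orderOf_units, Units.val_mk0, Nat.card_eq_fintype_card, Fintype.card_units] at this
    exact this
  set I := (Finset.range N).filter fun n => n % 3 ≠ 2 with hI
  have hIcard : 2 * N ≤ 3 * I.card := by
    have h1 : I.card + ((Finset.range N).filter fun n => n % 3 = 2).card = N := by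
      rw [hI, add_comm, Finset.card_filter_add_card_filter_not, Finset.card_range]
    have h2 : ((Finset.range N).filter fun n => n % 3 = 2).card ≤ (Finset.range (N / 3)).card := by
      refine Finset.card_le_card_of_injOn (fun n => n / 3) (fun n hn => ?_) fun a ha b hb hab => ?_
      · simp only [Finset.coe_filter, Finset.mem_range, Set.mem_ofPred_eq] at hn
        simp only [Finset.coe_range, Set.mem_Iio]
        omega
      · simp only [Finset.coe_filter, Finset.mem_range, Set.mem_ofPred_eq] at ha hb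
        simp only at hab
        omega
    rw [Finset.card_range] at h2
    omega
  have hsub : insert (0 : F) (I.image (z ^ ·)) ⊆ S := by
    intro v hv
    simp only [hS, Finset.mem_filter, Finset.mem_univ, true_and]
    rcases Finset.mem_insert.1 hv with rfl | hv
    · simpa using h0
    · obtain ⟨n, hn, rfl⟩ := Finset.mem_image.1 hv
      exact hP n (Finset.mem_filter.1 hn).2
  have hcard : Fintype.card F < 2 * S.card := by
    have h1 := Finset.card_le_card hsub
    rw [Finset.card_insert_of_notMem (by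
      simp only [Finset.mem_image, not_exists, not_and]
      exact fun n _ => pow_ne_zero _ hz), Finset.card_image_of_injOn] at h1
    · have := Fintype.one_lt_card (α := F)
      omega
    · intro a ha b hb hab
      simp only [hI, Finset.coe_filter, Finset.mem_range, Set.mem_ofPred_eq] at ha hb
      exact pow_injOn_Iio_orderOf (by simpa [hord] using ha.1) (by simpa [hord] using hb.1) hab
  -- two translates of `S` meet
  have key : ∀ v, ∃ a ∈ S, v - a ∈ S := fun v => by
    by_contra hno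
    push Not at hno
    have hd : Disjoint S (S.image fun a => v - a) := by
      rw [Finset.disjoint_left]
      rintro x hx hx'
      obtain ⟨a, ha, rfl⟩ := Finset.mem_image.1 hx'
      exact hno _ hx (by rwa [sub_sub_cancel])
    have := Finset.card_le_univ (S ∪ S.image fun a => v - a)
    rw [Finset.card_union_of_disjoint hd, Finset.card_image_of_injective _ sub_right_injective] at this
    omega
  obtain ⟨a, ha, hva⟩ := key (u / u0)
  have e : u = u0 * a + u0 * (u / u0 - a) := by field_simp; ring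
  rw [e]
  exact hadd _ _ (Finset.mem_filter.1 ha).2 (Finset.mem_filter.1 hva).2

/-- From two base points to all pairs, along an orbit of index three. -/
theorem fill [Fintype F] {z : F} (hz : z ≠ 0) (hzg : ∀ t : F, t ≠ 0 → ∃ n : ℕ, z ^ n = t)
    {P : F → F → Prop} (q : ℤ) (hA : ∀ t u, P t u → ∀ n : ℤ, P (z ^ n * t) ((z ^ q) ^ n * u))
    (hB : ∀ t u, P t u → ∀ n : ℤ, P t ((z ^ (3 : ℤ)) ^ n * u)) (hadd : ∀ t a b, P t a → P t b → P t (a + b))
    (h0 : ∀ t, P t 0) (h0' : ∀ u, P 0 u) (h1 : P 1 1) (h2 : P 1 z) (t u : F) : P t u := by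
  by_cases ht : t = 0
  · subst ht; exact h0' u
  obtain ⟨m, rfl⟩ := hzg t ht
  refine two_cosets hz hzg (u0 := (z ^ q) ^ (m : ℤ)) (zpow_ne_zero _ (zpow_ne_zero _ hz))
    (fun a b => hadd _ a b) (h0 _) (fun n hn => ?_) u
  have hbase : P 1 (z ^ n) := by
    have hn3 : n % 3 = 0 ∨ n % 3 = 1 := by omega
    have e : (z ^ (3 : ℤ)) ^ ((n / 3 : ℕ) : ℤ) * z ^ (n % 3) = z ^ n := by
      rw [show ((3 : ℤ)) = ((3 : ℕ) : ℤ) from rfl, _root_.zpow_natCast, _root_.zpow_natCast, ← pow_mul, ← pow_add,
        Nat.div_add_mod]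
    rw [← e]
    refine hB 1 _ ?_ _
    rcases hn3 with hn3 | hn3 <;> rw [hn3]
    · simpa using h1
    · simpa using h2
  have := hA 1 _ hbase (m : ℤ)
  rwa [_root_.zpow_natCast z, mul_one] at this

namespace Rel

variable {ρ : SpecialLinearGroup (Fin 2) F →* W} {c : W} {z : F} {hz : z ≠ 0}
  {s : Fin 3 → SpecialLinearGroup (Fin 2) F} (h : Rel ρ c hz s)
  (hs : Subgroup.closure (Set.range s) = ⊤)
include h hs

theorem tor_all (a : SpecialLinearGroup (Fin 2) F) :
    c * ρ (dl hz) * c⁻¹ * ρ a * (c * ρ (dl hz) * c⁻¹)⁻¹ = ρ (sig hz a) := by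
  have e : (MulAut.conj (c * ρ (dl hz) * c⁻¹)).toMonoidHom.comp ρ = ρ.comp (sig hz) :=
    MonoidHom.eq_of_eqOn_dense hs (by rintro _ ⟨j, rfl⟩; exact h.tor j)
  exact DFunLike.congr_fun e a

omit hs in
theorem rot {i j : Fin 3} (hij : i ≠ j) (t : F) :
    c * root ρ c i j t * c⁻¹ = root ρ c (i + 1) (j + 1) t := by
  have h3 : ∀ w : W, c * (c ^ 2 * w * (c ^ 2)⁻¹) * c⁻¹ = w := fun w => by
    rw [show c * (c ^ 2 * w * (c ^ 2)⁻¹) * c⁻¹ = c ^ 3 * w * (c ^ 3)⁻¹ by group, h.cube]
    group
  fin_cases i <;> fin_cases j <;> simp_all [root, sq] <;> group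

theorem h_base :
    (∀ t, ρ (dl hz) * ρ (up t) * (ρ (dl hz))⁻¹ = ρ (up (z ^ (2 : ℤ) * t))) ∧
    (∀ t, ρ (dl hz) * ρ (lo t) * (ρ (dl hz))⁻¹ = ρ (lo (z ^ (-2 : ℤ) * t))) ∧
    (∀ t, c * ρ (dl hz) * c⁻¹ * ρ (up t) * (c * ρ (dl hz) * c⁻¹)⁻¹ = ρ (up (z ^ (-1 : ℤ) * t))) ∧
    (∀ t, c * ρ (dl hz) * c⁻¹ * ρ (lo t) * (c * ρ (dl hz) * c⁻¹)⁻¹ = ρ (lo (z ^ (1 : ℤ) * t))) := by
  refine ⟨fun t => ?_, fun t => ?_, fun t => ?_, fun t => ?_⟩
  · have e := dl_pow_conj_up hz 1 t
    rw [pow_one, pow_one] at e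
    rw [← map_mul, e, map_mul, mul_inv_cancel_right]
    norm_num [zpow_two, sq]
  · have e := dl_pow_conj_lo hz 1 t
    rw [pow_one, pow_one] at e
    rw [← map_mul, e, map_mul, mul_inv_cancel_right]
    norm_num [_root_.zpow_neg, zpow_two, sq]
  · rw [h.tor_all hs, sig_up, _root_.zpow_neg_one]
  · rw [h.tor_all hs, sig_lo, zpow_one]

/-- The weights of the torus on the five roots in use. -/
theorem weights (n m : ℤ) (t : F) :
    let g := ρ (dl hz) ^ n * (c * ρ (dl hz) * c⁻¹) ^ m
    g * root ρ c 0 1 t * g⁻¹ = root ρ c 0 1 (z ^ (2 * n - m) * t) ∧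
    g * root ρ c 1 0 t * g⁻¹ = root ρ c 1 0 (z ^ (-2 * n + m) * t) ∧
    g * root ρ c 1 2 t * g⁻¹ = root ρ c 1 2 (z ^ (-n + 2 * m) * t) ∧
    g * root ρ c 2 1 t * g⁻¹ = root ρ c 2 1 (z ^ (n - 2 * m) * t) ∧
    g * root ρ c 0 2 t * g⁻¹ = root ρ c 0 2 (z ^ (n + m) * t) ∧
    g * root ρ c 2 0 t * g⁻¹ = root ρ c 2 0 (z ^ (-n - m) * t) := by
  intro g
  obtain ⟨b1, b2, b3, b4⟩ := h.h_base hs
  set h0 := ρ (dl hz)
  set h1 := c * h0 * c⁻¹
  have hcomm : Commute h0 h1 := by
    have := h.tor_all hs (dl hz)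
    rw [sig_dl, mul_inv_eq_iff_eq_mul] at this
    exact this.symm
  set h2 := c ^ 2 * h0 * (c ^ 2)⁻¹ with hh2
  have hh : h2 = (h0 * h1)⁻¹ := eq_inv_of_mul_eq_one_right h.prod
  -- the action of the third torus element on the base roots
  have inv_act : ∀ {f : F → W} {k : W} {a : ℤ}, (∀ t, k * f t * k⁻¹ = f (z ^ a * t)) →
      ∀ t, k⁻¹ * f t * k⁻¹⁻¹ = f (z ^ (-a) * t) := by
    intro f k a hf t
    have := zconj (zpow_ne_zero a hz) hf (-1) t
    rw [_root_.zpow_neg_one, _root_.zpow_neg_one, ← _root_.zpow_neg] at this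
    exact this
  have prod_act : ∀ {f : F → W} {k l : W} {a b : ℤ}, (∀ t, k * f t * k⁻¹ = f (z ^ a * t)) →
      (∀ t, l * f t * l⁻¹ = f (z ^ b * t)) → ∀ t, (k * l) * f t * (k * l)⁻¹ = f (z ^ (a + b) * t) := by
    intro f k l a b hk hl t
    rw [show k * l * f t * (k * l)⁻¹ = k * (l * f t * l⁻¹) * k⁻¹ by group, hl, hk, ← mul_assoc,
      ← zpow_add₀ hz]
  have b5 : ∀ t, h2 * ρ (up t) * h2⁻¹ = ρ (up (z ^ (-(2 + -1) : ℤ) * t)) := by
    rw [hh]; exact inv_act (prod_act b1 b3)
  have b6 : ∀ t, h2 * ρ (lo t) * h2⁻¹ = ρ (lo (z ^ (-(-2 + 1) : ℤ) * t)) := by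
    rw [hh]; exact inv_act (prod_act b2 b4)
  have moved : ∀ {f : F → W} {k d : W} {a : ℤ}, (∀ t, k * f t * k⁻¹ = f (z ^ a * t)) →
      ∀ t, (d * k * d⁻¹) * (d * f t * d⁻¹) * (d * k * d⁻¹)⁻¹ = d * f (z ^ a * t) * d⁻¹ := by
    intro f k d a hf t
    rw [← hf]; group
  have c3 : ∀ w : W, c ^ 3 * w * (c ^ 3)⁻¹ = w := fun w => by rw [h.cube]; group
  have e21 : c * h2 * c⁻¹ = h0 := by
    rw [hh2, show c * (c ^ 2 * h0 * (c ^ 2)⁻¹) * c⁻¹ = c ^ 3 * h0 * (c ^ 3)⁻¹ by group, c3]
  have e01 : c ^ 2 * h1 * (c ^ 2)⁻¹ = h0 := by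
    rw [show c ^ 2 * h1 * (c ^ 2)⁻¹ = c ^ 3 * h0 * (c ^ 3)⁻¹ by simp only [h1]; group, c3]
  have e12 : c ^ 2 * h2 * (c ^ 2)⁻¹ = h1 := by
    rw [show c ^ 2 * h2 * (c ^ 2)⁻¹ = c * (c * h2 * c⁻¹) * c⁻¹ by simp only [sq]; group, e21]
  have act : ∀ {f : F → W} {a b : ℤ}, (∀ t, h0 * f t * h0⁻¹ = f (z ^ a * t)) →
      (∀ t, h1 * f t * h1⁻¹ = f (z ^ b * t)) → ∀ {e : ℤ}, e = n * a + m * b →
      g * f t * g⁻¹ = f (z ^ e * t) := by
    intro f a b ha hb e he
    rw [show g * f t * g⁻¹ = h0 ^ n * (h1 ^ m * f t * (h1 ^ m)⁻¹) * (h0 ^ n)⁻¹ by simp only [g, h0, h1]; group,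
      zconj (zpow_ne_zero b hz) hb, zconj (zpow_ne_zero a hz) ha, he, ← mul_assoc, ← _root_.zpow_mul,
      ← _root_.zpow_mul, ← zpow_add₀ hz, mul_comm a n, mul_comm b m]
  refine ⟨act (a := 2) (b := -1) ?_ ?_ (by ring), act (a := -2) (b := 1) ?_ ?_ (by ring),
    act (a := -(2 + -1)) (b := 2) ?_ ?_ (by ring), act (a := -(-2 + 1)) (b := -2) ?_ ?_ (by ring),
    act (a := 1) (b := -(-2 + 1)) ?_ ?_ (by ring), act (a := -1) (b := -(2 + -1)) ?_ ?_ (by ring)⟩
  · intro t; simpa [root] using b1 t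
  · intro t; simpa [root] using b3 t
  · intro t; simpa [root] using b2 t
  · intro t; simpa [root] using b4 t
  · intro t
    have := moved (d := c) b5 t
    rw [e21] at this
    simpa [root, h1] using this
  · intro t
    have := moved (d := c) b1 t
    simpa [root, h1] using this
  · intro t
    have := moved (d := c) b6 t
    rw [e21] at this
    simpa [root, h1] using this
  · intro t
    have := moved (d := c) b2 t
    simpa [root, h1] using this
  · intro t
    have := moved (d := c ^ 2) b4 t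
    rw [e01] at this
    simpa [root, h1] using this
  · intro t
    have := moved (d := c ^ 2) b6 t
    rw [e12] at this
    simpa [root, h1] using this
  · intro t
    have := moved (d := c ^ 2) b3 t
    rw [e01] at this
    simpa [root, h1] using this
  · intro t
    have := moved (d := c ^ 2) b5 t
    rw [e12] at this
    simpa [root, h1] using this

omit h hs in
theorem root_add (i j : Fin 3) (t u : F) :
    root ρ c i j t * root ρ c i j u = root ρ c i j (t + u) := by
  unfold root
  split_ifs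
  · rw [up_add, map_mul]; group
  · rw [lo_add, map_mul]; group

omit h hs in
theorem root_zero (i j : Fin 3) : root ρ c i j (0 : F) = 1 := by
  simpa using root_add (ρ := ρ) (c := c) i j (0 : F) 0

omit h hs in
theorem commute_conj {a b : W} (g : W) (h : Commute a b) : Commute (g * a * g⁻¹) (g * b * g⁻¹) := by
  have := h.map (MulAut.conj g).toMonoidHom
  simpa using this

variable [Fintype F] (hzg : ∀ t : F, t ≠ 0 → ∃ n : ℕ, z ^ n = t)
include hzg

theorem allA (t u : F) : Commute (root ρ c 0 1 t) (root ρ c 0 2 u) := by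
  refine fill hz hzg (P := fun t u => Commute (root ρ c 0 1 t) (root ρ c 0 2 u)) (-1)
    (fun t u hP n => ?_) (fun t u hP n => ?_)
    (fun t a b ha hb => by rw [← root_add]; exact ha.mul_right hb)
    (fun t => by rw [root_zero]; exact Commute.one_right _)
    (fun u => by rw [root_zero]; exact Commute.one_left _) h.rA.1 h.rA.2 t u
  · have := commute_conj (ρ (dl hz) ^ (0 : ℤ) * (c * ρ (dl hz) * c⁻¹) ^ (-n)) hP
    rw [(h.weights hs 0 (-n) t).1, (h.weights hs 0 (-n) u).2.2.2.2.1] at this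
    rw [← _root_.zpow_mul]
    convert this using 4 <;> ring
  · have := commute_conj (ρ (dl hz) ^ n * (c * ρ (dl hz) * c⁻¹) ^ (2 * n)) hP
    rw [(h.weights hs n (2 * n) t).1, (h.weights hs n (2 * n) u).2.2.2.2.1] at this
    rw [← _root_.zpow_mul]
    convert this using 4
    · simp
    · ring

theorem allB (t u : F) : Commute (root ρ c 0 2 t) (root ρ c 1 2 u) := by
  refine fill hz hzg (P := fun t u => Commute (root ρ c 0 2 t) (root ρ c 1 2 u)) (-1)
    (fun t u hP n => ?_) (fun t u hP n => ?_)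
    (fun t a b ha hb => by rw [← root_add]; exact ha.mul_right hb)
    (fun t => by rw [root_zero]; exact Commute.one_right _)
    (fun u => by rw [root_zero]; exact Commute.one_left _) h.rB.1 h.rB.2 t u
  · have := commute_conj (ρ (dl hz) ^ n * (c * ρ (dl hz) * c⁻¹) ^ (0 : ℤ)) hP
    rw [(h.weights hs n 0 t).2.2.2.2.1, (h.weights hs n 0 u).2.2.1] at this
    rw [← _root_.zpow_mul]
    convert this using 4 <;> ring
  · have := commute_conj (ρ (dl hz) ^ (-n) * (c * ρ (dl hz) * c⁻¹) ^ n) hP
    rw [(h.weights hs (-n) n t).2.2.2.2.1, (h.weights hs (-n) n u).2.2.1] at this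
    rw [← _root_.zpow_mul]
    convert this using 4
    · simp
    · ring

theorem comm0_all {i j k l : Fin 3} (hij : i ≠ j) (hkl : k ≠ l) (hil : i ≠ l) (hjk : j ≠ k)
    (t u : F) : Commute (root ρ c i j t) (root ρ c k l u) := by
  have r : ∀ {i j k l : Fin 3}, i ≠ j → k ≠ l → ∀ {t u : F},
      Commute (root ρ c i j t) (root ρ c k l u) →
        Commute (root ρ c (i + 1) (j + 1) t) (root ρ c (k + 1) (l + 1) u) := by
    intro i j k l hij hkl t u hc
    rw [← h.rot hij, ← h.rot hkl]
    exact commute_conj c hc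
  have same : ∀ (i j : Fin 3) (t u : F), Commute (root ρ c i j t) (root ρ c i j u) := fun i j t u => by
    rw [Commute, SemiconjBy, root_add, root_add, add_comm]
  have A0 : ∀ t u, Commute (root ρ c 0 1 t) (root ρ c 0 2 u) := h.allA hs hzg
  have A1 : ∀ t u, Commute (root ρ c 1 2 t) (root ρ c 1 0 u) := fun t u =>
    r (i := 0) (j := 1) (k := 0) (l := 2) (by decide) (by decide) (A0 t u)
  have A2 : ∀ t u, Commute (root ρ c 2 0 t) (root ρ c 2 1 u) := fun t u =>
    r (i := 1) (j := 2) (k := 1) (l := 0) (by decide) (by decide) (A1 t u)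
  have B0 : ∀ t u, Commute (root ρ c 0 2 t) (root ρ c 1 2 u) := h.allB hs hzg
  have B1 : ∀ t u, Commute (root ρ c 1 0 t) (root ρ c 2 0 u) := fun t u =>
    r (i := 0) (j := 2) (k := 1) (l := 2) (by decide) (by decide) (B0 t u)
  have B2 : ∀ t u, Commute (root ρ c 2 1 t) (root ρ c 0 1 u) := fun t u =>
    r (i := 1) (j := 0) (k := 2) (l := 0) (by decide) (by decide) (B1 t u)
  fin_cases i <;> fin_cases j <;> fin_cases k <;> fin_cases l <;>
    first
      | exact absurd rfl hij
      | exact absurd rfl hkl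
      | exact absurd rfl hil
      | exact absurd rfl hjk
      | exact same _ _ t u
      | exact A0 t u
      | exact (A0 u t).symm
      | exact A1 t u
      | exact (A1 u t).symm
      | exact A2 t u
      | exact (A2 u t).symm
      | exact B0 t u
      | exact (B0 u t).symm
      | exact B1 t u
      | exact (B1 u t).symm
      | exact B2 t u
      | exact (B2 u t).symm

theorem prod_additive {i j l : Fin 3} (hij : i ≠ j) (hjl : j ≠ l) (hil : i ≠ l) (t a b : F)
    (ha : root ρ c i j t * root ρ c j l a = root ρ c i l (t * a) * root ρ c j l a * root ρ c i j t)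
    (hb : root ρ c i j t * root ρ c j l b = root ρ c i l (t * b) * root ρ c j l b * root ρ c i j t) :
    root ρ c i j t * root ρ c j l (a + b) =
      root ρ c i l (t * (a + b)) * root ρ c j l (a + b) * root ρ c i j t := by
  have hc : Commute (root ρ c j l a) (root ρ c i l (t * b)) :=
    h.comm0_all hs hzg hjl hil hjl hil.symm _ _ 
  rw [← root_add, ← mul_assoc, ha, mul_assoc (root ρ c i l (t * a) * root ρ c j l a), hb, mul_add,
    ← root_add,
    show root ρ c i l (t * a) * root ρ c j l a * (root ρ c i l (t * b) * root ρ c j l b * root ρ c i j t) =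
      root ρ c i l (t * a) * (root ρ c j l a * root ρ c i l (t * b)) * (root ρ c j l b * root ρ c i j t)
    by group, hc.eq]
  group

theorem allC (t u : F) :
    root ρ c 0 1 t * root ρ c 1 2 u = root ρ c 0 2 (t * u) * root ρ c 1 2 u * root ρ c 0 1 t := by
  refine fill hz hzg (P := fun t u =>
      root ρ c 0 1 t * root ρ c 1 2 u = root ρ c 0 2 (t * u) * root ρ c 1 2 u * root ρ c 0 1 t) 1
    (fun t u hP n => ?_) (fun t u hP n => ?_)
    (fun t a b => h.prod_additive hs hzg (by decide) (by decide) (by decide) t a b)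
    (fun t => by simp [root_zero]) (fun u => by simp [root_zero]) ?_ ?_ t u
  · set g := ρ (dl hz) ^ n * (c * ρ (dl hz) * c⁻¹) ^ n with hg
    have := congrArg (MulAut.conj g) hP
    simp only [map_mul, MulAut.conj_apply] at this
    rw [(h.weights hs n n t).1, (h.weights hs n n u).2.2.1, (h.weights hs n n (t * u)).2.2.2.2.1] at this
    rw [← _root_.zpow_mul, one_mul, show z ^ n * t * (z ^ n * u) = z ^ (n + n) * (t * u) by
      rw [zpow_add₀ hz]; ring]
    convert this using 4 <;> ring
  · set g := ρ (dl hz) ^ n * (c * ρ (dl hz) * c⁻¹) ^ (2 * n) with hg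
    have := congrArg (MulAut.conj g) hP
    simp only [map_mul, MulAut.conj_apply] at this
    rw [(h.weights hs n (2 * n) t).1, (h.weights hs n (2 * n) u).2.2.1,
      (h.weights hs n (2 * n) (t * u)).2.2.2.2.1] at this
    rw [← _root_.zpow_mul, show t * (z ^ (3 * n) * u) = z ^ (n + 2 * n) * (t * u) by
      rw [show n + 2 * n = 3 * n by ring]; ring]
    convert this using 4
    all_goals first | (ring_nf; done) | (ring_nf; simp; done) | (simp; done) | (simp; ring_nf; done)
  · simpa using h.rC.1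
  · simpa using h.rC.2

theorem allD (t u : F) :
    root ρ c 2 1 t * root ρ c 1 0 u = root ρ c 2 0 (t * u) * root ρ c 1 0 u * root ρ c 2 1 t := by
  refine fill hz hzg (P := fun t u =>
      root ρ c 2 1 t * root ρ c 1 0 u = root ρ c 2 0 (t * u) * root ρ c 1 0 u * root ρ c 2 1 t) (-2)
    (fun t u hP n => ?_) (fun t u hP n => ?_)
    (fun t a b => h.prod_additive hs hzg (by decide) (by decide) (by decide) t a b)
    (fun t => by simp [root_zero]) (fun u => by simp [root_zero]) ?_ ?_ t u
  · set g := ρ (dl hz) ^ n * (c * ρ (dl hz) * c⁻¹) ^ (0 : ℤ) with hg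
    have := congrArg (MulAut.conj g) hP
    simp only [map_mul, MulAut.conj_apply] at this
    rw [(h.weights hs n 0 t).2.2.2.1, (h.weights hs n 0 u).2.1, (h.weights hs n 0 (t * u)).2.2.2.2.2] at this
    rw [← _root_.zpow_mul, show z ^ n * t * (z ^ (-2 * n) * u) = z ^ (-n - 0) * (t * u) by
      rw [show -n - 0 = n + -2 * n by ring, zpow_add₀ hz]; ring]
    convert this using 4 <;> ring
  · set g := ρ (dl hz) ^ (-2 * n) * (c * ρ (dl hz) * c⁻¹) ^ (-n) with hg
    have := congrArg (MulAut.conj g) hP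
    simp only [map_mul, MulAut.conj_apply] at this
    rw [(h.weights hs (-2 * n) (-n) t).2.2.2.1, (h.weights hs (-2 * n) (-n) u).2.1,
      (h.weights hs (-2 * n) (-n) (t * u)).2.2.2.2.2] at this
    rw [← _root_.zpow_mul, show t * (z ^ (3 * n) * u) = z ^ (-(-2 * n) - -n) * (t * u) by
      rw [show -(-2 * n) - -n = 3 * n by ring]; ring]
    convert this using 4
    all_goals first | (ring_nf; done) | (ring_nf; simp; done) | (simp; done) | (simp; ring_nf; done)
  · simpa using h.rD.1
  · simpa using h.rD.2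

theorem sys : Spec.StPres.Sys F 3 (root ρ c) where
  add i j _ t u := root_add i j t u
  comm0 i j k l hij hkl hil hjk t u := (h.comm0_all hs hzg hij hkl hil hjk t u).eq
  comm1 i j l hij hjl hil t u := by
    have r : ∀ {i j l : Fin 3}, i ≠ j → j ≠ l → i ≠ l → ∀ {t u : F},
        root ρ c i j t * root ρ c j l u = root ρ c i l (t * u) * root ρ c j l u * root ρ c i j t →
        root ρ c (i + 1) (j + 1) t * root ρ c (j + 1) (l + 1) u =
          root ρ c (i + 1) (l + 1) (t * u) * root ρ c (j + 1) (l + 1) u * root ρ c (i + 1) (j + 1) t := by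
      intro i j l hij hjl hil t u he
      have := congrArg (MulAut.conj c) he
      simp only [map_mul, MulAut.conj_apply, h.rot hij, h.rot hjl, h.rot hil] at this
      exact this
    have C0 := h.allC hs hzg t u
    have C1 := r (i := 0) (j := 1) (l := 2) (by decide) (by decide) (by decide) C0
    have C2 := r (i := 1) (j := 2) (l := 0) (by decide) (by decide) (by decide) C1
    have D0 := h.allD hs hzg t u
    have D1 := r (i := 2) (j := 1) (l := 0) (by decide) (by decide) (by decide) D0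
    have D2 := r (i := 0) (j := 2) (l := 1) (by decide) (by decide) (by decide) D1
    fin_cases i <;> fin_cases j <;> fin_cases l <;>
      first
        | exact absurd rfl hij
        | exact absurd rfl hjl
        | exact absurd rfl hil
        | exact C0
        | exact C1
        | exact C2
        | exact D0
        | exact D1
        | exact D2

end Rel

/-- The copy of `SL₂` on the first two indices. -/
noncomputable abbrev blk : SpecialLinearGroup (Fin 2) F →* SpecialLinearGroup (Fin 3) F :=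
  RecogA.CT.b12

/-- The cyclic permutation matrix. -/
def cyc : SpecialLinearGroup (Fin 3) F :=
  ⟨!![0, 0, 1; 1, 0, 0; 0, 1, 0], by simp [det_fin_three]⟩

theorem blk_val (a : SpecialLinearGroup (Fin 2) F) :
    (blk a : Matrix (Fin 3) (Fin 3) F) = !![a 0 0, a 0 1, 0; a 1 0, a 1 1, 0; 0, 0, 1] := by
  have h2 : (2 : Fin 3) ∉ Set.range (RecogA.CT.e12) := by
    rintro ⟨a, ha⟩
    fin_cases a <;> simp [RecogA.CT.e12] at ha
  ext i j
  fin_cases i <;> fin_cases j
  all_goals first
    | exact RecogA.CT.ext_apply_emb RecogA.CT.e12 a 0 0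
    | exact RecogA.CT.ext_apply_emb RecogA.CT.e12 a 0 1
    | exact RecogA.CT.ext_apply_emb RecogA.CT.e12 a 1 0
    | exact RecogA.CT.ext_apply_emb RecogA.CT.e12 a 1 1
    | exact (RecogA.CT.ext_apply_left RecogA.CT.e12 a h2 _).trans (by simp [Matrix.one_apply, Fin.ext_iff])
    | exact (RecogA.CT.ext_apply_right RecogA.CT.e12 a h2 _).trans (by simp [Matrix.one_apply, Fin.ext_iff])

theorem cyc_inv_val :
    ((cyc (F := F))⁻¹ : SpecialLinearGroup (Fin 3) F).1 = !![0, 1, 0; 0, 0, 1; 1, 0, 0] := by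
  have : (cyc (F := F))⁻¹ = ⟨!![0, 1, 0; 0, 0, 1; 1, 0, 0], by simp [det_fin_three]⟩ := by
    refine inv_eq_of_mul_eq_one_right (Subtype.ext ?_)
    show (cyc (F := F)).1 * (!![0, 1, 0; 0, 0, 1; 1, 0, 0] : Matrix (Fin 3) (Fin 3) F) = 1
    ext i j
    fin_cases i <;> fin_cases j <;> simp [cyc, Matrix.mul_apply, Fin.sum_univ_three]
  rw [this]

theorem model_root {i j : Fin 3} (hij : i ≠ j) (t : F) :
    root blk cyc i j t = SpecialLinearGroup.transvection hij t := by
  have e2 : (cyc (F := F)) ^ 2 = (cyc (F := F))⁻¹ := by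
    refine eq_inv_of_mul_eq_one_left (Subtype.ext ?_)
    rw [sq, Linear.val_mul, Linear.val_mul]
    ext i j
    fin_cases i <;> fin_cases j <;> simp [cyc, Matrix.mul_apply, Fin.sum_univ_three]
  fin_cases i <;> fin_cases j
  all_goals first
    | exact absurd rfl hij
    | (refine Subtype.ext ?_
       simp [root, e2, Linear.val_mul, blk_val, val_up, val_lo, cyc_inv_val,
         SpecialLinearGroup.transvection_coe]
       ext a b
       fin_cases a <;> fin_cases b <;> simp [cyc, Matrix.mul_apply, Fin.sum_univ_three])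

theorem model_sys : Spec.StPres.Sys F 3 (root (blk (F := F)) cyc) := by
  have h := Spec.StPres.sys_transvection (K := F) 3
  refine
    { add := fun i j hij t u => ?_
      comm0 := fun i j k l hij hkl hil hjk t u => ?_
      comm1 := fun i j l hij hjl hil t u => ?_ }
  · rw [model_root hij, model_root hij, model_root hij]
    simpa [hij] using h.add i j hij t u
  · rw [model_root hij, model_root hkl]
    simpa [hij, hkl] using h.comm0 i j k l hij hkl hil hjk t u
  · rw [model_root hij, model_root hjl, model_root hil]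
    simpa [hij, hjl, hil] using h.comm1 i j l hij hjl hil t u

theorem model_rel {z : F} (hz : z ≠ 0) (s : Fin 3 → SpecialLinearGroup (Fin 2) F) :
    Rel (blk (F := F)) cyc hz s := by
  have h := model_sys (F := F)
  refine
    { cube := ?_
      tor := fun j => ?_
      prod := ?_
      rA := ⟨h.comm0 0 1 0 2 (by decide) (by decide) (by decide) (by decide) 1 1,
        h.comm0 0 1 0 2 (by decide) (by decide) (by decide) (by decide) 1 z⟩
      rB := ⟨h.comm0 0 2 1 2 (by decide) (by decide) (by decide) (by decide) 1 1,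
        h.comm0 0 2 1 2 (by decide) (by decide) (by decide) (by decide) 1 z⟩
      rC := ⟨by simpa using h.comm1 0 1 2 (by decide) (by decide) (by decide) 1 1,
        by simpa using h.comm1 0 1 2 (by decide) (by decide) (by decide) 1 z⟩
      rD := ⟨by simpa using h.comm1 2 1 0 (by decide) (by decide) (by decide) 1 1,
        by simpa using h.comm1 2 1 0 (by decide) (by decide) (by decide) 1 z⟩ }
  · refine Subtype.ext ?_
    rw [pow_succ, sq, Linear.val_mul, Linear.val_mul]
    ext i j
    fin_cases i <;> fin_cases j <;> simp [cyc, Matrix.mul_apply, Fin.sum_univ_three]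
  · rw [mul_inv_eq_iff_eq_mul]
    generalize s j = a
    refine Subtype.ext ?_
    simp only [sig, Linear.val_mul, blk_val, cyc_inv_val, RecogA.CT.conjGL_coe, val_dl]
    ext i j
    fin_cases i <;> fin_cases j <;>
      simp [cyc, RecogA.CT.diagGL, Matrix.mul_apply, Fin.sum_univ_three, Fin.sum_univ_two,
        Matrix.diagonal] <;> field_simp
  · refine Subtype.ext ?_
    simp only [sq, _root_.mul_inv_rev, Linear.val_mul, blk_val, cyc_inv_val, val_dl]
    ext i j
    fin_cases i <;> fin_cases j <;>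
      simp [cyc, Matrix.mul_apply, Fin.sum_univ_three, hz]

theorem model_cyc :
    (cyc : SpecialLinearGroup (Fin 3) F) = blk wl * (cyc * blk wl * cyc⁻¹) * blk (wl * wl) := by
  refine Subtype.ext ?_
  simp only [Linear.val_mul, blk_val, cyc_inv_val, val_up, val_lo]
  ext i j
  fin_cases i <;> fin_cases j <;> simp [cyc, Matrix.mul_apply, Fin.sum_univ_three, Fin.sum_univ_two]

/-- Four generators and twenty-three relators present `SL_3(q)`, for every `q`. -/
theorem sl_three [Fintype F] :
    ∃ v : Fin 4 → SpecialLinearGroup (Fin 3) F, HasPres v 23 := by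
  classical
  obtain ⟨p, _⟩ := CharP.exists F
  haveI : Fact p.Prime := ⟨CharP.char_is_prime F p⟩
  letI := ZMod.algebra F p
  obtain ⟨⟨relsB, hcB, ⟨eB⟩⟩, -, -⟩ := SL2Pres.presentations p F Fintype.one_lt_card
  let s : Fin 3 → SpecialLinearGroup (Fin 2) F := fun i => eB (PresentedGroup.of i)
  have hB : HasPres s 9 := ⟨relsB, hcB, eB, fun i => rfl⟩
  have hs := ShortPres.closure_range_of_hasPres hB
  have hA : HasPres (fun i : Fin 1 => FreeGroup.of i) 0 :=
    hasPres_of_hom _ (FreeGroup.closure_range_of _) ∅ (by simp) (by simp)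
      (PresentedGroup.mk _) fun i => rfl
  obtain ⟨z, hz, -, hzg0⟩ := SL2Pres.exists_zeta (F := F)
  have hzg : ∀ t : F, t ≠ 0 → ∃ n : ℕ, z ^ n = t := fun t ht => by
    obtain ⟨n, hn⟩ := hzg0 t ht
    exact ⟨n, hn.symm⟩
  let B := SpecialLinearGroup (Fin 2) F
  let r : B →* Monoid.Coprod B (FreeGroup (Fin 1)) := Monoid.Coprod.inl
  let c : Monoid.Coprod B (FreeGroup (Fin 1)) := Monoid.Coprod.inr (FreeGroup.of 0)
  let h1 := c * r (dl hz) * c⁻¹
  let cm : Monoid.Coprod B (FreeGroup (Fin 1)) → Monoid.Coprod B (FreeGroup (Fin 1)) →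
      Monoid.Coprod B (FreeGroup (Fin 1)) := fun a b => (a * b) * (b * a)⁻¹
  let e3 : Monoid.Coprod B (FreeGroup (Fin 1)) → Monoid.Coprod B (FreeGroup (Fin 1)) →
      Monoid.Coprod B (FreeGroup (Fin 1)) := fun a b => a * b⁻¹
  let x := root r c
  let R : List (Monoid.Coprod B (FreeGroup (Fin 1))) :=
    (List.ofFn fun j : Fin 3 => e3 (h1 * r (s j) * h1⁻¹) (r (sig hz (s j)))) ++
    [c ^ 3, r (dl hz) * h1 * (c ^ 2 * r (dl hz) * (c ^ 2)⁻¹),
     cm (x 0 1 1) (x 0 2 1), cm (x 0 1 1) (x 0 2 z),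
     cm (x 0 2 1) (x 1 2 1), cm (x 0 2 1) (x 1 2 z),
     e3 (x 0 1 1 * x 1 2 1) (x 0 2 1 * x 1 2 1 * x 0 1 1),
     e3 (x 0 1 1 * x 1 2 z) (x 0 2 z * x 1 2 z * x 0 1 1),
     e3 (x 2 1 1 * x 1 0 1) (x 2 0 1 * x 1 0 1 * x 2 1 1),
     e3 (x 2 1 1 * x 1 0 z) (x 2 0 z * x 1 0 z * x 2 1 1),
     e3 c (r wl * (c * r wl * c⁻¹) * r (wl * wl))]
  have hlen : R.length = 14 := by simp [R]
  let π : Monoid.Coprod B (FreeGroup (Fin 1)) →* SpecialLinearGroup (Fin 3) F :=
    Monoid.Coprod.lift blk (FreeGroup.lift fun _ => cyc)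
  have hπr : ∀ a, π (r a) = blk a := fun a => Monoid.Coprod.lift_apply_inl _ _ a
  have hπc : π c = cyc := (Monoid.Coprod.lift_apply_inr _ _ _).trans FreeGroup.lift_apply_of
  have hπx : ∀ i j t, π (x i j t) = root blk cyc i j t := fun i j t => by
    simp only [x, root]
    split_ifs <;> rw [map_mul, map_mul, map_inv, map_pow, hπc, hπr]
  have M := model_rel hz s
  have htrue : ∀ y ∈ R, π y = 1 := by
    have e : ∀ {a b}, π a = π b → π (e3 a b) = 1 := fun {a b} h => by
      show π (a * b⁻¹) = 1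
      rw [map_mul, h, ← map_mul, mul_inv_cancel, map_one]
    have cc : ∀ {a b}, Commute (π a) (π b) → π (cm a b) = 1 := fun {a b} h =>
      e (by rw [map_mul, map_mul, h.eq])
    intro y hy
    simp only [R, List.mem_append, List.mem_ofFn, List.mem_cons, List.not_mem_nil, or_false] at hy
    rcases hy with ⟨j, rfl⟩ |
      rfl | rfl | rfl | rfl | rfl | rfl | rfl | rfl | rfl | rfl | rfl
    · exact e (by simp only [h1, map_mul π, map_inv π, hπr, hπc]; exact M.tor j)
    · rw [map_pow, hπc]; exact M.cube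
    · simp only [h1, map_mul π, map_inv π, map_pow π, hπr, hπc]; exact M.prod
    · exact cc (by rw [hπx, hπx]; exact M.rA.1)
    · exact cc (by rw [hπx, hπx]; exact M.rA.2)
    · exact cc (by rw [hπx, hπx]; exact M.rB.1)
    · exact cc (by rw [hπx, hπx]; exact M.rB.2)
    · exact e (by simp only [map_mul π, hπx]; exact M.rC.1)
    · exact e (by simp only [map_mul π, hπx]; exact M.rC.2)
    · exact e (by simp only [map_mul π, hπx]; exact M.rD.1)
    · exact e (by simp only [map_mul π, hπx]; exact M.rD.2)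
    · exact e (by simp only [map_mul π, map_inv π, hπr, hπc]; simpa using model_cyc (F := F))
  let N := Subgroup.normalClosure {y | y ∈ R}
  let mk := QuotientGroup.mk' N
  have hN : ∀ {y}, y ∈ R → mk y = 1 := fun hy =>
    (QuotientGroup.eq_one_iff _).2 (Subgroup.subset_normalClosure hy)
  have heq : ∀ {a b}, e3 a b ∈ R → mk a = mk b := fun {a b} hab => by
    rw [← mul_inv_eq_one, ← map_inv, ← map_mul]
    exact hN hab
  have hcm : ∀ {a b}, cm a b ∈ R → Commute (mk a) (mk b) := fun {a b} hab => by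
    rw [Commute, SemiconjBy, ← map_mul, ← map_mul]
    exact heq hab
  have hmx : ∀ i j t, mk (x i j t) = root (mk.comp r) (mk c) i j t := fun i j t => by
    simp only [x, root]
    split_ifs <;> simp only [map_mul, map_inv, map_pow, MonoidHom.comp_apply]
  have hrel : Rel (mk.comp r) (mk c) hz s := by
    refine ⟨?_, fun j => ?_, ?_, ⟨?_, ?_⟩, ⟨?_, ?_⟩, ⟨?_, ?_⟩, ⟨?_, ?_⟩⟩
    · rw [← map_pow]
      exact hN (List.mem_append_right _ List.mem_cons_self)
    · simp only [MonoidHom.comp_apply, ← map_inv mk, ← map_mul mk]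
      exact heq (List.mem_append_left _ (List.mem_ofFn.2 ⟨j, rfl⟩))
    · simp only [MonoidHom.comp_apply, ← map_inv mk, ← map_mul mk, ← map_pow mk]
      exact hN (List.mem_append_right _ (List.mem_cons_of_mem _ List.mem_cons_self))
    all_goals simp only [← hmx, ← map_mul mk]
    · exact hcm (List.mem_append_right _ (by repeat (first | exact List.mem_cons_self | apply List.mem_cons_of_mem)))
    · exact hcm (List.mem_append_right _ (by repeat (first | exact List.mem_cons_self | apply List.mem_cons_of_mem)))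
    · exact hcm (List.mem_append_right _ (by repeat (first | exact List.mem_cons_self | apply List.mem_cons_of_mem)))
    · exact hcm (List.mem_append_right _ (by repeat (first | exact List.mem_cons_self | apply List.mem_cons_of_mem)))
    · exact heq (List.mem_append_right _ (by repeat (first | exact List.mem_cons_self | apply List.mem_cons_of_mem)))
    · exact heq (List.mem_append_right _ (by repeat (first | exact List.mem_cons_self | apply List.mem_cons_of_mem)))
    · exact heq (List.mem_append_right _ (by repeat (first | exact List.mem_cons_self | apply List.mem_cons_of_mem)))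
    · exact heq (List.mem_append_right _ (by repeat (first | exact List.mem_cons_self | apply List.mem_cons_of_mem)))
  obtain ⟨Φ, hΦ⟩ := Spec.StPres.exists_hom (le_refl 3) (hrel.sys hs hzg)
  let πW : Monoid.Coprod B (FreeGroup (Fin 1)) ⧸ N →* SpecialLinearGroup (Fin 3) F :=
    QuotientGroup.lift N π (Subgroup.normalClosure_le_normal fun y hy => htrue y hy)
  have hid : πW.comp Φ = MonoidHom.id _ := RecogA.CT.hom_ext fun i j hij t => by
    show πW (Φ (SpecialLinearGroup.transvection hij t)) = SpecialLinearGroup.transvection hij t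
    rw [hΦ i j hij t, ← hmx]
    exact (hπx i j t).trans (model_root hij t)
  have hid' : ∀ g, πW (Φ g) = g := fun g => DFunLike.congr_fun hid g
  have hr : ∀ a, mk (r a) ∈ Φ.range := fun a => by
    induction a using Linear.transvection_induction with
    | htransvec i j hij t =>
      obtain ⟨rfl, rfl⟩ | ⟨rfl, rfl⟩ : (i = 0 ∧ j = 1) ∨ (i = 1 ∧ j = 0) := by
        fin_cases i <;> fin_cases j <;> simp_all
      · exact ⟨SpecialLinearGroup.transvection (show (0 : Fin 3) ≠ 1 by decide) t, by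
          rw [hΦ _ _ _ t]; simp [root]⟩
      · exact ⟨SpecialLinearGroup.transvection (show (1 : Fin 3) ≠ 0 by decide) t, by
          rw [hΦ _ _ _ t]; simp [root]⟩
    | hmul a b ha hb => rw [map_mul, map_mul]; exact mul_mem ha hb
  have hcr : mk (c * r wl * c⁻¹) ∈ Φ.range := by
    have hx' : ∀ (i j : Fin 3) (hij : i ≠ j) (t : F), root (mk.comp r) (mk c) i j t ∈ Φ.range :=
      fun i j hij t => ⟨_, hΦ i j hij t⟩
    have e : mk (c * r wl * c⁻¹) = root (mk.comp r) (mk c) 1 2 1 * root (mk.comp r) (mk c) 2 1 (-1) *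
        root (mk.comp r) (mk c) 1 2 1 := by
      rw [map_mul mk, map_mul mk, map_inv mk]
      simp [root]
    rw [e]
    exact mul_mem (mul_mem (hx' _ _ (by decide) _) (hx' _ _ (by decide) _)) (hx' _ _ (by decide) _)
  have hc : mk c ∈ Φ.range := by
    have := heq (a := c) (b := r wl * (c * r wl * c⁻¹) * r (wl * wl))
      (List.mem_append_right _ (by repeat (first | exact List.mem_cons_self | apply List.mem_cons_of_mem)))
    rw [this, map_mul mk, map_mul mk]
    exact mul_mem (mul_mem (hr _) hcr) (hr _)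
  have hΦs : Function.Surjective Φ := MonoidHom.range_eq_top.1 (by
    rw [eq_top_iff, ← Subgroup.map_top_of_surjective mk (QuotientGroup.mk'_surjective N),
      ← Monoid.Coprod.range_inl_sup_range_inr, Subgroup.map_sup, sup_le_iff]
    constructor
    · rintro _ ⟨_, ⟨a, rfl⟩, rfl⟩
      exact hr a
    · rw [MonoidHom.range_eq_map, ← FreeGroup.closure_range_of, MonoidHom.map_closure,
        MonoidHom.map_closure, Subgroup.closure_le]
      rintro _ ⟨_, ⟨_, ⟨i, rfl⟩, rfl⟩, rfl⟩
      rw [Subsingleton.elim i 0]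
      exact hc)
  have hsurj : Function.Surjective π := fun g => by
    obtain ⟨a, ha⟩ := QuotientGroup.mk'_surjective N (Φ g)
    exact ⟨a, (congrArg πW ha).trans (hid' g)⟩
  have hker : π.ker ≤ N := fun y hy => by
    obtain ⟨g, hg⟩ := hΦs (mk y)
    have h2 : g = 1 := by
      rw [← hid' g, hg]
      exact hy
    rw [h2, map_one] at hg
    exact (QuotientGroup.eq_one_iff y).1 hg.symm
  obtain ⟨v, hv⟩ := hasPres_of_coprod hB hA π R htrue hsurj hker
  exact ⟨v, hv.mono (by omega)⟩

end Cfsg.Agent.SpPres.Three
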