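import Cfsg.Agent.SpPres.Trans

/-!
A group satisfying the relations is a perfect central extension of `Sp_{2m}`.
-/

set_option autoImplicit false
set_option linter.unusedSectionVars false

namespace Cfsg.Agent.SpPres

open Matrix

variable {F : Type*} [Field F] {k : ℕ} {W : Type*} [Group W]

theorem exists_sym_mulVec (a : Vc F k) {b : Vc F k} (hb : b ≠ 0) :
    ∃ A : Mk F k, Aᵀ = A ∧ A *ᵥ b = a := by
  obtain ⟨i, hi⟩ := Function.ne_iff.1 hb
  rw [Pi.zero_apply] at hi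
  refine ⟨(b i)⁻¹ • (vecMulVec a (ev i) + vecMulVec (ev i) a) -
    ((a ⬝ᵥ b) / b i ^ 2) • vecMulVec (ev i) (ev i), ?_, ?_⟩
  · simp [transpose_vecMulVec, add_comm]
  · funext j
    simp only [sub_mulVec, smul_mulVec, add_mulVec, vecMulVec_mulVec, Pi.sub_apply, Pi.smul_apply,
      Pi.add_apply, op_smul_eq_smul, smul_eq_mul, single_dotProduct, one_mul]
    field_simp
    ring

theorem iT_adj (g : SpecialLinearGroup (Fin (k + 3)) F) (b : Vc F k) :
    (g : Mk F k)ᵀ *ᵥ act (iT g) b = b := by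
  simp only [act, val_iT, mulVec_mulVec, ← transpose_mul, Known.val_inv_mul, transpose_one,
    one_mulVec]

theorem dot_iT (g : SpecialLinearGroup (Fin (k + 3)) F) (a b : Vc F k) :
    act g a ⬝ᵥ act (iT g) b = a ⬝ᵥ b := by
  conv_rhs => rw [← iT_adj g b, dotProduct_mulVec, vecMul_transpose]

theorem iT_tv_fix {u : Vc F k} (hu : u 0 = 0) :
    act (iT (Known.tv u (ev 0))) (ev (F := F) 0) = ev 0 := by
  simp only [act, val_iT]
  rw [Known.tv_inv (by simpa using hu), mulVec_transpose, Known.val_tv (by simp [hu]), vecMul_add,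
    vecMul_one, vecMul_vecMulVec]
  simp [hu]

theorem exists_pair_orbit {a b : Vc F k} (ha : a ≠ 0) (hb : b ≠ 0) :
    ∃ g : SpecialLinearGroup (Fin (k + 3)) F, act (iT g) (ev 0) = b ∧
      ((a ⬝ᵥ b ≠ 0 ∧ act g ((a ⬝ᵥ b) • ev 0) = a) ∨ (a ⬝ᵥ b = 0 ∧ act g (ev 1) = a)) := by
  obtain ⟨h0, hh0⟩ := exists_sl_one hb
  set g1 := iT h0 with hg1
  have h1 : act (iT g1) (ev 0) = b := by rw [hg1, iT_iT, hh0]
  set a' := act g1⁻¹ a with ha'
  have hs : a' 0 = a ⬝ᵥ b := by
    rw [← act_act_inv g1 a, ← h1, dot_iT]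
    simp [a']
  by_cases h0' : a ⬝ᵥ b = 0
  · obtain ⟨l, hl, hl1⟩ := exists_fix_act (u := a') (by rw [hs, h0'])
      (act_ne_zero ha)
    refine ⟨g1 * l, ?_, Or.inr ⟨h0', ?_⟩⟩
    · rw [map_mul, act_mul, hl.iT.1, h1]
    · rw [act_mul, hl1, ha', act_act_inv]
  · set u : Vc F k := (a ⬝ᵥ b)⁻¹ • a' - ev 0 with hu
    have hu0 : u 0 = 0 := by simp [hu, hs, h0']
    refine ⟨g1 * Known.tv u (ev 0), ?_, Or.inl ⟨h0', ?_⟩⟩
    · rw [map_mul, act_mul, iT_tv_fix hu0, h1]
    · rw [act_mul, show act (Known.tv u (ev 0)) ((a ⬝ᵥ b) • ev 0) = a' from ?_, ha', act_act_inv]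
      rw [act_tv (by simpa using hu0)]
      funext j
      simp [hu, mul_sub, h0']

theorem single_eq_vv (c : F) :
    (Matrix.single 0 0 c : Mk F k) = c • vecMulVec (ev 0) (ev 0) := by
  ext i j
  simp [vecMulVec_apply, Matrix.single_apply, Pi.single_apply, ← ite_and, eq_comm, and_comm]

theorem conj_smul_vv (M : Mk F k) (v : Vc F k) (c : F) :
    M * (c • vecMulVec v v) * Mᵀ = c • vecMulVec (M *ᵥ v) (M *ᵥ v) := by
  rw [Matrix.mul_smul, Matrix.smul_mul, mul_vecMulVec, vecMulVec_mul, vecMul_transpose]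

namespace Sys

variable {Φ : SpecialLinearGroup (Fin (k + 3)) F →* W} {ρ : SpecialLinearGroup (Fin 2) F →* W}
variable (h : Sys Φ ρ)
include h

open scoped Classical in
/-- The transvection at a vector. -/
noncomputable def T (v : Fin (k + 3) ⊕ Fin (k + 3) → F) (c : F) : W :=
  if hb : (v ∘ Sum.inr) = 0 then h.sx.Sv (c • vecMulVec (v ∘ Sum.inl) (v ∘ Sum.inl))
  else h.sx.Sv (exists_sym_mulVec (v ∘ Sum.inl) hb).choose *
    h.sy.Sv ((-c) • vecMulVec (v ∘ Sum.inr) (v ∘ Sum.inr)) *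
      (h.sx.Sv (exists_sym_mulVec (v ∘ Sum.inl) hb).choose)⁻¹

theorem T_top (a : Vc F k) (c : F) : h.T (Sum.elim a 0) c = h.sx.Sv (c • vecMulVec a a) := by
  rw [T, dif_pos (by simp)]
  simp

theorem T_eq {a b : Vc F k} (hb : b ≠ 0) (c : F) {A : Mk F k} (hA : Aᵀ = A) (hAb : A *ᵥ b = a) :
    h.T (Sum.elim a b) c = h.sx.Sv A * h.sy.Sv ((-c) • vecMulVec b b) * (h.sx.Sv A)⁻¹ := by
  have hb' : ¬ ((Sum.elim a b) ∘ Sum.inr = 0) := by simpa using hb
  rw [T, dif_neg hb']
  obtain ⟨h1, h2⟩ := (exists_sym_mulVec (Sum.elim a b ∘ Sum.inl) hb').choose_spec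
  simp only [Sum.elim_comp_inr, Sum.elim_comp_inl] at h1 h2 ⊢
  generalize (exists_sym_mulVec a hb).choose = A0 at h1 h2 ⊢
  have hD := h.commute_vv (D := A - A0) (by rw [transpose_sub, hA, h1])
    (b := b) (by rw [sub_mulVec, hAb, h2, sub_self]) (-c)
  have e : A = A0 + (A - A0) := by abel
  conv_rhs => rw [e, Side.Sv_add]
  rw [mul_assoc (h.sx.Sv A0) (h.sx.Sv (A - A0)), hD.eq]
  group

theorem T_zero_left (b : Vc F k) (c : F) :
    h.T (Sum.elim 0 b) c = h.sy.Sv ((-c) • vecMulVec b b) := by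
  by_cases hb : b = 0
  · subst hb
    rw [T_top]
    have : ∀ t : F, t • vecMulVec (0 : Vc F k) (0 : Vc F k) = 0 := fun t => by ext i j; simp [vecMulVec_apply]
    rw [this, this, Side.Sv_zero, Side.Sv_zero]
  · rw [h.T_eq hb c (A := 0) transpose_zero (zero_mulVec _), Side.Sv_zero]
    simp

theorem Phi_conj_T (g : SpecialLinearGroup (Fin (k + 3)) F) (a b : Vc F k) (c : F) :
    Φ g * h.T (Sum.elim a b) c * (Φ g)⁻¹ = h.T (Sum.elim (act g a) (act (iT g) b)) c := by
  by_cases hb : b = 0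
  · subst hb
    rw [show act (iT g) (0 : Vc F k) = 0 from mulVec_zero _, T_top, T_top,
      h.S_conj g (by simp [transpose_vecMulVec]), conj_smul_vv]
  obtain ⟨A, hA, hAb⟩ := exists_sym_mulVec a hb
  have hA' : ((g : Mk F k) * A * (g : Mk F k)ᵀ)ᵀ = (g : Mk F k) * A * (g : Mk F k)ᵀ := by
    rw [transpose_mul, transpose_mul, transpose_transpose, hA, Matrix.mul_assoc]
  rw [h.T_eq hb c hA hAb, h.T_eq (act_ne_zero hb) c hA' (by
    rw [← mulVec_mulVec, ← mulVec_mulVec, iT_adj, hAb]),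
    ← h.S_conj g hA, ← conj_smul_vv, ← h.S'_conj g (by simp [transpose_vecMulVec])]
  group

theorem S_pm01 (c : F) : h.sx.Sv (Side.pm 0 1 c) = ρ wl * Φ (el one_ne_zero (-c)) * (ρ wl)⁻¹ := by
  rw [h.sx.Sv_pm one_ne_zero, Side.R, el, Known.transvection_eq_tv, ← Pi.single_smul,
    ← Pi.single_neg, smul_eq_mul, mul_one]

theorem S'_pm01 (c : F) : h.sy.Sv (Side.pm 0 1 c) = (ρ wl)⁻¹ * Φ (el zero_ne_one c) * ρ wl := by
  rw [h.sy.Sv_pm one_ne_zero, Side.R, inv_inv, MonoidHom.comp_apply, ← neg_neg c,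
    ← iT_el one_ne_zero, neg_neg, el, Known.transvection_eq_tv, ← Pi.single_smul,
    ← Pi.single_neg, smul_eq_mul, mul_one]

theorem S'_vv_ev (c : F) : h.sy.Sv (c • vecMulVec (ev 0) (ev 0)) = ρ (lo c) := by
  rw [Side.Sv_vv, h.sy.Qel_ev]

theorem wl_commute_Qel (c : F) :
    Commute (ρ wl) (Side.Qel Φ (fun c => ρ (up c)) (ev 1) c) := by
  rw [h.Qel_sw]
  simp only [map_mul]
  exact ((h.Cxx _ _).mul_left (h.Cyx _ _)).mul_left (h.Cxx _ _)

theorem base_inner (c : F) : h.T (Sum.elim (ev 1) (ev 0)) c =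
    h.sy.Sv (Side.pm 0 1 1) * h.sx.Sv (c • vecMulVec (ev 1) (ev 1)) * (h.sy.Sv (Side.pm 0 1 1))⁻¹ := by
  have hpm : ∀ i : Fin (k + 3), (Side.pm (F := F) 0 i 1)ᵀ = Side.pm 0 i 1 := fun i => by
    simp [Side.pm, transpose_single, add_comm]
  rw [h.T_eq ev_zero_ne c (hpm 1) (by
    funext j
    simp [Side.pm, Matrix.single_apply, Pi.single_apply, eq_comm]), h.S'_vv_ev, h.S_pm01, h.S'_pm01, Side.Sv_vv]
  have e1 : ρ (lo (-c)) = ρ wl * ρ (up c) * (ρ wl)⁻¹ := by
    rw [← map_mul, ← map_inv, ← map_mul, wl_conj_up, mul_inv_cancel_right]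
  have e2 : (ρ wl)⁻¹ * ρ (up c) * ρ wl = ρ (lo (-c)) := by
    rw [← map_inv, ← map_mul, ← map_mul]
    congr 1
    rw [mul_assoc, inv_mul_eq_iff_eq_mul]
    refine Subtype.ext ?_
    simp only [Linear.val_mul, val_up, val_lo]
    ext i j
    fin_cases i <;> fin_cases j <;> simp [Matrix.mul_apply]
  have hneg : ∀ {i j : Fin (k + 3)} (hij : i ≠ j) (t : F), (Φ (el hij t))⁻¹ = Φ (el hij (-t)) :=
    fun hij t => by rw [← map_inv, el, SpecialLinearGroup.transvection_inv]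
  have q1 : Φ (el one_ne_zero (-1)) * ρ (up c) * (Φ (el one_ne_zero (-1)))⁻¹ =
      ρ (up c) * Side.Qel Φ (fun c => ρ (up c)) (ev 1) c *
        (ρ wl * Φ (el one_ne_zero c) * (ρ wl)⁻¹) := by
    have hq := h.sx.Qel_act (g := el one_ne_zero (-1)) rfl c
    rw [← hq, ← h.sx.Sv_vv]
    have e : c • vecMulVec (act (el one_ne_zero (-1 : F)) (ev (F := F) (k := k) 0))
        (act (el one_ne_zero (-1 : F)) (ev 0)) =
        Matrix.single 0 0 c + c • vecMulVec (ev 1) (ev 1) + Side.pm 0 1 (-c) := by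
      rw [act_el]
      ext i j
      simp only [Side.pm, Matrix.smul_apply, Matrix.add_apply, vecMulVec_apply, Pi.add_apply,
        Pi.single_apply, Matrix.single_apply, smul_eq_mul]
      by_cases h1 : i = 0 <;> by_cases h2 : i = 1 <;> by_cases h3 : j = 0 <;>
        by_cases h4 : j = 1 <;> simp_all [eq_comm]
    rw [e, h.sx.Sv_add, h.sx.Sv_add, h.sx.Sv_single, h.sx.Sv_vv, h.S_pm01, neg_neg]
  have q2 : Φ (el zero_ne_one 1) * Side.Qel Φ (fun c => ρ (up c)) (ev 1) c *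
      (Φ (el zero_ne_one 1))⁻¹ =
      ρ (up c) * Side.Qel Φ (fun c => ρ (up c)) (ev 1) c *
        (ρ wl * Φ (el one_ne_zero (-c)) * (ρ wl)⁻¹) := by
    rw [h.sx.Qel_conj, ← h.sx.Sv_vv]
    have e : c • vecMulVec (act (el zero_ne_one (1 : F)) (ev (F := F) (k := k) 1))
        (act (el zero_ne_one (1 : F)) (ev 1)) =
        Matrix.single 0 0 c + c • vecMulVec (ev 1) (ev 1) + Side.pm 0 1 c := by
      rw [act_el]
      ext i j
      simp only [Side.pm, Matrix.smul_apply, Matrix.add_apply, vecMulVec_apply, Pi.add_apply,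
        Pi.single_apply, Matrix.single_apply, smul_eq_mul]
      by_cases h1 : i = 0 <;> by_cases h2 : i = 1 <;> by_cases h3 : j = 0 <;>
        by_cases h4 : j = 1 <;> simp_all [eq_comm]
    rw [e, h.sx.Sv_add, h.sx.Sv_add, h.sx.Sv_single, h.sx.Sv_vv, h.S_pm01]
  have hH := h.H c
  rw [map_mul] at hH
  have hw := (h.wl_commute_Qel c).eq
  calc ρ wl * Φ (el one_ne_zero (-1)) * (ρ wl)⁻¹ * ρ (lo (-c)) *
        (ρ wl * Φ (el one_ne_zero (-1)) * (ρ wl)⁻¹)⁻¹
      = ρ wl * (Φ (el one_ne_zero (-1)) * ρ (up c) * (Φ (el one_ne_zero (-1)))⁻¹) * (ρ wl)⁻¹ := by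
        rw [e1]; group
    _ = (ρ wl * ρ (up c) * (ρ wl)⁻¹) *
          (ρ wl * Side.Qel Φ (fun c => ρ (up c)) (ev 1) c * (ρ wl)⁻¹) *
          (ρ wl * ρ wl * Φ (el one_ne_zero c) * (ρ wl * ρ wl)⁻¹) := by rw [q1]; group
    _ = ρ (lo (-c)) * Side.Qel Φ (fun c => ρ (up c)) (ev 1) c * Φ (el one_ne_zero (-c)) := by
        rw [← e1, hH, hw, mul_inv_cancel_right]
    _ = ((ρ wl)⁻¹ * ρ (up c) * ρ wl) *
          ((ρ wl)⁻¹ * Side.Qel Φ (fun c => ρ (up c)) (ev 1) c * ρ wl) *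
          Φ (el one_ne_zero (-c)) := by
        rw [e2, mul_assoc (ρ wl)⁻¹, ← hw, inv_mul_cancel_left]
    _ = (ρ wl)⁻¹ * (ρ (up c) * Side.Qel Φ (fun c => ρ (up c)) (ev 1) c *
          (ρ wl * Φ (el one_ne_zero (-c)) * (ρ wl)⁻¹)) * ρ wl := by group
    _ = (ρ wl)⁻¹ * Φ (el zero_ne_one 1) *
          (ρ wl * Side.Qel Φ (fun c => ρ (up c)) (ev 1) c * (ρ wl)⁻¹) *
          (Φ (el zero_ne_one 1))⁻¹ * ρ wl := by
        rw [← q2, hw, mul_inv_cancel_right]; group
    _ = _ := by group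

theorem base_outer {s : F} (hs : s ≠ 0) (c : F) : h.T (Sum.elim (s • ev 0) (ev 0)) c =
    h.sy.Sv (Matrix.single 0 0 s⁻¹) * h.sx.Sv (c • vecMulVec (s • ev 0) (s • ev 0)) *
      (h.sy.Sv (Matrix.single 0 0 s⁻¹))⁻¹ := by
  rw [h.T_eq ev_zero_ne c (A := Matrix.single 0 0 s) (transpose_single _ _ _) (by
    funext j; simp [Matrix.single_apply, Pi.single_apply, eq_comm]), h.S'_vv_ev]
  simp only [Side.Sv_single, Side.Sv_vv, h.sx.Qel_smul, h.sx.Qel_ev]
  have e1 : (ρ (up s))⁻¹ = ρ (up (-s)) := by rw [← map_inv, SpecialLinearGroup.transvection_inv]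
  have e2 : (ρ (lo s⁻¹))⁻¹ = ρ (lo (-s⁻¹)) := by
    rw [← map_inv, SpecialLinearGroup.transvection_inv]
  rw [e1, e2, ← map_mul, ← map_mul, ← map_mul, ← map_mul, rank_one_identity hs, mul_comm c]

theorem T_eq' {a b : Vc F k} (ha : a ≠ 0) (c : F) {B : Mk F k} (hB : Bᵀ = B) (hBa : B *ᵥ a = b) :
    h.T (Sum.elim a b) c = h.sy.Sv B * h.sx.Sv (c • vecMulVec a a) * (h.sy.Sv B)⁻¹ := by
  have indep : ∀ {a b : Vc F k} {B B0 : Mk F k}, Bᵀ = B → B *ᵥ a = b → B0ᵀ = B0 → B0 *ᵥ a = b →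
      h.sy.Sv B * h.sx.Sv (c • vecMulVec a a) * (h.sy.Sv B)⁻¹ =
        h.sy.Sv B0 * h.sx.Sv (c • vecMulVec a a) * (h.sy.Sv B0)⁻¹ := by
    intro a b B B0 hB hBa hB0 hB0a
    have hD := h.commute_vv' (D := B - B0) (by rw [transpose_sub, hB, hB0])
      (a := a) (by rw [sub_mulVec, hBa, hB0a, sub_self]) c
    have e : B = B0 + (B - B0) := by abel
    conv_lhs => rw [e, Side.Sv_add]
    rw [mul_assoc (h.sy.Sv B0) (h.sy.Sv (B - B0)), hD.eq]
    group
  by_cases hb : b = 0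
  · subst hb
    rw [indep hB hBa transpose_zero (zero_mulVec _), T_top, Side.Sv_zero]
    simp
  obtain ⟨g, hgb, hga⟩ := exists_pair_orbit ha hb
  have moved : ∀ {a0 : Vc F k} {B0 : Mk F k}, B0ᵀ = B0 → B0 *ᵥ a0 = ev 0 → act g a0 = a →
      h.T (Sum.elim a0 (ev 0)) c = h.sy.Sv B0 * h.sx.Sv (c • vecMulVec a0 a0) * (h.sy.Sv B0)⁻¹ →
      h.T (Sum.elim a b) c = h.sy.Sv B * h.sx.Sv (c • vecMulVec a a) * (h.sy.Sv B)⁻¹ := by
    intro a0 B0 hB0 hB0a hga0 hbase
    have e := h.Phi_conj_T g a0 (ev 0) c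
    rw [hga0, hgb, hbase] at e
    have hB1 : ((iT g : Mk F k) * B0 * (iT g : Mk F k)ᵀ)ᵀ =
        (iT g : Mk F k) * B0 * (iT g : Mk F k)ᵀ := by
      rw [transpose_mul, transpose_mul, transpose_transpose, hB0, Matrix.mul_assoc]
    rw [indep hB hBa hB1 (by
      rw [← mulVec_mulVec, ← mulVec_mulVec, ← hga0]
      have := iT_adj (iT g) a0
      rw [iT_iT] at this
      rw [this, hB0a]
      exact hgb), ← e, ← h.S'_conj g hB0, ← hga0, ← conj_smul_vv,
      ← h.S_conj g (by simp [transpose_vecMulVec])]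
    group
  rcases hga with ⟨hs, hga⟩ | ⟨-, hga⟩
  · refine moved (B0 := Matrix.single 0 0 (a ⬝ᵥ b)⁻¹) (transpose_single _ _ _) ?_ hga (h.base_outer hs c)
    rw [mulVec_smul]; funext j; simp [Matrix.single_apply, Pi.single_apply, eq_comm]; split_ifs <;> simp_all
  · refine moved (B0 := Side.pm 0 1 1) (by simp [Side.pm, transpose_single, add_comm]) ?_ hga
      (h.base_inner c)
    funext j
    simp [Side.pm, Matrix.single_apply, Pi.single_apply, eq_comm]

theorem S_conj_T {A0 : Mk F k} (hA0 : A0ᵀ = A0) (a b : Vc F k) (c : F) :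
    h.sx.Sv A0 * h.T (Sum.elim a b) c * (h.sx.Sv A0)⁻¹ = h.T (Sum.elim (a + A0 *ᵥ b) b) c := by
  by_cases hb : b = 0
  · subst hb
    rw [mulVec_zero, add_zero, T_top, (h.sx.Sv_comm A0 _).eq, mul_inv_cancel_right]
  obtain ⟨A, hA, hAb⟩ := exists_sym_mulVec a hb
  rw [h.T_eq hb c hA hAb, h.T_eq hb c (A := A0 + A) (by rw [transpose_add, hA0, hA])
    (by rw [add_mulVec, hAb, add_comm (A0 *ᵥ b) a]), Side.Sv_add]
  group

theorem S'_conj_T {B0 : Mk F k} (hB0 : B0ᵀ = B0) (a b : Vc F k) (c : F) :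
    h.sy.Sv B0 * h.T (Sum.elim a b) c * (h.sy.Sv B0)⁻¹ = h.T (Sum.elim a (b + B0 *ᵥ a)) c := by
  by_cases ha : a = 0
  · subst ha
    rw [mulVec_zero, add_zero, T_zero_left, (h.sy.Sv_comm B0 _).eq, mul_inv_cancel_right]
  obtain ⟨B, hB, hBa⟩ := exists_sym_mulVec b ha
  rw [h.T_eq' ha c hB hBa, h.T_eq' ha c (B := B0 + B) (by rw [transpose_add, hB0, hB])
    (by rw [add_mulVec, hBa, add_comm (B0 *ᵥ a) b]), Side.Sv_add]
  group

variable (π : W →* Spg F k) (hπΦ : ∀ g, π (Φ g) = Known.SpSpan.levi g)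
  (hπx : ∀ c, π (ρ (up c)) = Known.SpSpan.xS (Matrix.single 0 0 c))
  (hπy : ∀ c, π (ρ (lo c)) = lS (Matrix.single 0 0 c))
include hπΦ hπx hπy

theorem pi_S {A : Mk F k} (hA : Aᵀ = A) : π (h.sx.Sv A) = Known.SpSpan.xS A := by
  have key : Aᵀ = A ∧ π (h.sx.Sv A) = Known.SpSpan.xS A := by
    refine Side.sym_induction (P := fun A => Aᵀ = A ∧ π (h.sx.Sv A) = Known.SpSpan.xS A)
      (fun A B hA hB => ⟨by rw [transpose_add, hA.1, hB.1], ?_⟩) (fun v c => ⟨by simp [transpose_vecMulVec], ?_⟩) hA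
    · rw [Side.Sv_add, map_mul, hA.2, hB.2, Known.SpSpan.xS_add hA.1 hB.1]
    · rw [Side.Sv_vv]
      by_cases hv : v = 0
      · subst hv
        rw [Side.Qel_zero, show (c • vecMulVec (0 : Vc F k) 0) = 0 by
          ext i j; simp [vecMulVec_apply], Known.SpSpan.xS_zero]
        simp
      obtain ⟨g, hg⟩ := exists_sl_one hv
      rw [h.sx.Qel_act hg, map_mul, map_mul, map_inv, hπΦ, hπx,
        Known.SpSpan.levi_conj g (transpose_single _ _ _), ← hg, single_eq_vv, conj_smul_vv]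
  exact key.2

theorem pi_S' {A : Mk F k} (hA : Aᵀ = A) : π (h.sy.Sv A) = lS A := by
  have key : Aᵀ = A ∧ π (h.sy.Sv A) = lS A := by
    refine Side.sym_induction (P := fun A => Aᵀ = A ∧ π (h.sy.Sv A) = lS A)
      (fun A B hA hB => ⟨by rw [transpose_add, hA.1, hB.1], ?_⟩) (fun v c => ⟨by simp [transpose_vecMulVec], ?_⟩) hA
    · rw [Side.Sv_add, map_mul, hA.2, hB.2, lS_add hA.1 hB.1]
    · rw [Side.Sv_vv]
      by_cases hv : v = 0
      · subst hv
        rw [Side.Qel_zero, show (c • vecMulVec (0 : Vc F k) 0) = 0 by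
          ext i j; simp [vecMulVec_apply]]
        simp only [Pi.one_apply, map_one]
        refine Subtype.ext ?_
        rw [val_lS transpose_zero, fromBlocks_one]
        rfl
      obtain ⟨g, hg⟩ := exists_sl_one hv
      rw [h.sy.Qel_act hg, MonoidHom.comp_apply, map_mul, map_mul, map_inv, hπΦ, hπy,
        levi_conj_lS _ (transpose_single _ _ _), iT_iT, ← hg, single_eq_vv, conj_smul_vv]
  exact key.2

theorem conj_T (z : W) (v : Fin (k + 3) ⊕ Fin (k + 3) → F) (c : F) :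
    z * h.T v c * z⁻¹ = h.T (Linear.Symp.app (π z) v) c := by
  let K : Subgroup W :=
    { carrier := {z | ∀ v c, z * h.T v c * z⁻¹ = h.T (Linear.Symp.app (π z) v) c}
      one_mem' := fun v c => by simp [Linear.Symp.app_one]
      mul_mem' := fun {z z'} hz hz' v c => by
        rw [map_mul, Linear.Symp.app_mul, ← hz, ← hz']
        group
      inv_mem' := fun {z} hz v c => by
        have := hz (Linear.Symp.app (π z⁻¹) v) c
        rw [← Linear.Symp.app_mul, ← map_mul, mul_inv_cancel, map_one, Linear.Symp.app_one] at this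
        rw [← this]
        group }
  have hK : K = ⊤ := by
    rw [eq_top_iff, ← h.gen, Subgroup.closure_le]
    rintro _ (⟨g, rfl⟩ | ⟨a, rfl⟩)
    · intro v c
      rw [hπΦ, ← Sum.elim_comp_inl_inr v, mulVec_elim_levi, h.Phi_conj_T]
    · induction a using Linear.transvection_induction with
      | htransvec i j hij t =>
        intro v c
        rw [← Sum.elim_comp_inl_inr v]
        obtain ⟨rfl, rfl⟩ | ⟨rfl, rfl⟩ : (i = 0 ∧ j = 1) ∨ (i = 1 ∧ j = 0) := by
          fin_cases i <;> fin_cases j <;> simp_all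
        · rw [show ρ (SpecialLinearGroup.transvection hij t) = h.sx.Sv (Matrix.single 0 0 t) from
            (h.sx.Sv_single t).symm, h.S_conj_T (transpose_single _ _ _), h.pi_S π hπΦ hπx hπy
            (transpose_single _ _ _), mulVec_elim_xS (transpose_single _ _ _)]
        · rw [show ρ (SpecialLinearGroup.transvection hij t) = h.sy.Sv (Matrix.single 0 0 t) from
            (h.sy.Sv_single t).symm, h.S'_conj_T (transpose_single _ _ _), h.pi_S' π hπΦ hπx hπy
            (transpose_single _ _ _), mulVec_elim_lS (transpose_single _ _ _)]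
      | hmul A B hA hB => rw [map_mul]; exact K.mul_mem hA hB
  have hz : z ∈ K := hK ▸ Subgroup.mem_top z
  exact hz v c

theorem pi_T (v : Fin (k + 3) ⊕ Fin (k + 3) → F) (c : F) : π (h.T v c) = Linear.Symp.tau v c := by
  rw [← Sum.elim_comp_inl_inr v]
  generalize v ∘ Sum.inl = a
  generalize v ∘ Sum.inr = b
  by_cases hb : b = 0
  · subst hb
    rw [T_top, h.pi_S π hπΦ hπx hπy (by simp [transpose_vecMulVec]), ← Known.SpSpan.tr_eq_xS]
    rfl
  obtain ⟨A, hA, hAb⟩ := exists_sym_mulVec a hb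
  rw [h.T_eq hb c hA hAb, map_mul, map_mul, map_inv, h.pi_S π hπΦ hπx hπy hA,
    h.pi_S' π hπΦ hπx hπy (by simp [transpose_vecMulVec]), ← tau_elim_zero, Linear.Symp.tau_conj,
    mulVec_elim_xS hA, hAb, zero_add]

theorem surjective : Function.Surjective π :=
  MonoidHom.range_eq_top.1 (Linear.Symp.closure_tau_le fun v c =>
    ⟨h.T v c, h.pi_T π hπΦ hπx hπy v c⟩)

theorem ker_le_center : π.ker ≤ Subgroup.center W := by
  have hT : ∀ z ∈ π.ker, ∀ v c, Commute z (h.T v c) := fun z hz v c => by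
    have := h.conj_T π hπΦ hπx hπy z v c
    rw [MonoidHom.mem_ker.1 hz, Linear.Symp.app_one, mul_inv_eq_iff_eq_mul] at this
    exact this
  have hS : ∀ z ∈ π.ker, ∀ {A : Mk F k}, Aᵀ = A → Commute z (h.sx.Sv A) := fun z hz A hA =>
    Side.sym_induction (P := fun A => Commute z (h.sx.Sv A))
      (fun A B hA hB => by rw [Side.Sv_add]; exact hA.mul_right hB)
      (fun v c => by rw [← T_top]; exact hT z hz _ c) hA
  have hS' : ∀ z ∈ π.ker, ∀ {A : Mk F k}, Aᵀ = A → Commute z (h.sy.Sv A) := fun z hz A hA =>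
    Side.sym_induction (P := fun A => Commute z (h.sy.Sv A))
      (fun A B hA hB => by rw [Side.Sv_add]; exact hA.mul_right hB)
      (fun v c => by rw [← neg_neg c, ← T_zero_left]; exact hT z hz _ _) hA
  have hρ : ∀ z ∈ π.ker, ∀ a, Commute z (ρ a) := fun z hz a => by
    induction a using Linear.transvection_induction with
    | htransvec i j hij t =>
      obtain ⟨rfl, rfl⟩ | ⟨rfl, rfl⟩ : (i = 0 ∧ j = 1) ∨ (i = 1 ∧ j = 0) := by
        fin_cases i <;> fin_cases j <;> simp_all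
      · rw [show ρ (SpecialLinearGroup.transvection hij t) = h.sx.Sv (Matrix.single 0 0 t) from
          (h.sx.Sv_single t).symm]
        exact hS z hz (transpose_single _ _ _)
      · rw [show ρ (SpecialLinearGroup.transvection hij t) = h.sy.Sv (Matrix.single 0 0 t) from
          (h.sy.Sv_single t).symm]
        exact hS' z hz (transpose_single _ _ _)
    | hmul A B hA hB => rw [map_mul]; exact hA.mul_right hB
  have hΦ1 : ∀ z ∈ π.ker, ∀ t, Commute z (Φ (el one_ne_zero t)) := fun z hz t => by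
    have h1 := ((hρ z hz wl).inv_right.mul_right (hS z hz (A := Side.pm 0 1 (-t))
      (by simp [Side.pm, transpose_single, add_comm]))).mul_right (hρ z hz wl)
    rw [h.S_pm01, neg_neg] at h1
    rwa [show (ρ wl)⁻¹ * (ρ wl * Φ (el one_ne_zero t) * (ρ wl)⁻¹) * ρ wl =
      Φ (el one_ne_zero t) by group] at h1
  intro z hz
  rw [Subgroup.mem_center_iff]
  intro g
  have hg : g ∈ Subgroup.centralizer {z} := by
    refine (h.gen ▸ (Subgroup.closure_le _).2 ?_ : (⊤ : Subgroup W) ≤ _) (Subgroup.mem_top g)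
    rintro _ (⟨a, rfl⟩ | ⟨a, rfl⟩)
    · induction a using Linear.transvection_induction with
      | htransvec i j hij t =>
        rw [SetLike.mem_coe, Subgroup.mem_centralizer_singleton_iff]
        by_cases ht : t = 0
        · subst ht; simp
        have hb : (Pi.single j (1 : F) : Vc F k) ≠ 0 := by simp
        have ha : (Pi.single i t : Vc F k) ≠ 0 := by simp [ht]
        obtain ⟨l, hlb, ⟨hne, -⟩ | ⟨-, hla⟩⟩ := exists_pair_orbit ha hb
        · simp [Ne.symm hij] at hne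
        have e : SpecialLinearGroup.transvection hij t = l * el one_ne_zero 1 * l⁻¹ := by
          rw [el, Known.transvection_eq_tv, Known.transvection_eq_tv,
            Known.tv_conj l (by simp [Pi.single_apply]), show (l : Mk F k) *ᵥ Pi.single 1 (1 : F) =
              Pi.single i t from hla]
          congr 1
          rw [← mulVec_transpose]
          exact hlb.symm
        have hz' : (Φ l)⁻¹ * z * Φ l ∈ π.ker := by
          have := π.normal_ker.conj_mem z hz (Φ l)⁻¹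
          rwa [inv_inv] at this
        have h1 := (hΦ1 _ hz' 1).map (MulAut.conj (Φ l)).toMonoidHom
        simp only [MulEquiv.coe_toMonoidHom, MulAut.conj_apply] at h1
        rw [e, map_mul, map_mul, map_inv]
        rw [show Φ l * ((Φ l)⁻¹ * z * Φ l) * (Φ l)⁻¹ = z by group] at h1
        exact h1.eq.symm
      | hmul A B hA hB => rw [map_mul]; exact mul_mem hA hB
    · rw [SetLike.mem_coe, Subgroup.mem_centralizer_singleton_iff]
      exact (hρ z hz a).eq.symm
  rw [Subgroup.mem_centralizer_singleton_iff] at hg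
  exact hg

omit hπΦ hπx hπy in
theorem perfect : commutator W = ⊤ := by
  have hΦ : ∀ g, Φ g ∈ commutator W := fun g => by
    have h1 : g ∈ commutator (SpecialLinearGroup (Fin (k + 3)) F) := by
      rw [Linear.commutator_SL_eq_top (by simp)]; exact Subgroup.mem_top g
    have h2 := Subgroup.mem_map_of_mem Φ h1
    rw [commutator_def, Subgroup.map_commutator] at h2
    exact Subgroup.commutator_mono le_top le_top h2
  have hn := (inferInstance : (commutator W).Normal)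
  have hmix : ∀ {Ψ : SpecialLinearGroup (Fin (k + 3)) F →* W} {x : F → W} {w : W},
      Side Ψ x w → (∀ g, Ψ g ∈ commutator W) → ∀ c, x c ∈ commutator W := by
    intro Ψ x w hs hΨ c
    have m1 := hs.mix c
    have hr : w * Ψ (el one_ne_zero (-c)) * w⁻¹ ∈ commutator W := hn.conj_mem _ (hΨ _) w
    rw [← QuotientGroup.eq_one_iff]
    have e := congrArg (QuotientGroup.mk' (commutator W)) m1
    simp only [map_mul, map_inv, QuotientGroup.mk'_apply,
      (QuotientGroup.eq_one_iff _).2 (hΨ (el one_ne_zero 1)),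
      (QuotientGroup.eq_one_iff _).2 (hΨ (sw one_ne_zero)),
      (QuotientGroup.eq_one_iff _).2 (hΨ (el one_ne_zero (-c))), one_mul, mul_one, inv_one] at e
    simpa using e
  rw [eq_top_iff, ← h.gen, Subgroup.closure_le]
  rintro _ (⟨g, rfl⟩ | ⟨a, rfl⟩)
  · exact hΦ g
  induction a using Linear.transvection_induction with
  | htransvec i j hij t =>
    obtain ⟨rfl, rfl⟩ | ⟨rfl, rfl⟩ : (i = 0 ∧ j = 1) ∨ (i = 1 ∧ j = 0) := by
      fin_cases i <;> fin_cases j <;> simp_all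
    · exact hmix h.sx hΦ t
    · exact hmix h.sy (fun g => hΦ _) t
  | hmul A B hA hB => rw [map_mul]; exact mul_mem hA hB

end Sys

end Cfsg.Agent.SpPres
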