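import Cfsg.Agent.SpPres.Cover

/-!
Finitely many relations that imply the relations of `SpPres.Sys`.
-/

set_option autoImplicit false
set_option linter.unusedSectionVars false
set_option maxHeartbeats 800000

namespace Cfsg.Agent.SpPres

open Matrix Matrix.SpecialLinearGroup

variable {F : Type*} [Field F] {k : ℕ} {W : Type*} [Group W]

theorem exists_sq_add_sq [Fintype F] (c : F) : ∃ a b : F, c = a ^ 2 + b ^ 2 := by
  by_cases h : ringChar F = 2
  · obtain ⟨a, ha⟩ := FiniteField.isSquare_of_char_two h c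
    exact ⟨a, 0, by rw [ha]; ring⟩
  obtain ⟨a, b, hab⟩ := FiniteField.exists_root_sum_quadratic (R := F) (f := Polynomial.X ^ 2)
    (g := Polynomial.X ^ 2 - Polynomial.C c) (Polynomial.degree_X_pow 2)
    (Polynomial.degree_X_pow_sub_C (by decide) _) (FiniteField.odd_card_of_char_ne_two h)
  refine ⟨a, b, ?_⟩
  simp only [Polynomial.eval_pow, Polynomial.eval_X, Polynomial.eval_sub, Polynomial.eval_C] at hab
  linear_combination -hab

theorem additive_of_squares [Fintype F] {P : F → Prop} (hadd : ∀ a b, P a → P b → P (a + b))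
    (hsq : ∀ a : F, a ≠ 0 → P (a ^ 2)) (h0 : P 0) (c : F) : P c := by
  have hsq' : ∀ a : F, P (a ^ 2) := fun a => by
    by_cases ha : a = 0
    · rw [ha]; simpa using h0
    · exact hsq a ha
  obtain ⟨a, b, rfl⟩ := exists_sq_add_sq c
  exact hadd _ _ (hsq' a) (hsq' b)

theorem el_conj {i j : Fin (k + 3)} (hij : i ≠ j) {g : SpecialLinearGroup (Fin (k + 3)) F} {a b : F}
    (hi : act g (ev i) = a • ev i) (hj : act (iT g) (ev j) = b • ev j) (t : F) :
    g * el hij t * g⁻¹ = el hij (a * b * t) := by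
  have hd : (ev j : Vc F k) ⬝ᵥ Pi.single i t = 0 := by simp [Ne.symm hij]
  simp only [el, Known.transvection_eq_tv]
  rw [Known.tv_conj g hd]
  have e1 : (g : Mk F k) *ᵥ Pi.single i t = (a * t) • ev i := by
    rw [show (Pi.single i t : Vc F k) = t • ev i by simp [← Pi.single_smul], mulVec_smul]
    change t • act g (ev i) = _
    rw [hi, smul_smul, mul_comm]
  have e2 : (ev j : Vc F k) ᵥ* ((g⁻¹ : SpecialLinearGroup (Fin (k + 3)) F) : Mk F k) = b • ev j := by
    rw [← hj, act, val_iT, mulVec_transpose]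
  rw [e1, e2, Known.tv_smul_swap _ (by simp [hij]), smul_smul]
  congr 1
  rw [← Pi.single_smul]
  congr 1
  simp
  ring

theorem el_fix_conj {g : SpecialLinearGroup (Fin (k + 3)) F} (hg : Fix0 g) (t : F) :
    g * el one_ne_zero t * g⁻¹ = Known.tv (t • act g (ev 1)) (ev 0) := by
  rw [el, Known.transvection_eq_tv, tv_conj_fix hg (by simp)]
  congr 1
  rw [act, ← mulVec_smul, ← Pi.single_smul]
  simp

theorem el_zero_one_conj {g : SpecialLinearGroup (Fin (k + 3)) F} (hg : Fix0 g) (t : F) :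
    iT g * el zero_ne_one t * (iT g)⁻¹ = Known.tv (ev 0) (t • act g (ev 1)) := by
  rw [el, Known.transvection_eq_tv, Known.tv_conj _ (by simp)]
  have h1 : (iT g : Mk F k) *ᵥ Pi.single 0 t = t • ev 0 := by
    rw [show (Pi.single 0 t : Vc F k) = t • ev 0 by simp [← Pi.single_smul], mulVec_smul]
    exact congrArg (t • ·) hg.iT.1
  have h2 : (Pi.single 1 1 : Vc F k) ᵥ* (((iT g)⁻¹ : SpecialLinearGroup (Fin (k + 3)) F) : Mk F k) =
      act g (ev 1) := by
    rw [← map_inv, val_iT, inv_inv, vecMul_transpose]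
  rw [h1, h2, ← Known.tv_smul_swap]
  rw [dotProduct_single, fix_act_zero hg]
  simp

/-- The first half of the relations, for one root group. -/
structure Half (Φ : SpecialLinearGroup (Fin (k + 3)) F →* W) (x : F → W) : Prop where
  add : ∀ a b, x (a + b) = x a * x b
  fixx : ∀ g, Fix0 g → ∀ c, Commute (Φ g) (x c)
  e01 : ∀ t c, Commute (Φ (el zero_ne_one t)) (x c)
  tor : ∀ t : F, t ≠ 0 → ∃ g, act g (ev 0) = t • ev 0 ∧ ∀ c, Φ g * x c * (Φ g)⁻¹ = x (t ^ 2 * c)

namespace Half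

variable {Φ : SpecialLinearGroup (Fin (k + 3)) F →* W} {x : F → W} (h : Half Φ x)
include h

theorem x_zero : x 0 = 1 := by simpa using h.add 0 0

theorem x_comm (a b : F) : Commute (x a) (x b) := by
  rw [Commute, SemiconjBy, ← h.add, ← h.add, add_comm]

theorem stab {g : SpecialLinearGroup (Fin (k + 3)) F} (hg : act g (ev 0) = ev 0) (c : F) :
    Commute (Φ g) (x c) := by
  obtain ⟨l, r, hl, hr, rfl⟩ := exists_fix_decomp hg
  rw [map_mul]
  refine (h.fixx l hl c).mul_left ?_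
  by_cases hr0 : r = 0
  · subst hr0
    have : Known.tv (ev 0) (0 : Vc F k) = 1 :=
      Subtype.ext (by rw [Known.val_tv (by simp)]; simp [vecMulVec]; ext; simp)
    rw [this, map_one]
    exact Commute.one_left _
  obtain ⟨g2, hg2, hg2r⟩ := exists_fix_act hr hr0
  rw [show Known.tv (ev 0) r = iT g2 * el zero_ne_one 1 * (iT g2)⁻¹ by
    rw [el_zero_one_conj hg2, hg2r, one_smul], map_mul, map_mul, map_inv]
  exact ((h.fixx _ hg2.iT c).mul_left (h.e01 1 c)).mul_left (h.fixx _ hg2.iT c).inv_left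

theorem T {g : SpecialLinearGroup (Fin (k + 3)) F} {t : F} (ht : t ≠ 0)
    (hg : act g (ev 0) = t • ev 0) (c : F) : Φ g * x c * (Φ g)⁻¹ = x (t ^ 2 * c) := by
  obtain ⟨d, hd, hdc⟩ := h.tor t ht
  have h1 : act (d⁻¹ * g) (ev 0) = ev 0 := by rw [act_mul, hg, ← hd, act_inv_act]
  have h2 := (h.stab h1 c).eq
  rw [map_mul, map_inv] at h2
  rw [← hdc c, show Φ g * x c * (Φ g)⁻¹ = Φ d * ((Φ d)⁻¹ * Φ g * x c) * (Φ g)⁻¹ by group, h2]
  group

/-- Conjugates depend on the image of the first vector only. -/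
theorem conj_eq {g g' : SpecialLinearGroup (Fin (k + 3)) F} (hg : act g (ev 0) = act g' (ev 0))
    (c : F) : Φ g * x c * (Φ g)⁻¹ = Φ g' * x c * (Φ g')⁻¹ := by
  have h1 : act (g'⁻¹ * g) (ev 0) = ev 0 := by rw [act_mul, hg, act_inv_act]
  have h2 := (h.stab h1 c).eq
  rw [map_mul, map_inv] at h2
  rw [show Φ g * x c * (Φ g)⁻¹ = Φ g' * ((Φ g')⁻¹ * Φ g * x c) * (Φ g)⁻¹ by group, h2]
  group

theorem comm_all [Fintype F]
    (hc : Commute (x 1) (Φ (sw one_ne_zero) * x 1 * (Φ (sw one_ne_zero))⁻¹)) (c d : F) :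
    Commute (x c) (Φ (sw one_ne_zero) * x d * (Φ (sw one_ne_zero))⁻¹) := by
  set P := Φ (sw (F := F) (k := k) one_ne_zero)
  have key : ∀ a b : F, a ≠ 0 → b ≠ 0 →
      Commute (x (a ^ 2)) (P * x (b ^ 2) * P⁻¹) := by
    intro a b ha hb
    obtain ⟨g, hg0, hg1⟩ := exists_sl_pair (v := a • ev (F := F) (k := k) 0) (u := b • ev 1) (by
      rw [LinearIndependent.pair_iff]
      intro s t hst
      have h0 := congrFun hst 0
      have h1 := congrFun hst 1
      simp only [Pi.add_apply, Pi.smul_apply, ev, Pi.single_apply, smul_eq_mul] at h0 h1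
      simp at h0 h1
      exact ⟨h0.resolve_right ha, h1.resolve_right hb⟩)
    have h1 := hc.map (MulAut.conj (Φ g)).toMonoidHom
    simp only [MulEquiv.coe_toMonoidHom, MulAut.conj_apply] at h1
    have e2 : act ((sw one_ne_zero)⁻¹ * (g * sw one_ne_zero)) (ev (F := F) (k := k) 0) =
        b • ev 0 := by
      rw [act_mul, act_mul, sw_ev, hg1, ← sw_ev one_ne_zero]
      change act (sw one_ne_zero)⁻¹ (b • act (sw one_ne_zero) (ev 0)) = _
      rw [act, mulVec_smul]
      exact congrArg (b • ·) (act_inv_act _ _)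
    have e3 := h.T hb e2 1
    rw [map_mul, map_mul, map_inv] at e3
    have e1 := h.T ha hg0 1
    rw [mul_one] at e1 e3
    rw [e1] at h1
    rw [← e3]
    convert h1 using 1
    simp only [P]
    group
  refine additive_of_squares (P := fun c => Commute (x c) (P * x d * P⁻¹))
    (fun a b ha hb => by rw [h.add]; exact ha.mul_left hb) (fun a ha => ?_)
    (by rw [h.x_zero]; exact Commute.one_left _) c
  refine additive_of_squares (P := fun d => Commute (x (a ^ 2)) (P * x d * P⁻¹))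
    (fun b b' hb hb' => by
      rw [h.add, show P * (x b * x b') * P⁻¹ = P * x b * P⁻¹ * (P * x b' * P⁻¹) by group]
      exact hb.mul_right hb') (fun b hb => key a b ha hb)
    (by rw [h.x_zero]; simp) d

theorem comm_pair (hC : ∀ c d, Commute (x c) (Φ (sw one_ne_zero) * x d * (Φ (sw one_ne_zero))⁻¹))
    {g1 g2 : SpecialLinearGroup (Fin (k + 3)) F}
    (hli : LinearIndependent F ![act g1 (ev 0), act g2 (ev 0)]) (c d : F) :
    Commute (Φ g1 * x c * (Φ g1)⁻¹) (Φ g2 * x d * (Φ g2)⁻¹) := by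
  obtain ⟨g, hg0, hg1⟩ := exists_sl_pair hli
  have h1 := (hC c d).map (MulAut.conj (Φ g)).toMonoidHom
  simp only [MulEquiv.coe_toMonoidHom, MulAut.conj_apply] at h1
  rw [← h.conj_eq hg0 c, ← h.conj_eq (g := g * sw one_ne_zero) (by rw [act_mul, sw_ev, hg1]) d,
    map_mul]
  convert h1 using 1
  group

theorem mix_all [Fintype F]
    (hC : ∀ c d, Commute (x c) (Φ (sw one_ne_zero) * x d * (Φ (sw one_ne_zero))⁻¹)) (w : W)
    (hg : ∀ a : F, a ≠ 0 → ∃ g, act g (ev 0) = a • ev 0 ∧ act g (ev 1) = a • ev 1 ∧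
      Commute g (el one_ne_zero (1 : F)) ∧
      Φ g * (w * Φ (el one_ne_zero (-1)) * w⁻¹) * (Φ g)⁻¹ =
        w * Φ (el one_ne_zero (-(a ^ 2))) * w⁻¹)
    (hM : Φ (el one_ne_zero 1) * x 1 * (Φ (el one_ne_zero 1))⁻¹ =
      x 1 * (Φ (sw one_ne_zero) * x 1 * (Φ (sw one_ne_zero))⁻¹) *
        (w * Φ (el one_ne_zero (-1)) * w⁻¹)) (c : F) :
    Φ (el one_ne_zero 1) * x c * (Φ (el one_ne_zero 1))⁻¹ =
      x c * (Φ (sw one_ne_zero) * x c * (Φ (sw one_ne_zero))⁻¹) *
        (w * Φ (el one_ne_zero (-c)) * w⁻¹) := by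
  set E := Φ (el (F := F) (k := k) one_ne_zero 1) with hE
  set P := Φ (sw (F := F) (k := k) one_ne_zero) with hP
  refine additive_of_squares (P := fun c =>
    E * x c * E⁻¹ = x c * (P * x c * P⁻¹) * (w * Φ (el one_ne_zero (-c)) * w⁻¹))
    (fun a b ha hb => ?_) (fun a ha => ?_) ?_ c
  · have h01 : LinearIndependent F
        ![act (1 : SpecialLinearGroup (Fin (k + 3)) F) (ev 0), act (el one_ne_zero 1) (ev 0)] := by
      rw [LinearIndependent.pair_iff]
      intro s t hst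
      rw [act_one, act_el] at hst
      have h0 := congrFun hst 0
      have h1 := congrFun hst 1
      simp at h0 h1
      subst h1
      simpa using h0
    have h12 : LinearIndependent F
        ![act (sw one_ne_zero) (ev (F := F) (k := k) 0), act (el one_ne_zero 1) (ev 0)] := by
      rw [LinearIndependent.pair_iff]
      intro s t hst
      rw [sw_ev, act_el] at hst
      have h0 := congrFun hst 0
      have h1 := congrFun hst 1
      simp at h0 h1
      subst h0
      simpa using h1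
    have cv : ∀ u v, Commute (x u) (E * x v * E⁻¹) := fun u v => by
      simpa [hE] using h.comm_pair hC h01 u v
    have cw : ∀ u v, Commute (P * x u * P⁻¹) (E * x v * E⁻¹) := fun u v => h.comm_pair hC h12 u v
    have eR : ∀ u, E * x u * E⁻¹ = x u * (P * x u * P⁻¹) * (w * Φ (el one_ne_zero (-u)) * w⁻¹) →
        w * Φ (el one_ne_zero (-u)) * w⁻¹ = (P * x u * P⁻¹)⁻¹ * (x u)⁻¹ * (E * x u * E⁻¹) :=
      fun u hu => by rw [hu]; group
    have split : w * Φ (el one_ne_zero (-(a + b))) * w⁻¹ =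
        (w * Φ (el one_ne_zero (-a)) * w⁻¹) * (w * Φ (el one_ne_zero (-b)) * w⁻¹) := by
      rw [neg_add, show el (F := F) (k := k) one_ne_zero (-a + -b) =
        el one_ne_zero (-a) * el one_ne_zero (-b) from transvection_add _ _ _, map_mul]
      group
    have hsum : E * x (a + b) * E⁻¹ = (E * x a * E⁻¹) * (E * x b * E⁻¹) := by rw [h.add]; group
    rw [split, eR a ha, eR b hb, hsum, h.add, show P * (x a * x b) * P⁻¹ =
      P * x a * P⁻¹ * (P * x b * P⁻¹) by group]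
    generalize hA : E * x a * E⁻¹ = A
    generalize hB : E * x b * E⁻¹ = B
    generalize hQa : P * x a * P⁻¹ = Qa
    generalize hQb : P * x b * P⁻¹ = Qb
    have c1 : Commute (x b) Qa := hQa ▸ hC b a
    have c2 : Commute A Qb := hQb ▸ hA ▸ (cw b a).symm
    have c3 : Commute A (x b) := hA ▸ (cv b a).symm
    calc A * B = A * (x b * Qb) * (Qb⁻¹ * (x b)⁻¹ * B) := by group
      _ = (x b * Qb) * A * (Qb⁻¹ * (x b)⁻¹ * B) := by rw [(c3.mul_right c2).eq]
      _ = _ := by
        have cb : Commute (x b * Qb) (x a * Qa) :=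
          ((h.x_comm b a).mul_left (hQb ▸ (hC a b).symm)).mul_right
            (c1.mul_left (hQb ▸ hQa ▸ (h.x_comm b a).map (MulAut.conj P).toMonoidHom))
        calc (x b * Qb) * A * (Qb⁻¹ * (x b)⁻¹ * B)
            = (x b * Qb) * (x a * Qa) * (Qa⁻¹ * (x a)⁻¹ * A) * (Qb⁻¹ * (x b)⁻¹ * B) := by group
          _ = x a * (Qa * x b) * Qb * (Qa⁻¹ * (x a)⁻¹ * A) * (Qb⁻¹ * (x b)⁻¹ * B) := by
              rw [cb.eq]; group
          _ = _ := by rw [← c1.eq]; group
  · obtain ⟨g, hg0, hg1, hgE, hgR⟩ := hg a ha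
    have hx := h.T ha hg0 1
    rw [mul_one] at hx
    have e2 : act ((sw one_ne_zero)⁻¹ * (g * sw one_ne_zero)) (ev (F := F) (k := k) 0) =
        a • ev 0 := by
      rw [act_mul, act_mul, sw_ev, hg1, ← sw_ev one_ne_zero]
      change act (sw one_ne_zero)⁻¹ (a • act (sw one_ne_zero) (ev 0)) = _
      rw [act, mulVec_smul]
      exact congrArg (a • ·) (act_inv_act _ _)
    have hQ := h.T ha e2 1
    rw [map_mul, map_mul, map_inv, mul_one] at hQ
    have hEg : Φ g * E = E * Φ g := by rw [hE, ← map_mul, hgE.eq, map_mul]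
    have e : Φ g * (E * x 1 * E⁻¹) * (Φ g)⁻¹ = Φ g * (x 1 * (P * x 1 * P⁻¹) *
        (w * Φ (el one_ne_zero (-1)) * w⁻¹)) * (Φ g)⁻¹ :=
      congrArg (fun z => Φ g * z * (Φ g)⁻¹) hM
    rw [show Φ g * (E * x 1 * E⁻¹) * (Φ g)⁻¹ = Φ g * E * x 1 * (Φ g * E)⁻¹ by group, hEg] at e
    rw [show E * Φ g * x 1 * (E * Φ g)⁻¹ = E * (Φ g * x 1 * (Φ g)⁻¹) * E⁻¹ by group, hx] at e
    have hQ' : Φ g * (P * x 1 * P⁻¹) * (Φ g)⁻¹ = P * x (a ^ 2) * P⁻¹ := by
      rw [← hQ, hP]; group
    rw [e, ← hgR, ← hQ', ← hx]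
    group
  · show E * x 0 * E⁻¹ = x 0 * (P * x 0 * P⁻¹) * (w * Φ (el one_ne_zero (-0)) * w⁻¹)
    rw [h.x_zero, neg_zero, el, show SpecialLinearGroup.transvection (one_ne_zero : (1 : Fin (k + 3)) ≠ 0) (0 : F) = 1 from Subtype.ext (Matrix.transvection_zero ..), map_one]
    group

end Half

/-- Upper diagonal elements of `SL₂`. -/
noncomputable abbrev dl {z : F} (hz : z ≠ 0) : SpecialLinearGroup (Fin 2) F :=
  diag2n (show (0 : Fin 2) ≠ 1 by decide) z hz

theorem val_dl {z : F} (hz : z ≠ 0) : (dl hz : Matrix (Fin 2) (Fin 2) F) = !![z, 0; 0, z⁻¹] := by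
  ext i j
  fin_cases i <;> fin_cases j <;> simp [diag2n_coe]

theorem val_dl_pow {z : F} (hz : z ≠ 0) (n : ℕ) :
    ((dl hz ^ n : SpecialLinearGroup (Fin 2) F) : Matrix (Fin 2) (Fin 2) F) =
      !![z ^ n, 0; 0, (z ^ n)⁻¹] := by
  induction n with
  | zero => ext i j; fin_cases i <;> fin_cases j <;> simp
  | succ n ih =>
    rw [pow_succ, Linear.val_mul, ih, val_dl]
    ext i j
    fin_cases i <;> fin_cases j <;> simp [Matrix.mul_apply, pow_succ, mul_comm]

theorem dl_pow_conj_up {z : F} (hz : z ≠ 0) (n : ℕ) (c : F) :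
    dl hz ^ n * up c = up ((z ^ n) ^ 2 * c) * dl hz ^ n := by
  refine Subtype.ext ?_
  rw [Linear.val_mul, Linear.val_mul, val_dl_pow, val_up, val_up]
  ext i j
  fin_cases i <;> fin_cases j <;> simp [Matrix.mul_apply]
  field_simp

theorem dl_pow_conj_lo {z : F} (hz : z ≠ 0) (n : ℕ) (c : F) :
    dl hz ^ n * lo c = lo (((z ^ n) ^ 2)⁻¹ * c) * dl hz ^ n := by
  refine Subtype.ext ?_
  rw [Linear.val_mul, Linear.val_mul, val_dl_pow, val_lo, val_lo]
  ext i j
  fin_cases i <;> fin_cases j <;> simp [Matrix.mul_apply]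
  field_simp

/-- Finitely many relations. -/
structure RelEqs (Φ : SpecialLinearGroup (Fin (k + 3)) F →* W)
    (ρ : SpecialLinearGroup (Fin 2) F →* W) {z : F} (hz : z ≠ 0)
    (G : Fin 2 → SpecialLinearGroup (Fin (k + 2)) F) (s : Fin 3 → SpecialLinearGroup (Fin 2) F) :
    Prop where
  l1 : ∀ i j, Commute (Φ (low (G i))) (ρ (s j))
  l2 : ∀ j, Φ (diag2n (zero_ne_one' (Fin (k + 3))) z hz) * ρ (s j) *
    (Φ (diag2n (zero_ne_one' (Fin (k + 3))) z hz))⁻¹ = ρ (dl hz * s j * (dl hz)⁻¹)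
  hx : ρ (dl hz) * Φ (el one_ne_zero 1) * (ρ (dl hz))⁻¹ = Φ (el one_ne_zero z⁻¹)
  hy : ρ (dl hz) * Φ (el zero_ne_one 1) * (ρ (dl hz))⁻¹ = Φ (el zero_ne_one z)
  l3x : Commute (Φ (el zero_ne_one 1)) (ρ (up 1))
  l3y : Commute (Φ (el one_ne_zero 1)) (ρ (lo 1))
  cxx : Commute (ρ (up 1)) (Φ (sw one_ne_zero) * ρ (up 1) * (Φ (sw one_ne_zero))⁻¹)
  cyy : Commute (ρ (lo 1)) (Φ (sw one_ne_zero) * ρ (lo 1) * (Φ (sw one_ne_zero))⁻¹)
  cyx : Commute (ρ (lo 1)) (Φ (sw one_ne_zero) * ρ (up 1) * (Φ (sw one_ne_zero))⁻¹)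
  mx : Φ (el one_ne_zero 1) * ρ (up 1) * (Φ (el one_ne_zero 1))⁻¹ =
    ρ (up 1) * (Φ (sw one_ne_zero) * ρ (up 1) * (Φ (sw one_ne_zero))⁻¹) *
      (ρ wl * Φ (el one_ne_zero (-1)) * (ρ wl)⁻¹)
  my : Φ (el zero_ne_one (-1)) * ρ (lo 1) * (Φ (el zero_ne_one (-1)))⁻¹ =
    ρ (lo 1) * (Φ (sw one_ne_zero) * ρ (lo 1) * (Φ (sw one_ne_zero))⁻¹) *
      ((ρ wl)⁻¹ * Φ (el zero_ne_one 1) * ρ wl)

/-- The relations together with generation. -/
structure Rels (Φ : SpecialLinearGroup (Fin (k + 3)) F →* W)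
    (ρ : SpecialLinearGroup (Fin 2) F →* W) {z : F} (hz : z ≠ 0)
    (G : Fin 2 → SpecialLinearGroup (Fin (k + 2)) F) (s : Fin 3 → SpecialLinearGroup (Fin 2) F) :
    Prop extends RelEqs Φ ρ hz G s where
  gen : Subgroup.closure (Set.range Φ ∪ Set.range ρ) = ⊤

namespace Rels

variable {Φ : SpecialLinearGroup (Fin (k + 3)) F →* W} {ρ : SpecialLinearGroup (Fin 2) F →* W}
  {z : F} {hz : z ≠ 0}
  {G : Fin 2 → SpecialLinearGroup (Fin (k + 2)) F} {s : Fin 3 → SpecialLinearGroup (Fin 2) F}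
variable (h : Rels Φ ρ hz G s) (hG : Subgroup.closure (Set.range G) = ⊤)
  (hs : Subgroup.closure (Set.range s) = ⊤) (hzg : ∀ t : F, t ≠ 0 → ∃ n : ℕ, z ^ n = t)
include h hG hs

theorem L1 {g : SpecialLinearGroup (Fin (k + 3)) F} (hg : Fix0 g)
    (a : SpecialLinearGroup (Fin 2) F) : Commute (Φ g) (ρ a) := by
  obtain ⟨g', rfl⟩ := hg.exists_low
  have h1 : ∀ i, Commute (Φ (low (G i))) (ρ a) := fun i => by
    refine Subgroup.closure_induction (p := fun x _ => Commute (Φ (low (G i))) (ρ x))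
      ?_ ?_ ?_ ?_ (show a ∈ Subgroup.closure (Set.range s) from hs ▸ Subgroup.mem_top a)
    · rintro _ ⟨j, rfl⟩; exact h.l1 i j
    · rw [map_one]; exact Commute.one_right _
    · intro x y _ _ hx hy; rw [map_mul]; exact hx.mul_right hy
    · intro x _ hx; rw [map_inv]; exact hx.inv_right
  refine Subgroup.closure_induction (p := fun x _ => Commute (Φ (low x)) (ρ a))
    ?_ ?_ ?_ ?_ (show g' ∈ Subgroup.closure (Set.range G) from hG ▸ Subgroup.mem_top g')
  · rintro _ ⟨i, rfl⟩; exact h1 i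
  · rw [map_one, map_one]; exact Commute.one_left _
  · intro x y _ _ hx hy; rw [map_mul, map_mul]; exact hx.mul_left hy
  · intro x _ hx; rw [map_inv, map_inv]; exact hx.inv_left

omit hG in
theorem L2 (n : ℕ) (a : SpecialLinearGroup (Fin 2) F) :
    Φ (diag2n (zero_ne_one' (Fin (k + 3))) z hz ^ n) * ρ a *
      (Φ (diag2n (zero_ne_one' (Fin (k + 3))) z hz ^ n))⁻¹ =
        ρ (dl hz ^ n * a * (dl hz ^ n)⁻¹) := by
  have h1 : ∀ a, Φ (diag2n (zero_ne_one' (Fin (k + 3))) z hz) * ρ a *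
      (Φ (diag2n (zero_ne_one' (Fin (k + 3))) z hz))⁻¹ = ρ (dl hz * a * (dl hz)⁻¹) := fun a => by
    have e : (MulAut.conj (Φ (diag2n (zero_ne_one' (Fin (k + 3))) z hz))).toMonoidHom.comp ρ =
        ρ.comp (MulAut.conj (dl hz)).toMonoidHom :=
      MonoidHom.eq_of_eqOn_dense hs (by rintro _ ⟨j, rfl⟩; exact h.l2 j)
    exact DFunLike.congr_fun e a
  induction n generalizing a with
  | zero => simp
  | succ n ih =>
    rw [pow_succ, map_mul Φ, pow_succ,
      show dl hz ^ n * dl hz * a * (dl hz ^ n * dl hz)⁻¹ =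
        dl hz ^ n * (dl hz * a * (dl hz)⁻¹) * (dl hz ^ n)⁻¹ by group, ← ih, ← h1]
    group

omit h hG hs in
theorem d_pow (n : ℕ) :
    act (diag2n (zero_ne_one' (Fin (k + 3))) z hz ^ n) (ev 0) = (z ^ n) • ev 0 ∧
    act (diag2n (zero_ne_one' (Fin (k + 3))) z hz ^ n) (ev 1) = (z ^ n)⁻¹ • ev 1 ∧
    act (iT (diag2n (zero_ne_one' (Fin (k + 3))) z hz ^ n)) (ev 0) = (z ^ n)⁻¹ • ev 0 ∧
    act (iT (diag2n (zero_ne_one' (Fin (k + 3))) z hz ^ n)) (ev 1) = (z ^ n) • ev 1 := by
  set d := diag2n (zero_ne_one' (Fin (k + 3))) z hz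
  have hd0 : act d (ev 0) = z • ev 0 := by
    funext j
    by_cases hj : j = 0 <;> simp [act, d, diag2n_coe, mulVec_diagonal, hj]
  have hd1 : act d (ev 1) = z⁻¹ • ev 1 := by
    funext j
    by_cases hj : j = 1 <;> simp [act, d, diag2n_coe, mulVec_diagonal, hj]
  have hi : ∀ {i : Fin (k + 3)} {t : F}, t ≠ 0 → act d (ev i) = t • ev i →
      act (iT d) (ev i) = t⁻¹ • ev i := by
    intro i t ht hi
    have e := iT_adj d (ev (F := F) i)
    have hdiag : ((d : Mk F k))ᵀ = (d : Mk F k) := by simp [d, diag2n_coe]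
    rw [hdiag] at e
    have e2 : act d (act (iT d) (ev i)) = act d (t⁻¹ • ev i) := by
      rw [show act d (t⁻¹ • ev i) = t⁻¹ • act d (ev i) from mulVec_smul _ _ _, hi,
        inv_smul_smul₀ ht]
      exact e
    have := congrArg (act d⁻¹) e2
    rwa [act_inv_act, act_inv_act] at this
  induction n with
  | zero => simp only [pow_zero, map_one, act_one, inv_one, one_smul, and_self]
  | succ n ih =>
    obtain ⟨i1, i2, i3, i4⟩ := ih
    refine ⟨?_, ?_, ?_, ?_⟩
    · rw [pow_succ', act_mul, i1, pow_succ', mul_comm, mul_smul]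
      simp only [act, mulVec_smul]
      exact congrArg _ hd0
    · rw [pow_succ', act_mul, i2, pow_succ', _root_.mul_inv_rev, mul_smul]
      simp only [act, mulVec_smul]
      exact congrArg _ hd1
    · rw [pow_succ', map_mul, act_mul, i3, pow_succ', _root_.mul_inv_rev, mul_smul]
      simp only [act, mulVec_smul]
      exact congrArg _ (hi hz hd0)
    · rw [pow_succ', map_mul, act_mul, i4, pow_succ', mul_comm, mul_smul]
      simp only [act, mulVec_smul]
      have := hi (inv_ne_zero hz) hd1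
      rw [inv_inv] at this
      exact congrArg _ this

include hzg

theorem Hx (n : ℕ) (t : F) :
    ρ (dl hz ^ n) * Φ (el one_ne_zero t) * (ρ (dl hz ^ n))⁻¹ =
      Φ (el one_ne_zero ((z ^ n)⁻¹ * t)) := by
  induction n with
  | zero => simp
  | succ n ih =>
    by_cases ht : ((z ^ n)⁻¹ * t) = 0
    · obtain rfl : t = 0 := (mul_eq_zero.1 ht).resolve_left (inv_ne_zero (pow_ne_zero _ hz))
      simp [el]
    rw [pow_succ', map_mul ρ (dl hz), show ρ (dl hz) * ρ (dl hz ^ n) * Φ (el one_ne_zero t) *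
      (ρ (dl hz) * ρ (dl hz ^ n))⁻¹ = ρ (dl hz) * (ρ (dl hz ^ n) * Φ (el one_ne_zero t) *
      (ρ (dl hz ^ n))⁻¹) * (ρ (dl hz))⁻¹ by group, ih, pow_succ', _root_.mul_inv_rev]
    obtain ⟨g, hg, hg1⟩ := exists_fix_act (F := F) (k := k)
      (u := ((z ^ n)⁻¹ * t) • ev 1) (by simp) (by simp [ht])
    have e : ∀ u : F, g * el one_ne_zero u * g⁻¹ = el one_ne_zero (((z ^ n)⁻¹ * t) * u) := fun u => by
      rw [el_fix_conj hg, hg1, smul_smul, el, Known.transvection_eq_tv, mul_comm u]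
      congr 1
      rw [← Pi.single_smul]; simp
    have hc := (h.L1 hG hs hg (dl hz)).symm
    rw [← mul_one ((z ^ n)⁻¹ * t), ← e, map_mul, map_mul, map_inv,
      show ρ (dl hz) * (Φ g * Φ (el one_ne_zero 1) * (Φ g)⁻¹) * (ρ (dl hz))⁻¹ =
        (ρ (dl hz) * Φ g) * Φ (el one_ne_zero 1) * (ρ (dl hz) * Φ g)⁻¹ by group, hc.eq,
      show Φ g * ρ (dl hz) * Φ (el one_ne_zero 1) * (Φ g * ρ (dl hz))⁻¹ =
        Φ g * (ρ (dl hz) * Φ (el one_ne_zero 1) * (ρ (dl hz))⁻¹) * (Φ g)⁻¹ by group, h.hx,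
      ← map_inv, ← map_mul, ← map_mul, e]
    congr 2
    ring

theorem Hy (n : ℕ) (t : F) :
    ρ (dl hz ^ n) * Φ (el zero_ne_one t) * (ρ (dl hz ^ n))⁻¹ =
      Φ (el zero_ne_one (z ^ n * t)) := by
  induction n with
  | zero => simp
  | succ n ih =>
    by_cases ht : z ^ n * t = 0
    · obtain rfl : t = 0 := (mul_eq_zero.1 ht).resolve_left (pow_ne_zero _ hz)
      simp [el]
    rw [pow_succ', map_mul ρ (dl hz), show ρ (dl hz) * ρ (dl hz ^ n) * Φ (el zero_ne_one t) *
      (ρ (dl hz) * ρ (dl hz ^ n))⁻¹ = ρ (dl hz) * (ρ (dl hz ^ n) * Φ (el zero_ne_one t) *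
      (ρ (dl hz ^ n))⁻¹) * (ρ (dl hz))⁻¹ by group, ih, pow_succ']
    obtain ⟨g0, hg0, hg1⟩ := exists_fix_act (F := F) (k := k)
      (u := (z ^ n * t) • ev 1) (by simp) (by simp [ht])
    have e : ∀ u : F, iT g0 * el zero_ne_one u * (iT g0)⁻¹ = el zero_ne_one ((z ^ n * t) * u) :=
      fun u => by
      rw [el_zero_one_conj hg0, hg1, smul_smul, el, Known.transvection_eq_tv, mul_comm u,
        Known.tv_smul_swap _ (by simp)]
      congr 1
      rw [← Pi.single_smul]; simp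
    have hc := (h.L1 hG hs hg0.iT (dl hz)).symm
    rw [← mul_one (z ^ n * t), ← e, map_mul, map_mul, map_inv,
      show ρ (dl hz) * (Φ (iT g0) * Φ (el zero_ne_one 1) * (Φ (iT g0))⁻¹) * (ρ (dl hz))⁻¹ =
        (ρ (dl hz) * Φ (iT g0)) * Φ (el zero_ne_one 1) * (ρ (dl hz) * Φ (iT g0))⁻¹ by group, hc.eq,
      show Φ (iT g0) * ρ (dl hz) * Φ (el zero_ne_one 1) * (Φ (iT g0) * ρ (dl hz))⁻¹ =
        Φ (iT g0) * (ρ (dl hz) * Φ (el zero_ne_one 1) * (ρ (dl hz))⁻¹) * (Φ (iT g0))⁻¹ by group,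
      h.hy, ← map_inv, ← map_mul, ← map_mul, e]
    congr 2
    ring

theorem torX (n : ℕ) (c : F) :
    Φ (diag2n (zero_ne_one' (Fin (k + 3))) z hz ^ n) * ρ (up c) *
      (Φ (diag2n (zero_ne_one' (Fin (k + 3))) z hz ^ n))⁻¹ = ρ (up ((z ^ n) ^ 2 * c)) := by
  rw [h.L2 hs, dl_pow_conj_up, mul_inv_cancel_right]

theorem torY (n : ℕ) (c : F) :
    Φ (diag2n (zero_ne_one' (Fin (k + 3))) z hz ^ n) * ρ (lo c) *
      (Φ (diag2n (zero_ne_one' (Fin (k + 3))) z hz ^ n))⁻¹ = ρ (lo (((z ^ n) ^ 2)⁻¹ * c)) := by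
  rw [h.L2 hs, dl_pow_conj_lo, mul_inv_cancel_right]

theorem halfX [Fintype F] : Half Φ (fun c => ρ (up c)) where
  add a b := by rw [up_add, map_mul]
  fixx g hg c := h.L1 hG hs hg _
  tor t ht := by
    obtain ⟨n, rfl⟩ := hzg t ht
    exact ⟨_, (d_pow (hz := hz) n).1, h.torX hG hs hzg n⟩
  e01 t c := by
    have h1 : ∀ t, Commute (Φ (el zero_ne_one t)) (ρ (up 1)) := fun t => by
      by_cases ht : t = 0
      · subst ht; simp [el]
      obtain ⟨g, hg, hg1⟩ := exists_fix_act (F := F) (k := k) (u := t • ev 1) (by simp) (by simp [ht])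
      have e : el (F := F) (k := k) zero_ne_one t = iT g * el zero_ne_one 1 * (iT g)⁻¹ := by
        rw [el_zero_one_conj hg, hg1, one_smul, el, Known.transvection_eq_tv,
          Known.tv_smul_swap _ (by simp)]
        congr 1
        rw [← Pi.single_smul]; simp
      rw [e, map_mul, map_mul, map_inv]
      exact ((h.L1 hG hs hg.iT _).mul_left h.l3x).mul_left (h.L1 hG hs hg.iT _).inv_left
    refine additive_of_squares (P := fun c => Commute (Φ (el zero_ne_one t)) (ρ (up c)))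
      (fun a b ha hb => by rw [up_add, map_mul]; exact ha.mul_right hb) (fun a ha => ?_)
      (by simp [up]) c
    obtain ⟨n, rfl⟩ := hzg a ha
    obtain ⟨d0, d1, d2, d3⟩ := d_pow (k := k) (hz := hz) n
    have h2 := (h1 (t / (z ^ n) ^ 2)).map
      (MulAut.conj (Φ (diag2n (zero_ne_one' (Fin (k + 3))) z hz ^ n))).toMonoidHom
    simp only [MulEquiv.coe_toMonoidHom, MulAut.conj_apply] at h2
    rw [h.torX hG hs hzg, mul_one, ← map_inv, ← map_mul, ← map_mul, el_conj _ d0 d3] at h2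
    have hzn : z ^ n ≠ 0 := pow_ne_zero _ hz
    convert h2 using 3
    field_simp

theorem halfY [Fintype F] : Half (Φ.comp iT) (fun c => ρ (lo c)) where
  add a b := by rw [lo_add, map_mul]
  fixx g hg c := h.L1 hG hs hg.iT _
  tor t ht := by
    obtain ⟨n, hn⟩ := hzg t⁻¹ (inv_ne_zero ht)
    refine ⟨iT (diag2n (zero_ne_one' (Fin (k + 3))) z hz ^ n), ?_, fun c => ?_⟩
    · rw [(d_pow (hz := hz) n).2.2.1, hn, inv_inv]
    · rw [MonoidHom.comp_apply, iT_iT, h.torY hG hs hzg, hn, inv_pow, inv_inv]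
  e01 t c := by
    have h1 : ∀ t, Commute (Φ (el one_ne_zero t)) (ρ (lo 1)) := fun t => by
      by_cases ht : t = 0
      · subst ht; simp [el]
      obtain ⟨g, hg, hg1⟩ := exists_fix_act (F := F) (k := k) (u := t • ev 1) (by simp) (by simp [ht])
      have e : el (F := F) (k := k) one_ne_zero t = g * el one_ne_zero 1 * g⁻¹ := by
        rw [el_fix_conj hg, hg1, one_smul, el, Known.transvection_eq_tv]
        congr 1
        rw [← Pi.single_smul]; simp
      rw [e, map_mul, map_mul, map_inv]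
      exact ((h.L1 hG hs hg _).mul_left h.l3y).mul_left (h.L1 hG hs hg _).inv_left
    rw [MonoidHom.comp_apply, Sys.iT_el]
    refine additive_of_squares (P := fun c => Commute (Φ (el one_ne_zero (-t))) (ρ (lo c)))
      (fun a b ha hb => by rw [lo_add, map_mul]; exact ha.mul_right hb) (fun a ha => ?_)
      (by simp [lo]) c
    obtain ⟨n, hn⟩ := hzg a⁻¹ (inv_ne_zero ha)
    obtain ⟨d0, d1, d2, d3⟩ := d_pow (k := k) (hz := hz) n
    have h2 := (h1 (-t / a ^ 2)).map
      (MulAut.conj (Φ (diag2n (zero_ne_one' (Fin (k + 3))) z hz ^ n))).toMonoidHom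
    simp only [MulEquiv.coe_toMonoidHom, MulAut.conj_apply] at h2
    rw [h.torY hG hs hzg, mul_one, ← map_inv, ← map_mul, ← map_mul, el_conj _ d1 d2, hn] at h2
    simp only [inv_pow, inv_inv] at h2
    convert h2 using 3
    field_simp

theorem torus_pair (n : ℕ) : ∃ g : SpecialLinearGroup (Fin (k + 3)) F,
    act g (ev 0) = (z ^ n) • ev 0 ∧ act g (ev 1) = (z ^ n) • ev 1 ∧
    act (iT g) (ev 0) = (z ^ n)⁻¹ • ev 0 ∧ act (iT g) (ev 1) = (z ^ n)⁻¹ • ev 1 ∧
    ∀ a, Φ g * ρ a * (Φ g)⁻¹ = ρ (dl hz ^ n * a * (dl hz ^ n)⁻¹) := by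
  set t := z ^ n with ht
  have ht0 : t ≠ 0 := pow_ne_zero _ hz
  have h01 : (0 : Fin (k + 2)) ≠ 1 := by simp
  set g0 := low (diag2n h01 (t * t) (mul_ne_zero ht0 ht0)) with hg0
  have hfix : Fix0 g0 := low_fix _
  have hv : ∀ {M : SpecialLinearGroup (Fin (k + 2)) F} {v : F},
      M.1 *ᵥ Pi.single 0 1 = v • Pi.single 0 1 → act (low M) (ev 1) = v • ev 1 := by
    intro M v hM
    funext i
    induction i using Fin.cases with
    | zero =>
      rw [fix_act_zero (low_fix M)]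
      simp
    | succ i =>
      have := congrFun hM i
      simp only [mulVec_single, MulOpposite.op_one, one_smul] at this
      simp only [act, mulVec_single, MulOpposite.op_one, one_smul]
      rw [← Fin.succ_zero_eq_one]
      refine (low_apply M i 0).trans (this.trans ?_)
      simp [Pi.single_apply, ← Fin.succ_zero_eq_one, -Fin.succ_zero_eq_one']
  have h1 : act g0 (ev 1) = (t * t) • ev 1 := hv (by
    funext i
    by_cases hi : i = 0 <;> simp [diag2n_coe, mulVec_diagonal, hi])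
  have h2 : act (iT g0) (ev 1) = (t * t)⁻¹ • ev 1 := by
    have e := iT_adj g0 (ev (F := F) 1)
    have hsym : (g0 : Mk F k)ᵀ = (g0 : Mk F k) := by
      ext i j
      induction i using Fin.cases with
      | zero =>
        induction j using Fin.cases with
        | zero => rfl
        | succ j =>
          have a := congrFun hfix.1 j.succ
          have b := congrFun hfix.2 j.succ
          simp [act] at a b
          simp [transpose_apply, a, b]
      | succ i =>
        induction j using Fin.cases with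
        | zero =>
          have a := congrFun hfix.1 i.succ
          have b := congrFun hfix.2 i.succ
          simp [act] at a b
          simp [transpose_apply, a, b]
        | succ j =>
          rw [transpose_apply, hg0, low_apply, low_apply]
          simp [diag2n_coe, diagonal_apply, eq_comm]
          split_ifs <;> simp_all
    rw [hsym] at e
    have e2 : act g0 (act (iT g0) (ev 1)) = act g0 ((t * t)⁻¹ • ev 1) := by
      rw [show act g0 ((t * t)⁻¹ • ev 1) = (t * t)⁻¹ • act g0 (ev 1) from mulVec_smul _ _ _, h1,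
        inv_smul_smul₀ (mul_ne_zero ht0 ht0)]
      exact e
    have := congrArg (act g0⁻¹) e2
    rwa [act_inv_act, act_inv_act] at this
  obtain ⟨d0, d1, d2, d3⟩ := d_pow (k := k) (hz := hz) n
  refine ⟨diag2n (zero_ne_one' (Fin (k + 3))) z hz ^ n * g0, ?_, ?_, ?_, ?_, fun a => ?_⟩
  · rw [act_mul, hfix.1, d0]
  · rw [act_mul, h1]
    simp only [act, mulVec_smul]
    refine (congrArg _ d1).trans ?_
    rw [smul_smul, ← ht]
    congr 1
    field_simp
  · rw [map_mul, act_mul, hfix.iT.1, d2]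
  · rw [map_mul, act_mul, h2]
    simp only [act, mulVec_smul]
    refine (congrArg _ d3).trans ?_
    rw [smul_smul, ← ht]
    congr 1
    field_simp
  · rw [map_mul Φ, ← h.L2 hs, show Φ (diag2n (zero_ne_one' (Fin (k + 3))) z hz ^ n) * Φ g0 * ρ a *
      (Φ (diag2n (zero_ne_one' (Fin (k + 3))) z hz ^ n) * Φ g0)⁻¹ =
        Φ (diag2n (zero_ne_one' (Fin (k + 3))) z hz ^ n) * (Φ g0 * ρ a * (Φ g0)⁻¹) *
          (Φ (diag2n (zero_ne_one' (Fin (k + 3))) z hz ^ n))⁻¹ by group,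
      (h.L1 hG hs hfix a).eq, mul_inv_cancel_right]

theorem toSys [Fintype F] : Sys Φ ρ := by
  have hX := h.halfX hG hs hzg
  have hY := h.halfY hG hs hzg
  have hcyy : Commute (ρ (lo 1))
      ((Φ.comp iT) (sw one_ne_zero) * ρ (lo 1) * ((Φ.comp iT) (sw one_ne_zero))⁻¹) := by
    rw [MonoidHom.comp_apply, iT_sw]; exact h.cyy
  have hCx := hX.comm_all h.cxx
  have hCy := hY.comm_all hcyy
  refine
    { gen := h.gen
      L1 := fun g hg a => h.L1 hG hs hg a
      L2x := hX.tor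
      L2y := hY.tor
      L3x := hX.e01
      L3y := fun t c => ?_
      H := fun t => ?_
      Cxx := hCx
      Cyy := fun c d => ?_
      Cyx := fun c d => ?_
      Mx := hX.mix_all hCx (ρ wl) (fun a ha => ?_) h.mx
      My := fun c => ?_ }
  · have := hY.e01 (-t) c
    rwa [MonoidHom.comp_apply, Sys.iT_el, neg_neg] at this
  · obtain ⟨n, hn⟩ := hzg (-1) (neg_ne_zero.2 one_ne_zero)
    have e : (wl * wl : SpecialLinearGroup (Fin 2) F) = dl hz ^ n := by
      refine Subtype.ext ?_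
      rw [val_dl_pow, hn]
      simp only [Linear.val_mul, val_up, val_lo]
      ext i j
      fin_cases i <;> fin_cases j <;> simp [Matrix.mul_apply]
    rw [e, h.Hx hG hs hzg, hn]
    congr 2
    simp [inv_neg]
  · have := hCy c d
    rwa [MonoidHom.comp_apply, iT_sw] at this
  · set P := Φ (sw (F := F) (k := k) one_ne_zero) with hP
    have key : ∀ a b : F, a ≠ 0 → b ≠ 0 →
        Commute (ρ (lo (a ^ 2))) (P * ρ (up (b ^ 2)) * P⁻¹) := by
      intro a b ha hb
      obtain ⟨g, hgb, ⟨hne, -⟩ | ⟨-, hga⟩⟩ := exists_pair_orbit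
        (a := b • ev (F := F) (k := k) 1) (b := a • ev 0) (by simp [hb]) (by simp [ha])
      · simp at hne
      have h1 := h.cyx.map (MulAut.conj (Φ g)).toMonoidHom
      simp only [MulEquiv.coe_toMonoidHom, MulAut.conj_apply] at h1
      have ey := hY.T ha hgb 1
      rw [MonoidHom.comp_apply, iT_iT, mul_one] at ey
      have e2 : act ((sw one_ne_zero)⁻¹ * (g * sw one_ne_zero)) (ev (F := F) (k := k) 0) =
          b • ev 0 := by
        rw [act_mul, act_mul, sw_ev, hga, ← sw_ev one_ne_zero]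
        change act (sw one_ne_zero)⁻¹ (b • act (sw one_ne_zero) (ev 0)) = _
        rw [act, mulVec_smul]
        exact congrArg (b • ·) (act_inv_act _ _)
      have ex := hX.T hb e2 1
      rw [map_mul, map_mul, map_inv, mul_one] at ex
      rw [ey] at h1
      rw [← ex]
      convert h1 using 1
      simp only [P]
      group
    refine additive_of_squares (P := fun c => Commute (ρ (lo c)) (P * ρ (up d) * P⁻¹))
      (fun a b ha hb => by rw [lo_add, map_mul]; exact ha.mul_left hb) (fun a ha => ?_)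
      (by rw [show ρ (lo 0) = 1 by simp [lo]]; exact Commute.one_left _) c
    refine additive_of_squares (P := fun d => Commute (ρ (lo (a ^ 2))) (P * ρ (up d) * P⁻¹))
      (fun b b' hb hb' => by
        rw [up_add, map_mul, show P * (ρ (up b) * ρ (up b')) * P⁻¹ =
          P * ρ (up b) * P⁻¹ * (P * ρ (up b') * P⁻¹) by group]
        exact hb.mul_right hb') (fun b hb => key a b ha hb)
      (by simp [up]) d
  · obtain ⟨n, rfl⟩ := hzg a ha
    obtain ⟨g, g0, g1, i0, i1, hρ⟩ := h.torus_pair hG hs hzg n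
    have hzn : z ^ n ≠ 0 := pow_ne_zero _ hz
    refine ⟨g, g0, g1, ?_, ?_⟩
    · have e := el_conj one_ne_zero g1 i0 (1 : F)
      rw [mul_inv_cancel₀ hzn, one_mul, mul_inv_eq_iff_eq_mul] at e
      exact e
    · have eE := el_conj one_ne_zero g1 i0 (-1 : F)
      rw [mul_inv_cancel₀ hzn, one_mul] at eE
      rw [show Φ g * (ρ wl * Φ (el one_ne_zero (-1)) * (ρ wl)⁻¹) * (Φ g)⁻¹ =
        (Φ g * ρ wl * (Φ g)⁻¹) * (Φ g * Φ (el one_ne_zero (-1)) * (Φ g)⁻¹) *
          (Φ g * ρ wl * (Φ g)⁻¹)⁻¹ by group, hρ, ← map_inv Φ, ← map_mul, ← map_mul, eE]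
      have ew : dl hz ^ n * wl * (dl hz ^ n)⁻¹ = wl * ((dl hz ^ n) ^ 2)⁻¹ := by
        have e2 : wl * (dl hz ^ n)⁻¹ = dl hz ^ n * wl := by
          rw [mul_inv_eq_iff_eq_mul]
          refine Subtype.ext ?_
          simp only [Linear.val_mul, val_dl_pow, val_up, val_lo]
          ext i j
          fin_cases i <;> fin_cases j <;> simp [Matrix.mul_apply, hzn]
        rw [← e2, sq, _root_.mul_inv_rev]
        group
      rw [ew, map_mul, map_inv,
        show ρ wl * (ρ ((dl hz ^ n) ^ 2))⁻¹ * Φ (el one_ne_zero (-1)) *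
          (ρ wl * (ρ ((dl hz ^ n) ^ 2))⁻¹)⁻¹ = ρ wl * ((ρ ((dl hz ^ n) ^ 2))⁻¹ *
          Φ (el one_ne_zero (-1)) * ρ ((dl hz ^ n) ^ 2)) * (ρ wl)⁻¹ by group, ← pow_mul]
      congr 2
      rw [← mul_left_cancel_iff (a := ρ (dl hz ^ (n * 2))), ← mul_right_cancel_iff
        (a := (ρ (dl hz ^ (n * 2)))⁻¹), h.Hx hG hs hzg, pow_mul z,
        show ((z ^ n) ^ 2)⁻¹ * -((z ^ n) ^ 2) = -1 by field_simp]
      group
  · have := hY.mix_all hCy (ρ wl)⁻¹ (fun a ha => ?_) ?_ c
    · simpa only [MonoidHom.comp_apply, Sys.iT_el, iT_sw, neg_neg, inv_inv] using this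
    · obtain ⟨n, hn⟩ := hzg a⁻¹ (inv_ne_zero ha)
      obtain ⟨g, g0, g1, i0, i1, hρ⟩ := h.torus_pair hG hs hzg n
      have hzn : z ^ n ≠ 0 := pow_ne_zero _ hz
      have eg : ∀ t : F, g * el zero_ne_one t * g⁻¹ = el zero_ne_one t := fun t => by
        rw [el_conj zero_ne_one g0 i1, mul_inv_cancel₀ hzn, one_mul]
      refine ⟨iT g, by rw [i0, hn, inv_inv], by rw [i1, hn, inv_inv], ?_, ?_⟩
      · have e : el (F := F) (k := k) one_ne_zero 1 = iT (el zero_ne_one (-1)) := by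
          rw [Sys.iT_el, neg_neg]
        rw [e]
        refine Commute.map ?_ iT
        have := eg (-1)
        rwa [mul_inv_eq_iff_eq_mul] at this
      · simp only [MonoidHom.comp_apply, iT_iT, Sys.iT_el, neg_neg, inv_inv]
        rw [show Φ g * ((ρ wl)⁻¹ * Φ (el zero_ne_one 1) * ρ wl) * (Φ g)⁻¹ =
          (Φ g * ρ wl * (Φ g)⁻¹)⁻¹ * (Φ g * Φ (el zero_ne_one 1) * (Φ g)⁻¹) *
            (Φ g * ρ wl * (Φ g)⁻¹) by group, hρ, ← map_inv Φ, ← map_mul, ← map_mul, eg]
        have e2 : dl hz ^ n * wl * (dl hz ^ n)⁻¹ = (dl hz ^ n) ^ 2 * wl := by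
          rw [mul_inv_eq_iff_eq_mul]
          refine Subtype.ext ?_
          simp only [sq, Linear.val_mul, val_dl_pow, val_up, val_lo]
          ext i j
          fin_cases i <;> fin_cases j <;> simp [Matrix.mul_apply, hzn] <;> field_simp
        have hH := h.Hy hG hs hzg (n * 2) (a ^ 2)
        rw [pow_mul, pow_mul, hn, inv_pow, inv_mul_cancel₀ (pow_ne_zero _ ha)] at hH
        rw [e2, map_mul, ← hH]
        group
    · simpa only [MonoidHom.comp_apply, Sys.iT_el, iT_sw, neg_neg, inv_inv] using h.my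

end Rels

end Cfsg.Agent.SpPres
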