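import Cfsg.Agent.RecogA.CT.Blocks
import Cfsg.Agent.Known.Transv
import Cfsg.Agent.Weights.SL

/-!
Elements of `SL_{k+3}` used for presentations of symplectic groups.
-/

set_option autoImplicit false

namespace Cfsg.Agent.SpPres

open Matrix

variable {F : Type*} [Field F] {k : ℕ}

/-- Vectors of length `k + 3`. -/
abbrev Vc (F : Type*) (k : ℕ) : Type _ := Fin (k + 3) → F

/-- The standard basis vector. -/
abbrev ev (i : Fin (k + 3)) : Vc F k := Pi.single i 1

/-- The action on vectors. -/
abbrev act (g : SpecialLinearGroup (Fin (k + 3)) F) (v : Vc F k) : Vc F k :=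
  (g : Matrix (Fin (k + 3)) (Fin (k + 3)) F) *ᵥ v

theorem act_mul (g h : SpecialLinearGroup (Fin (k + 3)) F) (v : Vc F k) :
    act (g * h) v = act g (act h v) := by
  simp [act, mulVec_mulVec]

theorem act_one (v : Vc F k) : act (1 : SpecialLinearGroup (Fin (k + 3)) F) v = v := by simp [act]

theorem act_inv_act (g : SpecialLinearGroup (Fin (k + 3)) F) (v : Vc F k) :
    act g⁻¹ (act g v) = v := by rw [← act_mul, inv_mul_cancel, act_one]

theorem act_act_inv (g : SpecialLinearGroup (Fin (k + 3)) F) (v : Vc F k) :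
    act g (act g⁻¹ v) = v := by rw [← act_mul, mul_inv_cancel, act_one]

theorem act_ne_zero {g : SpecialLinearGroup (Fin (k + 3)) F} {v : Vc F k} (hv : v ≠ 0) :
    act g v ≠ 0 := fun h => hv (by rw [← act_inv_act g v, h]; simp [act])

/-- The first row and column of `g` are those of the identity. -/
def Fix0 (g : SpecialLinearGroup (Fin (k + 3)) F) : Prop :=
  act g (ev 0) = ev 0 ∧ ev 0 ᵥ* (g : Matrix (Fin (k + 3)) (Fin (k + 3)) F) = ev 0

theorem Fix0.inv {g : SpecialLinearGroup (Fin (k + 3)) F} (h : Fix0 g) : Fix0 g⁻¹ := by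
  refine ⟨by conv_lhs => rw [← h.1, act_inv_act], ?_⟩
  conv_lhs => rw [← h.2, vecMul_vecMul, Known.val_mul_inv, vecMul_one]

/-- The lower block `SL_{k+2}`. -/
noncomputable def low : SpecialLinearGroup (Fin (k + 2)) F →* SpecialLinearGroup (Fin (k + 3)) F :=
  RecogA.CT.ext (Fin.succEmb (k + 2))

theorem low_fix (g : SpecialLinearGroup (Fin (k + 2)) F) : Fix0 (low g) := by
  have h0 : (0 : Fin (k + 3)) ∉ Set.range (Fin.succEmb (k + 2)) := by
    rintro ⟨a, ha⟩
    exact Fin.succ_ne_zero a ha
  constructor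
  · funext i
    simp [act, low, RecogA.CT.ext_apply_right _ g h0 i, Matrix.one_apply, Pi.single_apply]
  · funext i
    simp [low, RecogA.CT.ext_apply_left _ g h0 i, Matrix.one_apply, Pi.single_apply, eq_comm]

theorem low_apply (g : SpecialLinearGroup (Fin (k + 2)) F) (i j : Fin (k + 2)) :
    (low g : Matrix (Fin (k + 3)) (Fin (k + 3)) F) i.succ j.succ = g i j :=
  RecogA.CT.ext_apply_emb (Fin.succEmb (k + 2)) g i j

theorem Fix0.exists_low {g : SpecialLinearGroup (Fin (k + 3)) F} (h : Fix0 g) :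
    ∃ g', low g' = g := by
  have hc : ∀ i, (g : Matrix (Fin (k + 3)) (Fin (k + 3)) F) i 0 = ev (F := F) 0 i := fun i => by
    have := congrFun h.1 i
    simpa [act] using this
  have hr : ∀ j, (g : Matrix (Fin (k + 3)) (Fin (k + 3)) F) 0 j = ev (F := F) 0 j := fun j => by
    have := congrFun h.2 j
    simpa using this
  have hd : ((g : Matrix (Fin (k + 3)) (Fin (k + 3)) F).submatrix Fin.succ Fin.succ).det = 1 := by
    have h1 := g.2
    rw [det_succ_row_zero, Fin.sum_univ_succ] at h1
    simpa [hr, Fin.succAbove_zero, Fin.succ_ne_zero] using h1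
  refine ⟨⟨_, hd⟩, Subtype.ext (Matrix.ext fun i j => ?_)⟩
  have hl := low_fix (⟨_, hd⟩ : SpecialLinearGroup (Fin (k + 2)) F)
  induction i using Fin.cases with
  | zero =>
    have := congrFun hl.2 j
    rw [hr]
    simpa using this
  | succ i =>
    induction j using Fin.cases with
    | zero =>
      have := congrFun hl.1 i.succ
      rw [hc]
      simpa [act] using this
    | succ j => exact low_apply _ i j

theorem exists_fix_act {u : Vc F k} (h0 : u 0 = 0) (hu : u ≠ 0) :
    ∃ g : SpecialLinearGroup (Fin (k + 3)) F, Fix0 g ∧ act g (ev 1) = u := by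
  obtain ⟨h, hh⟩ := Weights.exists_sl_apply_single (k := k + 2) (by omega) (u ∘ Fin.succ) (by
    intro h
    refine hu (funext fun i => ?_)
    induction i using Fin.cases with
    | zero => exact h0
    | succ i => exact congrFun h i)
  refine ⟨low h, low_fix h, funext fun i => ?_⟩
  have h1 : ∀ a, h.1 a 0 = u a.succ := fun a => by
    have := congrFun hh a
    simpa using this
  rw [← Fin.succ_zero_eq_one]
  simp only [act, mulVec_single, MulOpposite.op_one, one_smul]
  induction i using Fin.cases with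
  | zero =>
    have := congrFun (low_fix h).2 (Fin.succ 0)
    simp only [single_vecMul, one_smul] at this
    exact this.trans (by simp [h0])
  | succ i => exact (low_apply h i 0).trans (h1 i)

/-- The inverse transpose. -/
abbrev iT : SpecialLinearGroup (Fin (k + 3)) F →* SpecialLinearGroup (Fin (k + 3)) F :=
  RecogA.CT.invT

theorem val_iT (g : SpecialLinearGroup (Fin (k + 3)) F) :
    (iT g : Matrix (Fin (k + 3)) (Fin (k + 3)) F) =
      ((g⁻¹ : SpecialLinearGroup (Fin (k + 3)) F) : Matrix (Fin (k + 3)) (Fin (k + 3)) F)ᵀ := rfl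

theorem iT_iT (g : SpecialLinearGroup (Fin (k + 3)) F) : iT (iT g) = g := by
  refine Subtype.ext ?_
  rw [val_iT, ← map_inv, val_iT, inv_inv, transpose_transpose]

theorem Fix0.iT {g : SpecialLinearGroup (Fin (k + 3)) F} (h : Fix0 g) : Fix0 (SpPres.iT g) := by
  constructor
  · simp only [act, val_iT, mulVec_transpose]
    exact h.inv.2
  · simp only [val_iT, vecMul_transpose]
    exact h.inv.1

/-- Transvections in the notation of this file. -/
abbrev el {i j : Fin (k + 3)} (h : i ≠ j) (t : F) : SpecialLinearGroup (Fin (k + 3)) F :=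
  SpecialLinearGroup.transvection h t

theorem act_el {i j : Fin (k + 3)} (h : i ≠ j) (t : F) (v : Vc F k) :
    act (el h t) v = v + Pi.single i (t * v j) := by
  simp [act, SpecialLinearGroup.transvection_coe, add_mulVec, single_mulVec_eq, ← Pi.single_smul]

/-- The signed transposition of the indices `0` and `i`. -/
def sw {i : Fin (k + 3)} (h : i ≠ 0) : SpecialLinearGroup (Fin (k + 3)) F :=
  el h 1 * el h.symm (-1) * el h 1

theorem act_sw {i : Fin (k + 3)} (h : i ≠ 0) (v : Vc F k) :
    act (sw h) v = fun j => if j = i then v 0 else if j = 0 then -v i else v j := by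
  simp only [sw, act_mul, act_el]
  funext j
  simp only [Pi.add_apply, Pi.single_apply, Ne.symm h, if_false, if_true, add_zero, one_mul,
    neg_mul]
  by_cases hj : j = i
  · simp [hj, h]
  · by_cases hj0 : j = 0 <;> simp [hj, hj0, Ne.symm h]

theorem sw_ev {i : Fin (k + 3)} (h : i ≠ 0) : act (sw h) (ev (F := F) 0) = ev i := by
  rw [act_sw]
  funext j
  by_cases hj : j = i
  · simp [hj]
  · by_cases hj0 : j = 0 <;> simp [hj, hj0, Ne.symm h]

theorem sw_inv_zero {i : Fin (k + 3)} (h : i ≠ 0) {u : Vc F k} (hu : u i = 0) :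
    act (sw h)⁻¹ u 0 = 0 := by
  have := congrFun (act_sw h (act (sw h)⁻¹ u)) i
  rw [act_act_inv, hu] at this
  simpa using this.symm

theorem iT_sw {i : Fin (k + 3)} (h : i ≠ 0) : iT (sw (F := F) h) = sw h := by
  have e : ∀ {a b : Fin (k + 3)} (hab : a ≠ b) (t : F), iT (el hab t) = el hab.symm (-t) :=
    fun hab t => RecogA.CT.invT_transvection hab t
  simp only [sw, map_mul, e, neg_neg]
  refine Subtype.ext (Matrix.ext_of_mulVec_single fun j => ?_)
  change act (el h.symm (-1) * el h 1 * el h.symm (-1)) (ev j) =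
    act (el h 1 * el h.symm (-1) * el h 1) (ev j)
  simp only [act_mul, act_el]
  funext l
  simp only [Pi.add_apply, Pi.single_apply]
  split_ifs <;> simp_all

theorem exists_sl_pair {v u : Vc F k} (h : LinearIndependent F ![v, u]) :
    ∃ g : SpecialLinearGroup (Fin (k + 3)) F, act g (ev 0) = v ∧ act g (ev 1) = u := by
  classical
  have key : ∀ d j : ℕ, j + d = k + 3 → ∀ v : Fin j → Vc F k, LinearIndependent F v →
      ∃ w : Fin (k + 3) → Vc F k, LinearIndependent F w ∧
        ∀ (i : Fin j) (hi : (i : ℕ) < k + 3), w ⟨i, hi⟩ = v i := by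
    intro d
    induction d with
    | zero =>
      intro j hj v hv
      obtain rfl : j = k + 3 := by omega
      exact ⟨v, hv, fun i _ => rfl⟩
    | succ d ih =>
      intro j hj v hv
      obtain ⟨x, hx⟩ := exists_linearIndependent_snoc_of_lt_finrank hv
        (by rw [Module.finrank_fintype_fun_eq_card, Fintype.card_fin]; omega)
      obtain ⟨w, hw, hwv⟩ := ih (j + 1) (by omega) _ hx
      exact ⟨w, hw, fun i hi => by simpa using hwv i.castSucc hi⟩
  obtain ⟨w, hw, hwv⟩ := key (k + 1) 2 (by omega) _ h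
  have hU : IsUnit (Matrix.of fun i j => w j i : Matrix (Fin (k + 3)) (Fin (k + 3)) F) :=
    Matrix.linearIndependent_cols_iff_isUnit.1 hw
  set M : Matrix (Fin (k + 3)) (Fin (k + 3)) F := Matrix.of fun i j => w j i
  have hd : M.det ≠ 0 := ((Matrix.isUnit_iff_isUnit_det M).1 hU).ne_zero
  set dd : Fin (k + 3) → F := Function.update (fun _ => 1) 2 M.det⁻¹
  refine ⟨⟨M * diagonal dd, ?_⟩, ?_, ?_⟩
  · rw [det_mul, det_diagonal, Finset.prod_update_of_mem (Finset.mem_univ _),
      Finset.prod_const_one, mul_one, mul_inv_cancel₀ hd]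
  · funext i
    have h2 : (0 : Fin (k + 3)) ≠ 2 := by simp [Fin.ext_iff, Nat.mod_eq_of_lt (show 2 < k + 3 by omega)]
    have := congrFun (hwv 0 (by simp)) i
    simpa [act, dd, M, Function.update_of_ne h2] using this
  · funext i
    have h2 : (1 : Fin (k + 3)) ≠ 2 := by simp [Fin.ext_iff, Nat.mod_eq_of_lt (show 2 < k + 3 by omega)]
    have := congrFun (hwv 1 (by simp)) i
    simpa [act, dd, M, Function.update_of_ne h2] using this

theorem exists_sl_one {v : Vc F k} (hv : v ≠ 0) :
    ∃ g : SpecialLinearGroup (Fin (k + 3)) F, act g (ev 0) = v := by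
  have hv1 : LinearIndependent F (![v] : Fin 1 → Vc F k) :=
    .of_subsingleton 0 (by simpa using hv)
  obtain ⟨x, hx⟩ := exists_linearIndependent_snoc_of_lt_finrank hv1
    (by rw [Module.finrank_fintype_fun_eq_card, Fintype.card_fin]; omega)
  have e : (Fin.snoc ![v] x : Fin 2 → Vc F k) = ![v, x] := by
    funext i
    fin_cases i <;> rfl
  rw [e] at hx
  obtain ⟨g, hg, -⟩ := exists_sl_pair hx
  exact ⟨g, hg⟩

theorem ev_zero_ne : (ev 0 : Vc F k) ≠ 0 := by simp [ev]

theorem tv_conj_fix {g : SpecialLinearGroup (Fin (k + 3)) F} (hg : Fix0 g) {u : Vc F k}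
    (hu : u 0 = 0) :
    g * Known.tv u (ev 0) * g⁻¹ = Known.tv (act g u) (ev 0) := by
  rw [Known.tv_conj g (by simpa using hu), hg.inv.2]

theorem act_tv {u f v : Vc F k} (h : f ⬝ᵥ u = 0) : act (Known.tv u f) v = v + (f ⬝ᵥ v) • u := by
  simp [act, Known.val_tv h, add_mulVec, vecMulVec_mulVec]

theorem fix_act_zero {g : SpecialLinearGroup (Fin (k + 3)) F} (hg : Fix0 g) (u : Vc F k) :
    act g u 0 = u 0 := by
  have : act g u 0 = (ev 0 ᵥ* (g : Matrix (Fin (k + 3)) (Fin (k + 3)) F)) ⬝ᵥ u := by
    rw [← dotProduct_mulVec]; simp [act]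
  rw [this, hg.2]
  simp

/-- An element fixing the first vector is a product of a block element and a row transvection. -/
theorem exists_fix_decomp {g : SpecialLinearGroup (Fin (k + 3)) F} (hg : act g (ev 0) = ev 0) :
    ∃ h r, Fix0 h ∧ r 0 = 0 ∧ g = h * Known.tv (ev 0) r := by
  set r : Vc F k := ev 0 ᵥ* (g : Matrix (Fin (k + 3)) (Fin (k + 3)) F) - ev 0 with hr
  have hg0 : (g : Matrix (Fin (k + 3)) (Fin (k + 3)) F) 0 0 = 1 := by
    have := congrFun hg 0
    simpa [act] using this
  have hr0 : r 0 = 0 := by simp [hr, hg0]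
  have hd : r ⬝ᵥ ev (F := F) 0 = 0 := by simpa using hr0
  refine ⟨g * (Known.tv (ev 0) r)⁻¹, r, ⟨?_, ?_⟩, hr0, by rw [inv_mul_cancel_right]⟩
  · rw [act_mul, Known.tv_inv hd, act_tv (by rw [dotProduct_neg, hd, neg_zero]), hd, zero_smul,
      add_zero, hg]
  · rw [Known.val_mul, ← vecMul_vecMul, Known.tv_inv hd,
      Known.val_tv (by rw [dotProduct_neg, hd, neg_zero]), vecMul_add, vecMul_one, vecMul_vecMulVec,
      dotProduct_neg]
    have : (ev 0 ᵥ* (g : Matrix (Fin (k + 3)) (Fin (k + 3)) F)) ⬝ᵥ ev 0 = 1 := by simpa using hg0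
    rw [this, neg_one_smul, hr]
    abel

end Cfsg.Agent.SpPres
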