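import Cfsg.Agent.SpPres.SLFacts

/-!
One unipotent side of a presentation of `Sp_{2m}`: from `SL_m` and one long root group to an action
of the additive group of symmetric matrices.
-/

set_option autoImplicit false
set_option linter.unusedSectionVars false

namespace Cfsg.Agent.SpPres

open Matrix
open scoped IsMulCommutative

variable {F : Type*} [Field F] {k : ℕ} {W : Type*} [Group W]

/-- Square matrices of size `k + 3`. -/
abbrev Mk (F : Type*) (k : ℕ) : Type _ := Matrix (Fin (k + 3)) (Fin (k + 3)) F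

/-- The relations between `SL_m`, a long root group and a Weyl element on one side. -/
structure Side (Φ : SpecialLinearGroup (Fin (k + 3)) F →* W) (x : F → W) (w : W) : Prop where
  add : ∀ a b, x (a + b) = x a * x b
  fixx : ∀ g, Fix0 g → ∀ c, Commute (Φ g) (x c)
  fixw : ∀ g, Fix0 g → Commute (Φ g) w
  diag : ∀ t : F, t ≠ 0 → ∃ g, act g (ev 0) = t • ev 0 ∧ ∀ c, Φ g * x c * (Φ g)⁻¹ = x (t ^ 2 * c)
  e01 : ∀ t c, Commute (Φ (el zero_ne_one t)) (x c)
  comm : ∀ c d, Commute (x c) (Φ (sw one_ne_zero) * x d * (Φ (sw one_ne_zero))⁻¹)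
  mix : ∀ c, Φ (el one_ne_zero 1) * x c * (Φ (el one_ne_zero 1))⁻¹ =
    x c * (Φ (sw one_ne_zero) * x c * (Φ (sw one_ne_zero))⁻¹) *
      (w * Φ (el one_ne_zero (-c)) * w⁻¹)

namespace Side

variable {Φ : SpecialLinearGroup (Fin (k + 3)) F →* W} {x : F → W} {w : W}

theorem x_zero (h : Side Φ x w) : x 0 = 1 := by
  simpa using h.add 0 0

theorem x_comm (h : Side Φ x w) (a b : F) : Commute (x a) (x b) := by
  rw [Commute, SemiconjBy, ← h.add, ← h.add, add_comm]

/-- Conjugation of an element of the stabiliser of the first vector. -/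
theorem stab_commute (h : Side Φ x w) {g : SpecialLinearGroup (Fin (k + 3)) F}
    (hg : act g (ev 0) = ev 0) (c : F) : Commute (Φ g) (x c) := by
  obtain ⟨l, r, hl, hr, rfl⟩ := exists_fix_decomp hg
  rw [map_mul]
  refine (h.fixx l hl c).mul_left ?_
  by_cases hr0 : r = 0
  · subst hr0
    have : Known.tv (ev 0) (0 : Vc F k) = 1 :=
      Subtype.ext (by rw [Known.val_tv (by simp)]; simp [vecMulVec]; ext; simp)
    rw [this, map_one]
    exact Commute.one_left _
  obtain ⟨g2, hg2, hg2r⟩ := exists_fix_act hr hr0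
  have he : Known.tv (ev 0) r = iT g2 * el zero_ne_one 1 * (iT g2)⁻¹ := by
    rw [el, Known.transvection_eq_tv, Known.tv_conj _ (by simp [ev])]
    rw [show (iT g2 : Mk F k) *ᵥ Pi.single 0 (1 : F) = ev 0 from hg2.iT.1, ← map_inv, val_iT,
      inv_inv, vecMul_transpose]
    rw [show (g2 : Mk F k) *ᵥ Pi.single 1 (1 : F) = r from hg2r]
  rw [he, map_mul, map_mul, map_inv]
  exact ((h.fixx _ hg2.iT c).mul_left (h.e01 1 c)).mul_left (h.fixx _ hg2.iT c).inv_left

variable (Φ x) in
open scoped Classical in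
/-- The conjugate of `x c` attached to a vector. -/
noncomputable def Qel (v : Vc F k) (c : F) : W :=
  if h : ∃ g, act g (ev 0) = v then Φ h.choose * x c * (Φ h.choose)⁻¹ else 1

theorem Qel_act (h : Side Φ x w) {g : SpecialLinearGroup (Fin (k + 3)) F} {v : Vc F k}
    (hg : act g (ev 0) = v) (c : F) : Qel Φ x v c = Φ g * x c * (Φ g)⁻¹ := by
  have he : ∃ g, act g (ev 0) = v := ⟨g, hg⟩
  rw [Qel, dif_pos he]
  have h1 : act (g⁻¹ * he.choose) (ev 0) = ev 0 := by
    rw [act_mul, he.choose_spec, ← hg, act_inv_act]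
  have h2 := (h.stab_commute h1 c).eq
  rw [map_mul, map_inv, mul_assoc, inv_mul_eq_iff_eq_mul] at h2
  rw [mul_inv_eq_iff_eq_mul, h2]
  group

theorem Qel_zero : Qel Φ x (0 : Vc F k) = 1 := by
  funext c
  rw [Qel, dif_neg]
  · rfl
  rintro ⟨g, hg⟩
  exact act_ne_zero ev_zero_ne hg

theorem Qel_ev (h : Side Φ x w) (c : F) : Qel Φ x (ev 0) c = x c := by
  rw [h.Qel_act (g := 1) (act_one _)]; simp

theorem Qel_add (h : Side Φ x w) (v : Vc F k) (c d : F) :
    Qel Φ x v (c + d) = Qel Φ x v c * Qel Φ x v d := by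
  by_cases hv : v = 0
  · subst hv; simp [Qel_zero]
  obtain ⟨g, hg⟩ := exists_sl_one hv
  rw [h.Qel_act hg, h.Qel_act hg, h.Qel_act hg, h.add]
  group

theorem Qel_conj (h : Side Φ x w) (g : SpecialLinearGroup (Fin (k + 3)) F) (v : Vc F k) (c : F) :
    Φ g * Qel Φ x v c * (Φ g)⁻¹ = Qel Φ x (act g v) c := by
  by_cases hv : v = 0
  · subst hv
    rw [show act g (0 : Vc F k) = 0 from mulVec_zero _]
    simp [Qel_zero]
  obtain ⟨a, ha⟩ := exists_sl_one hv
  rw [h.Qel_act ha, h.Qel_act (g := g * a) (by rw [act_mul, ha]), map_mul]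
  group

theorem Qel_smul (h : Side Φ x w) (t : F) (v : Vc F k) (c : F) :
    Qel Φ x (t • v) c = Qel Φ x v (t ^ 2 * c) := by
  by_cases hv : v = 0
  · subst hv; simp [Qel_zero]
  by_cases ht : t = 0
  · subst ht
    obtain ⟨a, ha⟩ := exists_sl_one hv
    rw [zero_smul, Qel_zero, h.Qel_act ha]
    simp [h.x_zero]
  obtain ⟨d, hd, hdc⟩ := h.diag t ht
  obtain ⟨a, ha⟩ := exists_sl_one hv
  rw [h.Qel_act ha, h.Qel_act (g := a * d) (by rw [act_mul, hd]; simp only [act, mulVec_smul]; exact congrArg (t • ·) ha),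
    map_mul, ← hdc]
  group

theorem Qel_comm (h : Side Φ x w) (v u : Vc F k) (c d : F) :
    Commute (Qel Φ x v c) (Qel Φ x u d) := by
  by_cases hv : v = 0
  · subst hv; rw [Qel_zero]; exact Commute.one_left _
  by_cases hi : LinearIndependent F ![v, u]
  · obtain ⟨g, hg0, hg1⟩ := exists_sl_pair hi
    have h1 := ((h.comm c d).map (MulAut.conj (Φ g)).toMonoidHom)
    simp only [MulEquiv.coe_toMonoidHom, MulAut.conj_apply] at h1
    rw [h.Qel_act hg0, h.Qel_act (g := g * sw one_ne_zero) (by rw [act_mul, sw_ev, hg1]), map_mul]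
    have e : Φ g * Φ (sw one_ne_zero) * x d * (Φ g * Φ (sw one_ne_zero))⁻¹ =
        Φ g * (Φ (sw one_ne_zero) * x d * (Φ (sw one_ne_zero))⁻¹) * (Φ g)⁻¹ := by group
    rw [e]
    exact h1
  · rw [LinearIndependent.pair_iff' hv] at hi
    push Not at hi
    obtain ⟨a, rfl⟩ := hi
    obtain ⟨g, hg⟩ := exists_sl_one hv
    rw [h.Qel_smul, h.Qel_act hg, h.Qel_act hg]
    exact (h.x_comm c _).map (MulAut.conj (Φ g)).toMonoidHom

variable (Φ x) in
/-- The centraliser of all these conjugates. -/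
def cent : Subgroup W := Subgroup.centralizer (Set.range fun p : Vc F k × F => Qel Φ x p.1 p.2)

theorem Qel_mem (h : Side Φ x w) (v : Vc F k) (c : F) : Qel Φ x v c ∈ cent Φ x := by
  rw [cent, Subgroup.mem_centralizer_iff]
  rintro _ ⟨p, rfl⟩
  exact h.Qel_comm _ _ _ _

variable (Φ x) in
/-- An abelian group containing the unipotent elements, written additively. -/
abbrev U : Type _ := Additive (Subgroup.center (cent Φ x))

/-- The element of `W`. -/
abbrev val (a : U Φ x) : W := ((Additive.toMul a : Subgroup.center (cent Φ x)) : cent Φ x)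

theorem val_add (a b : U Φ x) : val (a + b) = val a * val b := rfl

theorem val_sub (a b : U Φ x) : val (a - b) = val a * (val b)⁻¹ := by
  simp [val, div_eq_mul_inv]

theorem val_inj {a b : U Φ x} (h : val a = val b) : a = b :=
  Additive.toMul.injective (Subtype.ext (Subtype.ext h))

/-- `Qel` as an element of the abelian group. -/
noncomputable def q (h : Side Φ x w) (v : Vc F k) (c : F) : U Φ x :=
  Additive.ofMul ⟨⟨Qel Φ x v c, h.Qel_mem v c⟩, by
    rw [Subgroup.mem_center_iff]
    intro g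
    exact Subtype.ext ((Subgroup.mem_centralizer_iff.1 g.2 _ ⟨(v, c), rfl⟩).symm)⟩

@[simp] theorem val_q (h : Side Φ x w) (v : Vc F k) (c : F) : val (h.q v c) = Qel Φ x v c := rfl

theorem q_add (h : Side Φ x w) (v : Vc F k) (c d : F) : h.q v (c + d) = h.q v c + h.q v d :=
  val_inj (by rw [val_add, val_q, val_q, val_q, h.Qel_add])

theorem q_zero (h : Side Φ x w) (v : Vc F k) : h.q v 0 = 0 := by
  simpa using h.q_add v 0 0

theorem q_smul (h : Side Φ x w) (t : F) (v : Vc F k) (c : F) :
    h.q (t • v) c = h.q v (t ^ 2 * c) := val_inj (h.Qel_smul t v c)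

theorem q_zero_vec (h : Side Φ x w) (c : F) : h.q 0 c = 0 :=
  val_inj (by rw [val_q, Qel_zero]; rfl)

/-- The polar of `q`. -/
noncomputable def b (h : Side Φ x w) (v u : Vc F k) (c : F) : U Φ x :=
  h.q (v + u) c - h.q v c - h.q u c

theorem b_add (h : Side Φ x w) (v u : Vc F k) (c d : F) :
    h.b v u (c + d) = h.b v u c + h.b v u d := by
  simp only [b, q_add]; abel

theorem b_zero (h : Side Φ x w) (v u : Vc F k) : h.b v u 0 = 0 := by
  simp [b, q_zero]

theorem b_symm (h : Side Φ x w) (v u : Vc F k) (c : F) : h.b v u c = h.b u v c := by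
  rw [b, b, add_comm v u]; abel

theorem conj_val_b (h : Side Φ x w) (g : SpecialLinearGroup (Fin (k + 3)) F) (v u : Vc F k)
    (c : F) : Φ g * val (h.b v u c) * (Φ g)⁻¹ = val (h.b (act g v) (act g u) c) := by
  simp only [b, val_sub, val_q]
  rw [show act g v + act g u = act g (v + u) from (mulVec_add _ _ _).symm, ← h.Qel_conj,
    ← h.Qel_conj, ← h.Qel_conj]
  group

variable (Φ w) in
/-- The short root elements at the first index. -/
noncomputable def R (u : Vc F k) : W := w * Φ (Known.tv (-u) (ev 0)) * w⁻¹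

theorem R_add {u t : Vc F k} (hu : u 0 = 0) (ht : t 0 = 0) : R Φ w (u + t) = R Φ w u * R Φ w t := by
  rw [R, R, R, neg_add, Known.tv_add_left (by simp [hu]) (by simp [ht]), map_mul]
  group

theorem R_zero : R Φ w (0 : Vc F k) = 1 := by simp [R, Known.tv_zero_left]

theorem val_b_zero (h : Side Φ x w) {u : Vc F k} (hu : u 0 = 0) (c : F) :
    val (h.b (ev 0) u c) = R Φ w (c • u) := by
  by_cases hu0 : u = 0
  · subst hu0
    simp [b, q_zero_vec, R_zero, val]
  obtain ⟨g, hg, hgu⟩ := exists_fix_act hu hu0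
  have key := h.mix c
  rw [← h.Qel_act (g := el one_ne_zero 1) rfl, ← h.Qel_act (g := sw one_ne_zero) rfl,
    ← h.Qel_ev c, act_el, sw_ev] at key
  have hR : w * Φ (el one_ne_zero (-c)) * w⁻¹ = R Φ w (c • ev 1) := by
    rw [R, el, Known.transvection_eq_tv, ← Pi.single_smul, ← Pi.single_neg, smul_eq_mul, mul_one]
  rw [hR] at key
  have h01 : val (h.b (ev 0) (ev 1) c) = R Φ w (c • ev 1) := by
    have e : (Pi.single 1 (1 * ev (F := F) (k := k) 0 0) : Vc F k) = ev 1 := by simp [ev]
    rw [e] at key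
    have key' : h.q (ev 0 + ev 1) c - h.q (ev 0) c - h.q (ev 1) c = h.b (ev 0) (ev 1) c := rfl
    simp only [b, val_sub, val_q]
    rw [key, mul_assoc (_ * _ * R Φ w (c • ev 1))]
    have c1 : Commute (Qel Φ x (ev 0) c * Qel Φ x (ev 1) c) (R Φ w (c • ev 1)) := by
      have hm : R Φ w (c • ev 1) = (Qel Φ x (ev 0) c * Qel Φ x (ev 1) c)⁻¹ *
          Qel Φ x (ev 0 + ev 1) c := by rw [key]; group
      rw [hm]
      exact (Commute.refl _).inv_right.mul_right
        ((h.Qel_comm _ _ _ _).mul_left (h.Qel_comm _ _ _ _))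
    rw [c1.eq, ← _root_.mul_inv_rev, (h.Qel_comm (ev 1) (ev 0) c c).eq]
    group
  have h2 := h.conj_val_b g (ev 0) (ev 1) c
  rw [hg.1, hgu, h01] at h2
  rw [← h2, R, R]
  have hw := h.fixw g hg
  have hc : (c • ev 1 : Vc F k) 0 = 0 := by simp
  have ht : g * Known.tv (-(c • ev 1)) (ev 0) * g⁻¹ = Known.tv (-(c • u)) (ev 0) := by
    rw [tv_conj_fix hg (by simp), ← hgu]
    simp only [act, mulVec_neg, mulVec_smul]
  rw [← ht, map_mul, map_mul, map_inv]
  rw [← mul_assoc, ← mul_assoc, hw.eq, mul_assoc (_ * Φ (Known.tv (-(c • ev 1)) (ev 0))),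
    ← hw.inv_inv.eq]
  group

theorem exists_swap (i : Fin (k + 3)) : ∃ g : SpecialLinearGroup (Fin (k + 3)) F,
    act g (ev 0) = ev i ∧ ∀ u : Vc F k, u i = 0 → act g⁻¹ u 0 = 0 := by
  by_cases hi : i = 0
  · subst hi
    exact ⟨1, act_one _, fun u hu => by simpa [act] using hu⟩
  · exact ⟨sw hi, sw_ev hi, fun u hu => sw_inv_zero hi hu⟩

theorem b_ev_add (h : Side Φ x w) {i : Fin (k + 3)} {u t : Vc F k} (hu : u i = 0) (ht : t i = 0)
    (c : F) : h.b (ev i) (u + t) c = h.b (ev i) u c + h.b (ev i) t c := by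
  obtain ⟨g, hg, hgu⟩ := exists_swap (F := F) i
  refine val_inj ?_
  have e : ∀ v : Vc F k, v i = 0 → val (h.b (ev i) v c) =
      Φ g * R Φ w (c • act g⁻¹ v) * (Φ g)⁻¹ := fun v hv => by
    rw [← h.val_b_zero (hgu v hv), h.conj_val_b, hg, act_act_inv]
  rw [val_add, e _ (by simp [hu, ht]), e _ hu, e _ ht,
    show act g⁻¹ (u + t) = act g⁻¹ u + act g⁻¹ t from mulVec_add _ _ _, smul_add,
    R_add (by simp [hgu u hu]) (by simp [hgu t ht])]
  group

theorem b_ev_smul (h : Side Φ x w) {i : Fin (k + 3)} {u : Vc F k} (hu : u i = 0) (a c : F) :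
    h.b (ev i) (a • u) c = h.b (ev i) u (a * c) := by
  obtain ⟨g, hg, hgu⟩ := exists_swap (F := F) i
  refine val_inj ?_
  have e : ∀ (v : Vc F k) (d : F), v i = 0 → val (h.b (ev i) v d) =
      Φ g * R Φ w (d • act g⁻¹ v) * (Φ g)⁻¹ := fun v d hv => by
    rw [← h.val_b_zero (hgu v hv), h.conj_val_b, hg, act_act_inv]
  rw [e _ _ (by simp [hu]), e _ _ hu, show act g⁻¹ (a • u) = a • act g⁻¹ u from mulVec_smul _ _ _,
    smul_smul, mul_comm]

/-- The homomorphism from symmetric matrices. -/
noncomputable def S (h : Side Φ x w) (A : Mk F k) : U Φ x :=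
  (∑ i, h.q (ev i) (A i i)) +
    ∑ p ∈ Finset.univ.filter (fun p : Fin (k + 3) × Fin (k + 3) => p.1 < p.2),
      h.b (ev p.1) (ev p.2) (A p.1 p.2)

theorem S_add (h : Side Φ x w) (A B : Mk F k) : h.S (A + B) = h.S A + h.S B := by
  simp only [S, Matrix.add_apply, q_add, b_add, Finset.sum_add_distrib]
  abel

/-- A symmetric pair of entries. -/
def pm (i j : Fin (k + 3)) (c : F) : Mk F k := Matrix.single i j c + Matrix.single j i c

theorem S_single (h : Side Φ x w) (i : Fin (k + 3)) (c : F) :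
    h.S (Matrix.single i i c) = h.q (ev i) c := by
  rw [S, Finset.sum_eq_single i (fun j _ hj => by simp [Matrix.single_apply, Ne.symm hj, h.q_zero])
    (by simp), Finset.sum_eq_zero fun p hp => ?_]
  · simp
  · have : ¬ (i = p.1 ∧ i = p.2) := fun e =>
      (Finset.mem_filter.1 hp).2.ne (e.1.symm.trans e.2)
    simp [Matrix.single_apply, this, h.b_zero]

theorem S_pm (h : Side Φ x w) {i j : Fin (k + 3)} (hij : i ≠ j) (c : F) :
    h.S (pm i j c) = h.b (ev i) (ev j) c := by
  wlog hlt : i < j generalizing i j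
  · rw [pm, add_comm, ← pm, this hij.symm (lt_of_le_of_ne (not_lt.1 hlt) hij.symm), b_symm]
  rw [S, Finset.sum_eq_zero fun l _ => ?_, zero_add, Finset.sum_eq_single (i, j) (fun p hp hne => ?_)
    (by simp [hlt])]
  · simp [pm, Matrix.single_apply, hij, hij.symm]
  · have h1 : ¬ (i = p.1 ∧ j = p.2) := fun e => hne (Prod.ext e.1.symm e.2.symm)
    have h2 : ¬ (j = p.1 ∧ i = p.2) := fun e => by
      have := (Finset.mem_filter.1 hp).2
      rw [← e.1, ← e.2] at this
      exact lt_asymm hlt this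
    simp [pm, Matrix.single_apply, h1, h2, h.b_zero]
  · have h1 : ¬ (i = l ∧ j = l) := fun e => hij (e.1.trans e.2.symm)
    have h2 : ¬ (j = l ∧ i = l) := fun e => hij (e.2.trans e.1.symm)
    simp [pm, Matrix.single_apply, h1, h2, h.q_zero]

/-- The symmetrised product with a basis vector. -/
def sp (i : Fin (k + 3)) (u : Vc F k) (c : F) : Mk F k :=
  c • (vecMulVec (ev i) u + vecMulVec u (ev i))

theorem S_sp (h : Side Φ x w) {i : Fin (k + 3)} {u : Vc F k} (hu : u i = 0) (c : F) :
    h.S (sp i u c) = h.b (ev i) u c := by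
  have key : u i = 0 ∧ h.S (sp i u c) = h.b (ev i) u c := by
    rw [← Finset.univ_sum_single u] at hu ⊢
    refine ⟨hu, ?_⟩
    refine (Finset.sum_induction (fun j => (Pi.single j (u j) : Vc F k))
      (fun v => v i = 0 ∧ h.S (sp i v c) = h.b (ev i) v c) ?_ ?_ ?_).2
    · rintro a b' ⟨ha, hA⟩ ⟨hb, hB⟩
      refine ⟨by simp [ha, hb], ?_⟩
      rw [h.b_ev_add ha hb, ← hA, ← hB, ← h.S_add]
      congr 1
      simp [sp, vecMulVec_add, add_vecMulVec, smul_add]
      abel
    · refine ⟨rfl, ?_⟩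
      have : sp i (0 : Vc F k) c = 0 := by ext a b'; simp [sp, vecMulVec_apply]
      rw [this]
      simp [S, b, q_zero, q_zero_vec]
    · intro j _
      by_cases hj : j = i
      · subst hj
        have hu' : u j = 0 := by simpa [Finset.univ_sum_single] using hu
        rw [hu', Pi.single_zero]
        refine ⟨rfl, ?_⟩
        have : sp j (0 : Vc F k) c = 0 := by ext a b'; simp [sp, vecMulVec_apply]
        rw [this]
        simp [S, b, q_zero, q_zero_vec]
      refine ⟨by simp [Ne.symm hj], ?_⟩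
      have : sp i (Pi.single j (u j)) c = pm i j (c * u j) := by
        ext a b'
        simp only [sp, pm, Matrix.smul_apply, Matrix.add_apply, vecMulVec_apply, Pi.single_apply,
          Matrix.single_apply, smul_eq_mul]
        by_cases h1 : a = i <;> by_cases h2 : b' = j <;> by_cases h3 : a = j <;>
          by_cases h4 : b' = i <;> simp_all [eq_comm]
      rw [this, h.S_pm (Ne.symm hj), mul_comm,
        ← h.b_ev_smul (by simp [ev, Ne.symm hj] : (ev j : Vc F k) i = 0)]
      congr 1
      simp [ev, ← Pi.single_smul]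
  exact key.2

theorem S_vv (h : Side Φ x w) (v : Vc F k) (c : F) : h.S (c • vecMulVec v v) = h.q v c := by
  classical
  suffices ∀ (s : Finset (Fin (k + 3))) (v : Vc F k) (c : F), (∀ i, i ∉ s → v i = 0) →
      h.S (c • vecMulVec v v) = h.q v c from this Finset.univ v c (by simp)
  intro s
  induction s using Finset.induction_on with
  | empty =>
    intro v c hv
    obtain rfl : v = 0 := funext fun i => hv i (by simp)
    simp [S, q_zero, q_zero_vec, b_zero]
  | @insert i s _ ih =>
    intro v c hv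
    set u : Vc F k := Function.update v i 0 with hu
    have hus : ∀ j, j ∉ s → u j = 0 := fun j hj => by
      rcases eq_or_ne j i with rfl | hji
      · simp [hu]
      · simp [hu, hji, hv j (by simp [hj, hji])]
    have hui : u i = 0 := by simp [hu]
    set a := v i with ha
    have hvu : v = a • ev i + u := by
      funext j
      rcases eq_or_ne j i with rfl | hji
      · simp [hui, a]
      · simp [hu, hji]
    have hM : c • vecMulVec v v =
        (c • vecMulVec u u) + Matrix.single i i (a ^ 2 * c) + sp i u (a * c) := by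
      ext p r
      simp only [sp, hu, Matrix.smul_apply, Matrix.add_apply, vecMulVec_apply, Pi.single_apply,
        Matrix.single_apply, smul_eq_mul, Function.update_apply]
      by_cases h1 : p = i <;> by_cases h2 : r = i <;> simp [h1, h2, a, Ne.symm] <;> ring
    rw [hM, h.S_add, h.S_add, ih u c hus, h.S_single, h.S_sp hui]
    by_cases ha0 : a = 0
    · rw [hvu, ha0]
      simp [q_zero, b_zero]
    have e : v = a • (ev i + a⁻¹ • u) := by rw [smul_add, smul_inv_smul₀ ha0, ← hvu]
    rw [e, h.q_smul]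
    have hb : h.q (ev i + a⁻¹ • u) (a ^ 2 * c) =
        h.b (ev i) (a⁻¹ • u) (a ^ 2 * c) + h.q (ev i) (a ^ 2 * c) +
          h.q (a⁻¹ • u) (a ^ 2 * c) := by rw [b]; abel
    rw [hb, h.b_ev_smul hui, h.q_smul a⁻¹ u,
      show a⁻¹ * (a ^ 2 * c) = a * c by field_simp,
      show a⁻¹ ^ 2 * (a ^ 2 * c) = c by field_simp]
    abel

theorem sym_induction {P : Mk F k → Prop} (hadd : ∀ A B, P A → P B → P (A + B))
    (hvv : ∀ (v : Vc F k) (c : F), P (c • vecMulVec v v)) {A : Mk F k} (hA : Aᵀ = A) : P A := by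
  have h0 : P 0 := by simpa using hvv 0 0
  have hd : ∀ i c, P (Matrix.single i i c) := fun i c => by
    convert hvv (ev i) c using 1
    ext a b'
    simp [Matrix.single_apply, Pi.single_apply, vecMulVec_apply, ← ite_and, eq_comm, and_comm]
  have hp : ∀ i j, i ≠ j → ∀ c, P (pm i j c) := fun i j hij c => by
    convert hadd _ _ (hadd _ _ (hvv (ev i + ev j) c) (hd i (-c))) (hd j (-c)) using 1
    ext a b'
    simp only [pm, Matrix.add_apply, Matrix.smul_apply, vecMulVec_apply, Matrix.single_apply,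
      Pi.add_apply, Pi.single_apply, smul_eq_mul]
    by_cases h1 : a = i <;> by_cases h2 : b' = i <;> by_cases h3 : a = j <;>
      by_cases h4 : b' = j <;> simp_all [eq_comm]
  have e : A = (∑ i, Matrix.single i i (A i i)) +
      ∑ p ∈ Finset.univ.filter (fun p : Fin (k + 3) × Fin (k + 3) => p.1 < p.2),
        pm p.1 p.2 (A p.1 p.2) := by
    ext a b'
    have hsymm : A a b' = A b' a := by
      conv_lhs => rw [← hA]
      rfl
    simp only [Matrix.add_apply, Matrix.sum_apply]
    rcases lt_trichotomy a b' with hlt | heq | hgt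
    · rw [Finset.sum_eq_zero fun i _ => ?_, Finset.sum_eq_single (a, b') (fun p hp hne => ?_)
        (by simp [hlt]), zero_add]
      · simp [pm, Matrix.single_apply, hlt.ne, hlt.ne']
      · have h1 : ¬ (p.1 = a ∧ p.2 = b') := fun e => hne (Prod.ext e.1 e.2)
        have h2 : ¬ (p.2 = a ∧ p.1 = b') := fun e => by
          have := (Finset.mem_filter.1 hp).2
          rw [e.1, e.2] at this
          exact lt_asymm hlt this
        simp [pm, Matrix.single_apply, h1, h2]
      · have : ¬ (i = a ∧ i = b') := fun e => hlt.ne (e.1.symm.trans e.2)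
        simp [Matrix.single_apply, this]
    · subst heq
      rw [Finset.sum_eq_single a (fun i _ hi => by simp [Matrix.single_apply, hi]) (by simp),
        Finset.sum_eq_zero fun p hp => ?_, add_zero]
      · simp
      · have h1 : ¬ (p.1 = a ∧ p.2 = a) := fun e =>
          (Finset.mem_filter.1 hp).2.ne (e.1.trans e.2.symm)
        have h2 : ¬ (p.2 = a ∧ p.1 = a) := fun e => h1 ⟨e.2, e.1⟩
        simp [pm, Matrix.single_apply, h1, h2]
    · rw [Finset.sum_eq_zero fun i _ => ?_, Finset.sum_eq_single (b', a) (fun p hp hne => ?_)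
        (by simp [hgt]), zero_add]
      · simp [pm, Matrix.single_apply, hgt.ne, hgt.ne', hsymm]
      · have h1 : ¬ (p.2 = a ∧ p.1 = b') := fun e => hne (Prod.ext e.2 e.1)
        have h2 : ¬ (p.1 = a ∧ p.2 = b') := fun e => by
          have := (Finset.mem_filter.1 hp).2
          rw [e.1, e.2] at this
          exact lt_asymm hgt this
        simp [pm, Matrix.single_apply, h1, h2]
      · have : ¬ (i = a ∧ i = b') := fun e => hgt.ne' (e.1.symm.trans e.2)
        simp [Matrix.single_apply, this]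
  rw [e]
  exact hadd _ _ (Finset.sum_induction _ P hadd h0 fun i _ => hd _ _)
    (Finset.sum_induction _ P hadd h0 fun p hp' => hp p.1 p.2 (Finset.mem_filter.1 hp').2.ne _)

/-- The image in `W` of a symmetric matrix. -/
noncomputable def Sv (h : Side Φ x w) (A : Mk F k) : W := val (h.S A)

theorem Sv_add (h : Side Φ x w) (A B : Mk F k) : h.Sv (A + B) = h.Sv A * h.Sv B := by
  rw [Sv, h.S_add]; rfl

theorem Sv_zero (h : Side Φ x w) : h.Sv 0 = 1 := by
  simpa using h.Sv_add 0 0

theorem Sv_comm (h : Side Φ x w) (A B : Mk F k) : Commute (h.Sv A) (h.Sv B) := by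
  rw [Commute, SemiconjBy, ← h.Sv_add, ← h.Sv_add, add_comm]

theorem Sv_neg (h : Side Φ x w) (A : Mk F k) : h.Sv (-A) = (h.Sv A)⁻¹ :=
  eq_inv_of_mul_eq_one_left (by rw [← h.Sv_add, neg_add_cancel, h.Sv_zero])

theorem Sv_single (h : Side Φ x w) (c : F) : h.Sv (Matrix.single 0 0 c) = x c := by
  rw [Sv, h.S_single, val_q, h.Qel_ev]

theorem Sv_vv (h : Side Φ x w) (v : Vc F k) (c : F) :
    h.Sv (c • vecMulVec v v) = Qel Φ x v c := by rw [Sv, h.S_vv, val_q]

theorem Sv_pm (h : Side Φ x w) {j : Fin (k + 3)} (hj : j ≠ 0) (c : F) :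
    h.Sv (pm 0 j c) = R Φ w (c • ev j) := by
  rw [Sv, h.S_pm hj.symm, h.val_b_zero (by simp [ev, hj.symm])]

theorem Sv_conj (h : Side Φ x w) (g : SpecialLinearGroup (Fin (k + 3)) F) {A : Mk F k}
    (hA : Aᵀ = A) :
    Φ g * h.Sv A * (Φ g)⁻¹ = h.Sv ((g : Mk F k) * A * (g : Mk F k)ᵀ) := by
  refine sym_induction (P := fun A => Φ g * h.Sv A * (Φ g)⁻¹ =
    h.Sv ((g : Mk F k) * A * (g : Mk F k)ᵀ)) (fun A B hA hB => ?_) (fun v c => ?_) hA
  · rw [mul_add, add_mul, h.Sv_add, h.Sv_add, ← hA, ← hB]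
    group
  · rw [h.Sv_vv, h.Qel_conj, ← h.Sv_vv, Matrix.mul_smul, Matrix.smul_mul, mul_vecMulVec,
      vecMulVec_mul, vecMul_transpose]

theorem commute_fix (h : Side Φ x w) {y : W} (hfix : ∀ g, Fix0 g → Commute (Φ g) y)
    (h1 : ∀ d, Commute (Qel Φ x (ev 1) d) y) {D : Mk F k} (hD : Dᵀ = D) (h0 : D *ᵥ ev 0 = 0) :
    Commute (h.Sv D) y := by
  set E : Mk F k := diagonal (Function.update 1 0 0) with hE
  have key : Commute (h.Sv (E * D * E)) y := by
    refine sym_induction (P := fun A => Commute (h.Sv (E * A * E)) y)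
      (fun A B hA hB => ?_) (fun v c => ?_) hD
    · rw [mul_add, add_mul, h.Sv_add]
      exact hA.mul_left hB
    · have e : E * (c • vecMulVec v v) * E =
          c • vecMulVec (Function.update v 0 0) (Function.update v 0 0) := by
        ext i j
        simp only [hE, mul_diagonal, diagonal_mul, Matrix.smul_apply, vecMulVec_apply,
          Function.update_apply, Pi.one_apply, smul_eq_mul]
        split_ifs <;> ring
      rw [e, h.Sv_vv]
      set u := Function.update v 0 0
      by_cases hu : u = 0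
      · rw [hu, Qel_zero]; exact Commute.one_left _
      obtain ⟨g, hg, hgu⟩ := exists_fix_act (u := u) (by simp [u]) hu
      rw [← hgu, ← h.Qel_conj]
      exact ((hfix g hg).mul_left (h1 c)).mul_left (hfix g hg).inv_left
  have e : E * D * E = D := by
    ext i j
    have hc : ∀ i, D i 0 = 0 := fun i => by simpa using congrFun h0 i
    have hr : ∀ j, D 0 j = 0 := fun j => by rw [← hD]; exact hc j
    simp only [hE, mul_diagonal, diagonal_mul, Function.update_apply, Pi.one_apply]
    split_ifs with h1 h2 h2 <;> simp [*]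
  rwa [e] at key

end Side

end Cfsg.Agent.SpPres
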