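import Cfsg.Agent.SpPres.Side
import Cfsg.Agent.Known.SpSpan
import Cfsg.Agent.Linear.Symplectic

/-!
The transvections in a group satisfying the relations of the short presentation of `Sp_{2m}`.
-/

set_option autoImplicit false
set_option linter.unusedSectionVars false

namespace Cfsg.Agent.SpPres

open Matrix

variable {F : Type*} [Field F] {k : ℕ} {W : Type*} [Group W]

/-- Upper transvections in `SL₂`. -/
abbrev up (c : F) : SpecialLinearGroup (Fin 2) F :=
  SpecialLinearGroup.transvection (show (0 : Fin 2) ≠ 1 by decide) c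

/-- Lower transvections in `SL₂`. -/
abbrev lo (c : F) : SpecialLinearGroup (Fin 2) F :=
  SpecialLinearGroup.transvection (show (1 : Fin 2) ≠ 0 by decide) c

/-- The Weyl element of `SL₂`. -/
abbrev wl : SpecialLinearGroup (Fin 2) F := up 1 * lo (-1) * up 1

theorem val_up (c : F) : (up c : Matrix (Fin 2) (Fin 2) F) = !![1, c; 0, 1] := by
  ext i j
  fin_cases i <;> fin_cases j <;> simp [SpecialLinearGroup.transvection_coe]

theorem val_lo (c : F) : (lo c : Matrix (Fin 2) (Fin 2) F) = !![1, 0; c, 1] := by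
  ext i j
  fin_cases i <;> fin_cases j <;> simp [SpecialLinearGroup.transvection_coe]

theorem up_add (a b : F) : up (a + b) = up a * up b := by
  refine Subtype.ext ?_
  rw [Linear.val_mul, val_up, val_up, val_up]
  ext i j
  fin_cases i <;> fin_cases j <;> simp [Matrix.mul_apply, add_comm]

theorem lo_add (a b : F) : lo (a + b) = lo a * lo b := by
  refine Subtype.ext ?_
  rw [Linear.val_mul, val_lo, val_lo, val_lo]
  ext i j
  fin_cases i <;> fin_cases j <;> simp [Matrix.mul_apply, add_comm]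

theorem wl_conj_up (c : F) : wl * up c = lo (-c) * wl := by
  refine Subtype.ext ?_
  simp only [Linear.val_mul, val_up, val_lo]
  ext i j
  fin_cases i <;> fin_cases j <;> simp [Matrix.mul_apply] <;> ring

theorem rank_one_identity {s : F} (hs : s ≠ 0) (c : F) :
    up s * lo (-c) * up (-s) = lo s⁻¹ * up (c * s ^ 2) * lo (-s⁻¹) := by
  refine Subtype.ext ?_
  simp only [Linear.val_mul, val_up, val_lo]
  ext i j
  fin_cases i <;> fin_cases j <;> simp [Matrix.mul_apply] <;> field_simp <;> ring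

/-- The abbreviation for the symplectic group. -/
abbrev Spg (F : Type*) [Field F] (k : ℕ) : Type _ := Matrix.symplecticGroup (Fin (k + 3)) F

open scoped Classical in
/-- The element `[1 0; A 1]` (the identity if `A` is not symmetric). -/
noncomputable def lS (A : Mk F k) : Spg F k :=
  if h : Aᵀ = A then ⟨fromBlocks 1 0 A 1, by
    rw [SymplecticGroup.mem_iff]
    simp [Matrix.J, fromBlocks_multiply, fromBlocks_transpose, h]⟩ else 1

theorem val_lS {A : Mk F k} (h : Aᵀ = A) :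
    (lS A : Matrix (Fin (k + 3) ⊕ Fin (k + 3)) (Fin (k + 3) ⊕ Fin (k + 3)) F) =
      fromBlocks 1 0 A 1 := by rw [lS, dif_pos h]

theorem lS_add {A B : Mk F k} (h : Aᵀ = A) (h' : Bᵀ = B) : lS (A + B) = lS A * lS B :=
  Subtype.ext (by
    rw [val_lS (by rw [transpose_add, h, h']), Submonoid.coe_mul, val_lS h, val_lS h',
      fromBlocks_multiply]
    simp)

theorem levi_conj_lS (g : SpecialLinearGroup (Fin (k + 3)) F) {A : Mk F k} (h : Aᵀ = A) :
    Known.SpSpan.levi g * lS A * (Known.SpSpan.levi g)⁻¹ =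
      lS ((iT g : Mk F k) * A * (iT g : Mk F k)ᵀ) := by
  rw [mul_inv_eq_iff_eq_mul]
  refine Subtype.ext ?_
  rw [val_iT, transpose_transpose, Submonoid.coe_mul, Submonoid.coe_mul, val_lS h,
    val_lS (by rw [transpose_mul, transpose_mul, transpose_transpose, h, Matrix.mul_assoc]),
    Known.SpSpan.val_levi, fromBlocks_multiply, fromBlocks_multiply]
  simp [Matrix.mul_assoc, adjugate_mul]

theorem mulVec_elim_xS {A : Mk F k} (h : Aᵀ = A) (a b : Vc F k) :
    Linear.Symp.app (Known.SpSpan.xS A) (Sum.elim a b) = Sum.elim (a + A *ᵥ b) b := by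
  simp [Linear.Symp.app, Known.SpSpan.val_xS h, fromBlocks_mulVec]

theorem mulVec_elim_lS {A : Mk F k} (h : Aᵀ = A) (a b : Vc F k) :
    Linear.Symp.app (lS A) (Sum.elim a b) = Sum.elim a (b + A *ᵥ a) := by
  simp [Linear.Symp.app, val_lS h, fromBlocks_mulVec, add_comm]

theorem mulVec_elim_levi (g : SpecialLinearGroup (Fin (k + 3)) F) (a b : Vc F k) :
    Linear.Symp.app (Known.SpSpan.levi g) (Sum.elim a b) = Sum.elim (act g a) (act (iT g) b) := by
  simp [Linear.Symp.app, Known.SpSpan.val_levi, fromBlocks_mulVec, act, val_iT]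

theorem tau_elim_zero (b : Vc F k) (c : F) :
    Linear.Symp.tau (Sum.elim (0 : Vc F k) b) c = lS ((-c) • vecMulVec b b) := by
  refine Linear.Symp.sp_ext fun v => ?_
  rw [← Sum.elim_comp_inl_inr v, mulVec_elim_lS (by simp [transpose_vecMulVec]),
    Linear.Symp.app_tau, Forms.sympBil_apply, Known.SpSpan.form_pair, smul_mulVec, vecMulVec_mulVec]
  funext i
  rcases i with i | i <;> simp [dotProduct_comm b] <;> ring

/-- A group satisfying the relations. -/
structure Sys (Φ : SpecialLinearGroup (Fin (k + 3)) F →* W)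
    (ρ : SpecialLinearGroup (Fin 2) F →* W) : Prop where
  gen : Subgroup.closure (Set.range Φ ∪ Set.range ρ) = ⊤
  L1 : ∀ g, Fix0 g → ∀ a, Commute (Φ g) (ρ a)
  L2x : ∀ t : F, t ≠ 0 →
    ∃ g, act g (ev 0) = t • ev 0 ∧ ∀ c, Φ g * ρ (up c) * (Φ g)⁻¹ = ρ (up (t ^ 2 * c))
  L2y : ∀ t : F, t ≠ 0 →
    ∃ g, act g (ev 0) = t • ev 0 ∧ ∀ c, Φ (iT g) * ρ (lo c) * (Φ (iT g))⁻¹ = ρ (lo (t ^ 2 * c))
  L3x : ∀ t c, Commute (Φ (el zero_ne_one t)) (ρ (up c))
  L3y : ∀ t c, Commute (Φ (el one_ne_zero t)) (ρ (lo c))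
  H : ∀ t, ρ (wl * wl) * Φ (el one_ne_zero t) * (ρ (wl * wl))⁻¹ = Φ (el one_ne_zero (-t))
  Cxx : ∀ c d,
    Commute (ρ (up c)) (Φ (sw one_ne_zero) * ρ (up d) * (Φ (sw one_ne_zero))⁻¹)
  Cyy : ∀ c d,
    Commute (ρ (lo c)) (Φ (sw one_ne_zero) * ρ (lo d) * (Φ (sw one_ne_zero))⁻¹)
  Cyx : ∀ c d,
    Commute (ρ (lo c)) (Φ (sw one_ne_zero) * ρ (up d) * (Φ (sw one_ne_zero))⁻¹)
  Mx : ∀ c, Φ (el one_ne_zero 1) * ρ (up c) * (Φ (el one_ne_zero 1))⁻¹ =
    ρ (up c) * (Φ (sw one_ne_zero) * ρ (up c) * (Φ (sw one_ne_zero))⁻¹) *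
      (ρ wl * Φ (el one_ne_zero (-c)) * (ρ wl)⁻¹)
  My : ∀ c, Φ (el zero_ne_one (-1)) * ρ (lo c) * (Φ (el zero_ne_one (-1)))⁻¹ =
    ρ (lo c) * (Φ (sw one_ne_zero) * ρ (lo c) * (Φ (sw one_ne_zero))⁻¹) *
      ((ρ wl)⁻¹ * Φ (el zero_ne_one c) * ρ wl)

namespace Sys

variable {Φ : SpecialLinearGroup (Fin (k + 3)) F →* W} {ρ : SpecialLinearGroup (Fin 2) F →* W}

theorem iT_el {i j : Fin (k + 3)} (h : i ≠ j) (t : F) : iT (el h t) = el h.symm (-t) :=
  RecogA.CT.invT_transvection h t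

theorem sx (h : Sys Φ ρ) : Side Φ (fun c => ρ (up c)) (ρ wl) where
  add a b := by rw [up_add, map_mul]
  fixx g hg c := h.L1 g hg _
  fixw g hg := h.L1 g hg _
  diag := h.L2x
  e01 := h.L3x
  comm := h.Cxx
  mix := h.Mx

theorem sy (h : Sys Φ ρ) : Side (Φ.comp iT) (fun c => ρ (lo c)) (ρ wl)⁻¹ where
  add a b := by rw [lo_add, map_mul]
  fixx g hg c := h.L1 _ hg.iT _
  fixw g hg := (h.L1 _ hg.iT _).inv_right
  diag := h.L2y
  e01 t c := by
    rw [MonoidHom.comp_apply, iT_el]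
    exact h.L3y _ _
  comm c d := by
    rw [MonoidHom.comp_apply, iT_sw]
    exact h.Cyy c d
  mix c := by
    simp only [MonoidHom.comp_apply, iT_el, iT_sw, neg_neg, inv_inv]
    exact h.My c

variable (h : Sys Φ ρ)
include h

theorem S_conj (g : SpecialLinearGroup (Fin (k + 3)) F) {A : Mk F k} (hA : Aᵀ = A) :
    Φ g * h.sx.Sv A * (Φ g)⁻¹ = h.sx.Sv ((g : Mk F k) * A * (g : Mk F k)ᵀ) := h.sx.Sv_conj g hA

theorem S'_conj (g : SpecialLinearGroup (Fin (k + 3)) F) {A : Mk F k} (hA : Aᵀ = A) :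
    Φ g * h.sy.Sv A * (Φ g)⁻¹ = h.sy.Sv ((iT g : Mk F k) * A * (iT g : Mk F k)ᵀ) := by
  have := h.sy.Sv_conj (iT g) hA
  rwa [MonoidHom.comp_apply, iT_iT] at this

theorem Qel_sw (d : F) : Side.Qel Φ (fun c => ρ (up c)) (ev 1) d =
    Φ (sw one_ne_zero) * ρ (up d) * (Φ (sw one_ne_zero))⁻¹ :=
  h.sx.Qel_act (sw_ev one_ne_zero) d

theorem S_commute_lo {D : Mk F k} (hD : Dᵀ = D) (h0 : D *ᵥ ev 0 = 0) (c : F) :
    Commute (h.sx.Sv D) (ρ (lo c)) :=
  h.sx.commute_fix (fun g hg => h.L1 g hg _)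
    (fun d => by rw [h.Qel_sw]; exact (h.Cyx c d).symm) hD h0

theorem S'_commute_up {D : Mk F k} (hD : Dᵀ = D) (h0 : D *ᵥ ev 0 = 0) (c : F) :
    Commute (h.sy.Sv D) (ρ (up c)) := by
  refine h.sy.commute_fix (fun g hg => h.L1 _ hg.iT _) (fun d => ?_) hD h0
  rw [h.sy.Qel_act (sw_ev one_ne_zero), MonoidHom.comp_apply, iT_sw]
  have h1 := (h.Cyx d c).map (MulAut.conj (Φ (sw one_ne_zero))).toMonoidHom
  simp only [MulEquiv.coe_toMonoidHom, MulAut.conj_apply] at h1
  have h2 : Φ (sw one_ne_zero) * (Φ (sw one_ne_zero) * ρ (up c) * (Φ (sw one_ne_zero))⁻¹) *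
      (Φ (sw one_ne_zero))⁻¹ = ρ (up c) := by
    rw [← h.Qel_sw, h.sx.Qel_conj]
    have e : act (sw one_ne_zero) (ev (F := F) (k := k) 1) = (-1 : F) • ev 0 := by
      rw [act_sw]
      funext j
      by_cases hj : j = 1
      · simp [hj]
      · by_cases hj0 : j = 0 <;> simp [hj, hj0]
    rw [e, h.sx.Qel_smul, h.sx.Qel_ev]
    simp
  rwa [h2] at h1

theorem commute_vv {D : Mk F k} (hD : Dᵀ = D) {b : Vc F k} (hb : D *ᵥ b = 0) (c : F) :
    Commute (h.sx.Sv D) (h.sy.Sv (c • vecMulVec b b)) := by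
  by_cases hb0 : b = 0
  · subst hb0
    rw [show (c • vecMulVec (0 : Vc F k) 0) = 0 by ext i j; simp [vecMulVec_apply], Side.Sv_zero]
    exact Commute.one_right _
  obtain ⟨g, hg⟩ := exists_sl_one hb0
  rw [Side.Sv_vv, h.sy.Qel_act hg, MonoidHom.comp_apply]
  have hD' : ((g : Mk F k)ᵀ * D * (g : Mk F k))ᵀ = (g : Mk F k)ᵀ * D * (g : Mk F k) := by
    rw [transpose_mul, transpose_mul, transpose_transpose, hD, Matrix.mul_assoc]
  have h1 := (h.S_commute_lo hD' (by
    rw [← mulVec_mulVec, ← mulVec_mulVec, show (g : Mk F k) *ᵥ ev 0 = b from hg, hb, mulVec_zero])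
    c).map (MulAut.conj (Φ (iT g))).toMonoidHom
  simp only [MulEquiv.coe_toMonoidHom, MulAut.conj_apply] at h1
  rw [h.S_conj _ hD'] at h1
  convert h1 using 3
  rw [val_iT, transpose_transpose]
  simp only [Matrix.mul_assoc, Known.val_mul_inv, mul_one]
  rw [← Matrix.mul_assoc, ← transpose_mul, Known.val_mul_inv, transpose_one, one_mul]

theorem commute_vv' {D : Mk F k} (hD : Dᵀ = D) {a : Vc F k} (ha : D *ᵥ a = 0) (c : F) :
    Commute (h.sy.Sv D) (h.sx.Sv (c • vecMulVec a a)) := by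
  by_cases ha0 : a = 0
  · subst ha0
    rw [show (c • vecMulVec (0 : Vc F k) 0) = 0 by ext i j; simp [vecMulVec_apply], Side.Sv_zero]
    exact Commute.one_right _
  obtain ⟨g, hg⟩ := exists_sl_one ha0
  rw [Side.Sv_vv, h.sx.Qel_act hg]
  set D' : Mk F k := (g : Mk F k)ᵀ * D * (g : Mk F k) with hD0
  have hD' : D'ᵀ = D' := by
    rw [hD0, transpose_mul, transpose_mul, transpose_transpose, hD, Matrix.mul_assoc]
  have h0 : D' *ᵥ ev 0 = 0 := by
    rw [hD0, ← mulVec_mulVec, ← mulVec_mulVec, show (g : Mk F k) *ᵥ ev 0 = a from hg, ha,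
      mulVec_zero]
  have key : Commute (h.sy.Sv D') (ρ (up c)) := h.S'_commute_up hD' h0 c
  have h1 := key.map (MulAut.conj (Φ g)).toMonoidHom
  simp only [MulEquiv.coe_toMonoidHom, MulAut.conj_apply] at h1
  rw [h.S'_conj _ hD'] at h1
  convert h1 using 3
  rw [hD0, val_iT, transpose_transpose]
  simp only [Matrix.mul_assoc, Known.val_mul_inv, mul_one]
  rw [← Matrix.mul_assoc, ← transpose_mul, Known.val_mul_inv, transpose_one, one_mul]

end Sys

end Cfsg.Agent.SpPres
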