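import Cfsg.Agent.SpPres.Cover
import Cfsg.Agent.SympSub.Count
import Cfsg.Agent.Linear.Orders
import Cfsg.Agent.CentralExt.SpCross

/-!
The kernel of the cover is trivial: its exponent divides the index of the Siegel parabolic, and
`Sp_{2m}(q)` has no multiplier in cross characteristic.
-/

set_option autoImplicit false
set_option linter.unusedSectionVars false
set_option maxHeartbeats 800000

namespace Cfsg.Agent.SpPres

open Matrix
open scoped IsMulCommutative

variable {F : Type*} [Field F] {k : ℕ} {W : Type*} [Group W]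

theorem card_strict_pairs (m : ℕ) :
    Fintype.card {p : Fin m × Fin m // p.2 < p.1} = ∑ i : Fin m, (i : ℕ) := by
  rw [Fintype.card_congr (β := Σ i : Fin m, Fin (i : ℕ))
    { toFun := fun p => ⟨p.1.1, ⟨p.1.2, p.2⟩⟩
      invFun := fun s => ⟨(s.1, ⟨s.2, s.2.2.trans s.1.2⟩), s.2.2⟩
      left_inv := fun p => rfl
      right_inv := fun s => rfl }, Fintype.card_sigma]
  simp

theorem card_sym [Fintype F] :
    Nat.card {A : Mk F k // Aᵀ = A} =
      Fintype.card F ^ ((k + 3) ^ 2 - ∑ i : Fin (k + 3), (i : ℕ)) := by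
  have e : {A : Mk F k // Aᵀ = A} ≃ ({p : Fin (k + 3) × Fin (k + 3) // ¬ p.2 < p.1} → F) :=
    { toFun := fun A p => A.1 p.1.1 p.1.2
      invFun := fun f => ⟨fun i j => if h : j < i then f ⟨(j, i), not_lt.2 h.le⟩ else f ⟨(i, j), h⟩,
        Matrix.ext fun i j => by
          show (if h : i < j then _ else _) = (if h : j < i then _ else _)
          rcases lt_trichotomy i j with h | h | h
          · simp [h, not_lt.2 h.le]
          · subst h; rfl
          · simp [h, not_lt.2 h.le]⟩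
      left_inv := fun A => by
        refine Subtype.ext (Matrix.ext fun i j => ?_)
        show (if h : j < i then A.1 j i else A.1 i j) = A.1 i j
        split_ifs
        · exact congrFun (congrFun A.2 i) j
        · rfl
      right_inv := fun f => by
        funext p
        show (if h : p.1.2 < p.1.1 then _ else _) = _
        rw [dif_neg p.2] }
  rw [Nat.card_congr e, Nat.card_fun, Nat.card_eq_fintype_card, Nat.card_eq_fintype_card,
    Fintype.card_subtype_compl, card_strict_pairs, Fintype.card_prod, Fintype.card_fin, sq]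

theorem card_SL_eq [Fintype F] (m : ℕ) [NeZero m] : ∃ c,
    Nat.card (SpecialLinearGroup (Fin m) F) = Fintype.card F ^ (∑ i : Fin m, (i : ℕ)) * c := by
  have h := Linear.card_SL_mul (F := F) m
  have hdvd : Fintype.card F ^ (∑ i : Fin m, (i : ℕ)) ∣
      (Fintype.card F - 1) * Nat.card (SpecialLinearGroup (Fin m) F) := by
    rw [h, ← Finset.prod_pow_eq_pow_sum]
    exact Finset.prod_dvd_prod_of_dvd _ _ fun i _ =>
      Nat.dvd_sub (pow_dvd_pow _ i.2.le) dvd_rfl
  have hc : Nat.Coprime (Fintype.card F ^ (∑ i : Fin m, (i : ℕ))) (Fintype.card F - 1) := by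
    refine Nat.Coprime.pow_left _ ?_
    have h1 := Fintype.one_lt_card (α := F)
    exact (Nat.coprime_self_sub_right (by omega)).2 (Nat.coprime_one_right _)
  exact (hc.dvd_of_dvd_mul_left hdvd)

theorem xS_injective {A B : Mk F k} (hA : Aᵀ = A) (hB : Bᵀ = B)
    {g g' : SpecialLinearGroup (Fin (k + 3)) F}
    (h : Known.SpSpan.xS A * Known.SpSpan.levi g = Known.SpSpan.xS B * Known.SpSpan.levi g') :
    A = B ∧ g = g' := by
  have h' := congrArg Subtype.val h
  simp only [Submonoid.coe_mul, Known.SpSpan.val_xS hA, Known.SpSpan.val_xS hB,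
    Known.SpSpan.val_levi, fromBlocks_multiply] at h'
  obtain ⟨h1, h2, -, h4⟩ := fromBlocks_inj.1 h'
  simp only [mul_zero, zero_mul, add_zero, zero_add, one_mul] at h1 h2 h4
  obtain rfl : g = g' := Subtype.ext h1
  refine ⟨?_, rfl⟩
  have e := congrArg (· * (g : Mk F k)ᵀ) h2
  simpa only [Matrix.mul_assoc, ← transpose_mul, Known.val_mul_inv, transpose_one, mul_one] using e

namespace Sys

variable {Φ : SpecialLinearGroup (Fin (k + 3)) F →* W} {ρ : SpecialLinearGroup (Fin 2) F →* W}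
variable (h : Sys Φ ρ)
include h

/-- The Siegel parabolic inside `W`. -/
noncomputable def par : Subgroup W where
  carrier := {z | ∃ A g, Aᵀ = A ∧ z = h.sx.Sv A * Φ g}
  one_mem' := ⟨0, 1, transpose_zero, by rw [h.sx.Sv_zero, map_one Φ, one_mul]⟩
  mul_mem' := by
    rintro _ _ ⟨A, g, hA, rfl⟩ ⟨B, g', hB, rfl⟩
    refine ⟨A + (g : Mk F k) * B * (g : Mk F k)ᵀ, g * g',
      by rw [transpose_add, hA, transpose_mul, transpose_mul, transpose_transpose, hB,
        Matrix.mul_assoc], ?_⟩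
    rw [h.sx.Sv_add, ← h.S_conj g hB, map_mul Φ g g']
    group
  inv_mem' := by
    rintro _ ⟨A, g, hA, rfl⟩
    have hA' : (-A)ᵀ = -A := by rw [transpose_neg, hA]
    refine ⟨(g⁻¹ : SpecialLinearGroup (Fin (k + 3)) F).1 * (-A) *
      (g⁻¹ : SpecialLinearGroup (Fin (k + 3)) F).1ᵀ, g⁻¹,
      by rw [transpose_mul, transpose_mul, transpose_transpose, hA', Matrix.mul_assoc], ?_⟩
    rw [← h.S_conj g⁻¹ hA', h.sx.Sv_neg, map_inv Φ g]
    group

variable (π : W →* Spg F k) (hπΦ : ∀ g, π (Φ g) = Known.SpSpan.levi g)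
  (hπx : ∀ c, π (ρ (up c)) = Known.SpSpan.xS (Matrix.single 0 0 c))
  (hπy : ∀ c, π (ρ (lo c)) = lS (Matrix.single 0 0 c))
include hπΦ hπx hπy

theorem par_injective {z : W} (hz : z ∈ h.par) (hz1 : π z = 1) : z = 1 := by
  obtain ⟨A, g, hA, rfl⟩ := hz
  rw [map_mul, h.pi_S π hπΦ hπx hπy hA, hπΦ] at hz1
  obtain ⟨rfl, rfl⟩ := xS_injective hA (transpose_zero (m := Fin (k + 3)) (n := Fin (k + 3)) (α := F))
    (g' := 1) (hz1.trans (by rw [map_one, Known.SpSpan.xS_zero, one_mul]))
  rw [h.sx.Sv_zero, map_one Φ, one_mul]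

theorem card_par : Nat.card (h.par.map π) =
    Nat.card {A : Mk F k // Aᵀ = A} * Nat.card (SpecialLinearGroup (Fin (k + 3)) F) := by
  rw [← Nat.card_prod]
  have hm : ∀ (A : Mk F k) (g : SpecialLinearGroup (Fin (k + 3)) F), Aᵀ = A →
      π (h.sx.Sv A * Φ g) ∈ h.par.map π := fun A g hA =>
    Subgroup.mem_map_of_mem π (show _ ∈ h.par from ⟨A, g, hA, rfl⟩)
  let f : {A : Mk F k // Aᵀ = A} × SpecialLinearGroup (Fin (k + 3)) F → h.par.map π :=
    fun p => ⟨π (h.sx.Sv p.1.1 * Φ p.2), hm _ _ p.1.2⟩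
  refine (Nat.card_congr (Equiv.ofBijective f ⟨?_, ?_⟩)).symm
  · rintro ⟨⟨A, hA⟩, g⟩ ⟨⟨B, hB⟩, g'⟩ e
    have e' : π (h.sx.Sv A * Φ g) = π (h.sx.Sv B * Φ g') := congrArg Subtype.val e
    rw [map_mul π, map_mul π, h.pi_S π hπΦ hπx hπy hA, h.pi_S π hπΦ hπx hπy hB, hπΦ, hπΦ] at e'
    obtain ⟨rfl, rfl⟩ := xS_injective hA hB e'
    rfl
  · rintro ⟨_, ⟨_, ⟨A, g, hA, rfl⟩, rfl⟩⟩
    exact ⟨(⟨A, hA⟩, g), rfl⟩

theorem index_par [Fintype F] :
    (h.par.map π).index ∣ ∏ i ∈ Finset.range (k + 3), (Fintype.card F ^ (2 * (i + 1)) - 1) := by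
  obtain ⟨c, hc⟩ := card_SL_eq (F := F) (k + 3)
  have h1 := (h.par.map π).card_mul_index
  rw [h.card_par π hπΦ hπx hπy, SympSub.card_symplecticGroup, card_sym, hc, ← mul_assoc,
    ← pow_add, Nat.sub_add_cancel, SympSub.spOrder, mul_assoc] at h1
  · have h2 := Nat.eq_of_mul_eq_mul_left (pow_pos Fintype.card_pos _) h1
    exact ⟨c, by rw [← h2]; ring⟩
  · calc ∑ i : Fin (k + 3), (i : ℕ) ≤ ∑ _i : Fin (k + 3), (k + 3) :=
          Finset.sum_le_sum fun i _ => i.2.le
      _ = (k + 3) ^ 2 := by simp [sq]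

theorem pow_index_eq_one [Fintype F] {z : W} (hz : π z = 1) : z ^ (h.par.map π).index = 1 := by
  classical
  have hker := h.ker_le_center π hπΦ hπx hπy
  set H : Subgroup W := (h.par.map π).comap π with hH
  have hsurj := h.surjective π hπΦ hπx hπy
  have hidx : H.index = (h.par.map π).index := Subgroup.index_comap_of_surjective _ hsurj
  haveI : H.FiniteIndex := ⟨by rw [hidx]; exact Subgroup.index_ne_zero_of_finite⟩
  have hsec : ∀ u : H, ∃ w0 ∈ h.par, π w0 = π u := fun u => Subgroup.mem_comap.1 u.2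
  choose sec hsec1 hsec2 using hsec
  have hmem : ∀ u : H, (sec u)⁻¹ * u.1 ∈ π.ker := fun u => by
    rw [MonoidHom.mem_ker, map_mul, map_inv, hsec2, inv_mul_cancel]
  let r : H →* Subgroup.center W :=
    { toFun := fun u => ⟨(sec u)⁻¹ * u.1, hker (hmem u)⟩
      map_one' := Subtype.ext (by
        have : sec 1 = 1 := h.par_injective π hπΦ hπx hπy (hsec1 1) (by rw [hsec2]; exact map_one π)
        show (sec 1)⁻¹ * (1 : W) = 1
        rw [this]
        simp)
      map_mul' := fun u u' => Subtype.ext (by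
        have e : sec (u * u') = sec u * sec u' := by
          refine inv_mul_eq_one.1 (h.par_injective π hπΦ hπx hπy
            (mul_mem (inv_mem (hsec1 _)) (mul_mem (hsec1 _) (hsec1 _))) ?_)
          rw [map_mul, map_inv, map_mul, hsec2, hsec2, hsec2, Subgroup.coe_mul, map_mul,
            inv_mul_cancel]
        show (sec (u * u'))⁻¹ * (u.1 * u'.1) = (sec u)⁻¹ * u.1 * ((sec u')⁻¹ * u'.1)
        have hc := Subgroup.mem_center_iff.1 (hker (hmem u)) (sec u')⁻¹
        rw [e, _root_.mul_inv_rev,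
          show (sec u')⁻¹ * (sec u)⁻¹ * (u.1 * u'.1) = (sec u')⁻¹ * ((sec u)⁻¹ * u.1) * u'.1 by group,
          hc]
        group) }
  have hzc := hker (MonoidHom.mem_ker.2 hz)
  have key : ∀ (n : ℕ) (g₀ : W), g₀⁻¹ * z ^ n * g₀ ∈ H → g₀⁻¹ * z ^ n * g₀ = z ^ n := by
    intro n g₀ _
    rw [mul_assoc, ← Subgroup.mem_center_iff.1 (pow_mem hzc n) g₀, inv_mul_cancel_left]
  have ht := MonoidHom.transfer_eq_pow r z key
  have htriv : MonoidHom.transfer r z = 1 := by
    have hle := Abelianization.commutator_subset_ker (MonoidHom.transfer r)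
    rw [h.perfect] at hle
    exact hle (Subgroup.mem_top z)
  rw [htriv] at ht
  have hu := congrArg Subtype.val ht.symm
  change (sec _)⁻¹ * z ^ H.index = 1 at hu
  rw [h.par_injective π hπΦ hπx hπy (hsec1 _) (by rw [hsec2, map_pow, hz, one_pow])] at hu
  rw [← hidx]
  simpa using hu

theorem injective [Fintype F] : Function.Injective π := by
  classical
  have hker := h.ker_le_center π hπΦ hπx hπy
  have hsurj := h.surjective π hπΦ hπx hπy
  obtain ⟨p, hchar⟩ := CharP.exists F
  obtain ⟨f, hp, hcard⟩ := FiniteField.card F p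
  set N := (h.par.map π).index with hN
  have hNp : ¬ p ∣ N := fun hd => by
    have h1 := hd.trans (h.index_par π hπΦ hπx hπy)
    obtain ⟨i, -, hi⟩ := (hp.prime.dvd_finset_prod_iff _).1 h1
    have hpq : p ∣ Fintype.card F ^ (2 * (i + 1)) :=
      dvd_pow (hcard ▸ dvd_pow_self p f.ne_zero) (by omega)
    have hpos : 1 ≤ Fintype.card F ^ (2 * (i + 1)) := Nat.one_le_pow _ _ Fintype.card_pos
    have := Nat.dvd_sub hpq hi
    rw [Nat.sub_sub_self hpos] at this
    exact hp.not_dvd_one this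
  suffices ∀ n, n ∣ N → (∀ z, π z = 1 → z ^ n = 1) → ∀ z, π z = 1 → z = 1 from
    (injective_iff_map_eq_one π).2 (this N dvd_rfl fun z hz => h.pow_index_eq_one π hπΦ hπx hπy hz)
  intro n
  induction n using Nat.strong_induction_on with
  | _ n ih =>
    intro hn hexp z hz
    rcases eq_or_ne n 1 with rfl | hn1
    · simpa using hexp z hz
    have hn0 : n ≠ 0 := fun e =>
      Subgroup.index_ne_zero_of_finite (H := h.par.map π) (Nat.eq_zero_of_zero_dvd (e ▸ hn))
    set r := n.minFac with hr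
    haveI : Fact r.Prime := ⟨Nat.minFac_prime hn1⟩
    obtain ⟨d, hd⟩ : r ∣ n := n.minFac_dvd
    have hrq : ¬ r ∣ Fintype.card F := fun hdv => hNp (by
      rw [hcard] at hdv
      rw [← (Nat.prime_dvd_prime_iff_eq Fact.out hp).1 (Nat.Prime.dvd_of_dvd_pow Fact.out hdv)]
      exact (n.minFac_dvd).trans hn)
    let Kr : Subgroup W :=
      { carrier := {z | ∃ u, π u = 1 ∧ u ^ r = z}
        one_mem' := ⟨1, map_one π, one_pow r⟩
        mul_mem' := by
          rintro _ _ ⟨u, hu, rfl⟩ ⟨v, hv, rfl⟩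
          exact ⟨u * v, by rw [map_mul, hu, hv, one_mul],
            Commute.mul_pow (Subgroup.mem_center_iff.1 (hker hu) v).symm r⟩
        inv_mem' := by
          rintro _ ⟨u, hu, rfl⟩
          exact ⟨u⁻¹, by rw [map_inv, hu, inv_one], inv_pow u r⟩ }
    have hKc : ∀ z ∈ Kr, z ∈ Subgroup.center W := by
      rintro _ ⟨u, hu, rfl⟩
      exact pow_mem (hker hu) r
    haveI : Kr.Normal := ⟨fun z hz g => by
      rw [Subgroup.mem_center_iff.1 (hKc z hz) g, mul_inv_cancel_right]; exact hz⟩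
    have hle : Kr ≤ π.ker := by
      rintro _ ⟨u, hu, rfl⟩
      rw [MonoidHom.mem_ker, map_pow, hu, one_pow]
    let τ : W ⧸ Kr →* Spg F k := QuotientGroup.lift Kr π hle
    have hτs : Function.Surjective τ := fun a => by
      obtain ⟨b, hb⟩ := hsurj a
      exact ⟨b, hb⟩
    have hτc : τ.ker ≤ Subgroup.center (W ⧸ Kr) := by
      intro a ha
      obtain ⟨u, rfl⟩ := QuotientGroup.mk_surjective a
      rw [Subgroup.mem_center_iff]
      intro g
      obtain ⟨v, rfl⟩ := QuotientGroup.mk_surjective g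
      rw [← QuotientGroup.mk_mul, ← QuotientGroup.mk_mul, Subgroup.mem_center_iff.1 (hker ha) v]
    have hτp : IsPGroup r τ.ker := by
      rintro ⟨a, ha⟩
      obtain ⟨u, rfl⟩ := QuotientGroup.mk_surjective a
      refine ⟨1, Subtype.ext ?_⟩
      rw [Subgroup.coe_pow, pow_one, ← QuotientGroup.mk_pow, Subgroup.coe_one,
        QuotientGroup.eq_one_iff]
      exact ⟨u, ha, rfl⟩
    have hroot : ∀ z, π z = 1 → ∃ u, π u = 1 ∧ u ^ r = z := fun z hz => by
      have hzc : (z : W ⧸ Kr) ∈ commutator (W ⧸ Kr) := by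
        have h2 := Subgroup.mem_map_of_mem (QuotientGroup.mk' Kr)
          (show z ∈ commutator W from h.perfect ▸ Subgroup.mem_top z)
        rw [commutator_def, Subgroup.map_commutator] at h2
        exact Subgroup.commutator_mono le_top le_top h2
      have := CentralExt.Free.eq_one_of_free
        (CentralExt.SpCross.not_dvd_schurMult_Sp r hrq (k + 3)) hτs hτc hτp
        (z := (z : W ⧸ Kr)) hz hzc
      exact (QuotientGroup.eq_one_iff z).1 this
    have hdlt : d < n := by
      rw [hd]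
      exact lt_mul_left (Nat.pos_of_ne_zero fun e => hn0 (by simp [hd, e]))
        (Nat.minFac_prime hn1).one_lt
    refine ih d hdlt ((Dvd.intro_left r hd.symm).trans hn) (fun z hz => ?_) z hz
    obtain ⟨u, hu, rfl⟩ := hroot z hz
    rw [← pow_mul, ← hd]
    exact hexp u hu

end Sys

end Cfsg.Agent.SpPres
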